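import Cfsg.Agent.H3.Extraspecial
import Cfsg.Agent.H3.Critical
import Cfsg.Agent.S3761

/-! P. Hall's theorem on `p`-groups of symplectic type. -/

set_option autoImplicit false
set_option maxHeartbeats 400000

namespace Lead.PH
open Subgroup H3 Cfsg
open scoped commutatorElement

variable {G : Type*} [Group G] [Finite G] {p : ℕ} [hp : Fact p.Prime]

omit [Finite G] in
theorem mem_of_coprime {K : Subgroup G} {x : G} {k : ℤ} (hk : ¬ (p : ℤ) ∣ k) (h1 : x ^ k ∈ K) (h2 : x ^ p ∈ K) :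
    x ∈ K := by
  obtain ⟨a, b, e⟩ := (Nat.prime_iff_prime_int.1 hp.out).irreducible.coprime_iff_not_dvd.2 hk
  have := mul_mem (zpow_mem h2 a) (zpow_mem h1 b)
  rwa [← zpow_natCast, ← zpow_mul, ← zpow_mul, ← zpow_add, mul_comm, mul_comm k, e, zpow_one] at this

omit [Finite G] hp in
theorem zpow_mem_of_dvd {K : Subgroup G} {x : G} {k : ℤ} (hk : (p : ℤ) ∣ k) (h : x ^ p ∈ K) : x ^ k ∈ K := by
  obtain ⟨k, rfl⟩ := hk
  rw [zpow_mul, zpow_natCast]; exact zpow_mem h k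

/-- class two, cyclic centre `⟨u⟩`, elementary central quotient -/
structure St (p : ℕ) (z u : G) (H : Subgroup G) : Prop where
  ord : orderOf z = p
  central : z ∈ center G
  zu : z ∈ zpowers u
  cent : ∀ x, x ∈ zpowers u ↔ x ∈ H ∧ ∀ y ∈ H, x * y = y * x
  pow : ∀ x ∈ H, x ^ p ∈ zpowers u
  comm : ∀ x ∈ H, ∀ y ∈ H, ⁅x, y⁆ ∈ zpowers u

theorem om {z u x : G} (ho : orderOf z = p) (hz : z ∈ zpowers u) (hx : x ∈ zpowers u) (h : x ^ p = 1) :
    x ∈ zpowers z := zpowers_le.1 (H8.le_of_card_dvd_of_isCyclic (P := zpowers u) inferInstance (zpowers_le.2 hx)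
  (zpowers_le.2 hz) (by rw [Nat.card_zpowers, Nat.card_zpowers, ho]; exact orderOf_dvd_of_pow_eq_one h))

namespace St
variable {z u : G} {H : Subgroup G} (h : St p z u H)
include h

omit [Finite G] hp in
theorem uH {x : G} (hx : x ∈ zpowers u) : x ∈ H := ((h.cent x).1 hx).1
omit [Finite G] hp in
theorem uc {x y : G} (hx : x ∈ zpowers u) (hy : y ∈ H) : Commute y x := (((h.cent x).1 hx).2 y hy).symm

theorem comm' {x y : G} (hx : x ∈ H) (hy : y ∈ H) : ⁅x, y⁆ ∈ zpowers z := om h.ord h.zu (h.comm x hx y hy) (by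
  rw [← H9.commutator_pow_left (h.uc (h.comm x hx y hy) hx)]
  exact (h.uc (h.pow x hx) hy).symm.commutator_eq)

omit [Finite G] hp in
theorem mul_pow {x y : G} (hx : x ∈ H) (hy : y ∈ H) : (x * y) ^ p = x ^ p * y ^ p * ⁅y, x⁆ ^ p.choose 2 :=
  H9.mul_pow_class_two (h.uc (h.comm y hy x hx) hx) (h.uc (h.comm y hy x hx) hy) p

theorem exists_es (hk : ∀ x ∈ H, ∃ w ∈ zpowers u, (x * w) ^ p ∈ zpowers z) :
    ∃ E ≤ H, IsES p z E ∧ H ≤ E ⊔ zpowers u := by
  let Ω : Subgroup G :=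
    { carrier := {x | x ∈ H ∧ x ^ p ∈ zpowers z}
      one_mem' := ⟨one_mem _, by simp⟩
      mul_mem' := fun hx hy => ⟨mul_mem hx.1 hy.1, by
        rw [h.mul_pow hx.1 hy.1]; exact mul_mem (mul_mem hx.2 hy.2) (pow_mem (h.comm' hy.1 hx.1) _)⟩
      inv_mem' := fun hx => ⟨inv_mem hx.1, by rw [inv_pow]; exact inv_mem hx.2⟩ }
  obtain ⟨E, ⟨h1, h2⟩, h3, hm⟩ := H1.exists_maximal_ge (fun E => E ≤ Ω ∧ E ⊓ zpowers u ≤ zpowers z) (N := zpowers z)
    ⟨zpowers_le.2 ⟨h.uH h.zu, pow_mem (mem_zpowers z) _⟩, inf_le_left⟩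
  have k : Ω ≤ E ⊔ zpowers u := fun e he => by_contra fun hn => by
    have hN : zpowers e ≤ normalizer (E : Set G) := zpowers_le.2 (mem_normalizer_fintype fun m hm => by
      have := mul_mem (h3 (h.comm' he.1 (h1 hm).1)) hm
      rwa [commutatorElement_def, inv_mul_cancel_right] at this)
    refine hn (mem_sup_left (hm (E ⊔ zpowers e) ⟨sup_le h1 (zpowers_le.2 he), fun x hx => ?_⟩ le_sup_left ▸
      mem_sup_right (mem_zpowers e)))
    have hx1 : x ∈ ((E ⊔ zpowers e : Subgroup G) : Set G) := hx.1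
    rw [coe_mul_of_right_le_normalizer_left _ _ hN] at hx1
    obtain ⟨m, hm, _, ⟨k, rfl⟩, rfl⟩ := hx1
    by_cases hk : (p : ℤ) ∣ k
    · exact h2 ⟨mul_mem hm (h3 (zpow_mem_of_dvd hk he.2)), hx.2⟩
    · exact absurd (mem_of_coprime hk ((mul_mem_cancel_left (mem_sup_left hm)).1 (mem_sup_right hx.2))
        (mem_sup_left (h3 he.2))) hn
  have k2 : H ≤ E ⊔ zpowers u := fun x hx => by
    obtain ⟨w, hw, e⟩ := hk x hx
    exact (mul_mem_cancel_right (mem_sup_right hw)).1 (k ⟨mul_mem hx (h.uH hw), e⟩)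
  refine ⟨E, fun x hx => (h1 hx).1, ⟨h.ord, h.central, h3 (mem_zpowers z), fun a ha b hb => h.comm' (h1 ha).1 (h1 hb).1,
    fun a ha => (h1 ha).2, fun a ha hc => h2 ⟨ha, (h.cent a).2 ⟨(h1 ha).1, fun y hy => ?_⟩⟩⟩, k2⟩
  exact ((sup_le (fun b hb => mem_centralizer_singleton_iff.2 (hc b hb).symm) (fun b hb =>
    mem_centralizer_singleton_iff.2 (h.uc hb (h1 ha).1).symm) : _ ≤ centralizer {a}) (k2 hy) a rfl)

omit [Finite G] in
theorem not_mem : u ∉ zpowers (u ^ p) := by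
  rintro ⟨k, hk⟩
  obtain ⟨c, hc⟩ := h.zu
  dsimp only at hk hc
  have : z = (z ^ p) ^ k := by
    rw [← hc, ← zpow_natCast, ← zpow_mul, ← zpow_mul, mul_comm c, zpow_mul, zpow_mul, zpow_natCast, hk]
  rw [← h.ord, pow_orderOf_eq_one, one_zpow] at this
  exact hp.out.ne_one (by rw [← h.ord, this, orderOf_one])

omit [Finite G] hp in
theorem adj {x : G} (hx : x ∈ H) (h2 : x ^ p ∈ zpowers (u ^ p)) : ∃ w ∈ zpowers u, (x * w) ^ p ∈ zpowers z := by
  obtain ⟨k, hk⟩ := h2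
  refine ⟨u ^ (-k), zpow_mem (mem_zpowers u) _, ?_⟩
  dsimp only at hk
  rw [(h.uc (zpow_mem (mem_zpowers u) _) hx).mul_pow, ← hk, ← zpow_natCast, ← zpow_natCast, ← zpow_mul,
    ← zpow_mul, ← zpow_add]
  simp [mul_comm]

theorem pow_mem (hs : ∀ A : Subgroup G, A.Characteristic → IsMulCommutative A → IsCyclic A) [H.Characteristic]
    (hz : p ≠ 2 ∨ z ∈ zpowers (u ^ p)) : ∀ x ∈ H, x ^ p ∈ zpowers (u ^ p) := by
  have hc : ∀ x ∈ H, ∀ y ∈ H, ⁅y, x⁆ ^ p.choose 2 ∈ zpowers (u ^ p) := fun x hx y hy => by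
    obtain ⟨k, hk⟩ := h.comm' hy hx
    rcases hz with hz | hz
    · obtain ⟨c, hc⟩ := H9.odd_dvd_choose_two (hp.out.odd_of_ne_two hz)
      dsimp only at hk
      have : (z ^ k) ^ p = 1 := by
        rw [← zpow_natCast, ← zpow_mul, mul_comm, zpow_mul, zpow_natCast, ← h.ord, pow_orderOf_eq_one, one_zpow]
      rw [hc, pow_mul, ← hk, this, one_pow]; exact one_mem _
    · exact Subgroup.pow_mem _ (hk ▸ zpow_mem hz k) _
  have hU : (zpowers u).Characteristic := by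
    rw [show zpowers u = H ⊓ centralizer H from Subgroup.ext fun x => (h.cent x).trans
      (and_congr_right' (forall₂_congr fun _ _ => eq_comm))]
    infer_instance
  have hU' := H7.zpowers_pow_characteristic hU p
  let K : Subgroup G :=
    { carrier := {x | x ∈ H ∧ x ^ p ∈ zpowers (u ^ p)}
      one_mem' := ⟨one_mem _, by simp⟩
      mul_mem' := fun hx hy => ⟨mul_mem hx.1 hy.1, by
        rw [h.mul_pow hx.1 hy.1]; exact mul_mem (mul_mem hx.2 hy.2) (hc _ hx.1 _ hy.1)⟩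
      inv_mem' := fun hx => ⟨inv_mem hx.1, by rw [inv_pow]; exact inv_mem hx.2⟩ }
  have hK : K.Characteristic := characteristic_iff_le_comap.2 fun φ x hx =>
    ⟨characteristic_iff_le_comap.1 ‹H.Characteristic› φ hx.1, by
      simpa using characteristic_iff_le_comap.1 hU' φ hx.2⟩
  have uK : zpowers u ≤ K := zpowers_le.2 ⟨h.uH (mem_zpowers u), mem_zpowers _⟩
  obtain ⟨w, hw⟩ := H8.exists_zpowers_eq_of_isCyclic (hs (K ⊓ centralizer K) inferInstance
    ⟨⟨fun a b => Subtype.ext (b.2.2 a a.2.1)⟩⟩)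
  have hwK : w ∈ K := (hw ▸ mem_zpowers w : w ∈ K ⊓ centralizer K).1
  have hwu : w ∈ zpowers u := by
    obtain ⟨k, hk⟩ : u ∈ zpowers w := hw ▸ ⟨uK (mem_zpowers u), fun y hy => h.uc (mem_zpowers u) hy.1⟩
    dsimp only at hk
    by_cases hd : (p : ℤ) ∣ k
    · exact absurd (hk ▸ zpow_mem_of_dvd hd (hk ▸ hwK.2)) h.not_mem
    · exact mem_of_coprime hd (hk ▸ mem_zpowers _) (h.pow w hwK.1)
  have hZ : ∀ x ∈ K, (∀ y ∈ K, x * y = y * x) → x ∈ zpowers u := fun x hx hc =>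
    zpowers_le.2 hwu (hw ▸ ⟨hx, fun y hy => (hc y hy).symm⟩)
  obtain ⟨E, hE, hes, hle⟩ := St.exists_es (p := p) (z := z) (u := u) (H := K) ⟨h.ord, h.central, h.zu,
    fun x => ⟨fun hx => ⟨uK hx, fun y hy => (h.uc hx hy.1).symm⟩, fun hx => hZ x hx.1 hx.2⟩,
    fun x hx => h.pow x hx.1, fun x hx y hy => h.comm x hx.1 y hy.1⟩ fun x hx => h.adj hx.1 hx.2
  have k1 : ∀ y ∈ K, y ∈ centralizer (E : Set G) → y ∈ zpowers u := fun y hy hc => hZ y hy fun x hx =>
    ((sup_le (fun b hb => mem_centralizer_singleton_iff.2 (hc b hb)) (fun b hb =>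
      mem_centralizer_singleton_iff.2 (h.uc hb hy.1).symm) : _ ≤ centralizer {y}) (hle hx) y rfl)
  have k2 : ∀ y ∈ H ⊓ centralizer (E : Set G), ∀ x ∈ H ⊓ centralizer (E : Set G), Commute y x := fun y hy x hx => by
    obtain ⟨i, hi⟩ := h.pow y hy.1
    obtain ⟨j, hj⟩ := h.pow x hx.1
    dsimp only at hi hj
    by_cases hd : (p : ℤ) ∣ i
    · exact (h.uc (k1 y ⟨hy.1, hi ▸ zpow_mem_of_dvd hd (mem_zpowers _)⟩ hy.2) hx.1).symm
    obtain ⟨a, b, e⟩ := (Nat.prime_iff_prime_int.1 hp.out).irreducible.coprime_iff_not_dvd.2 hd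
    have hyH : y ∈ H := hy.1
    have h1 := mul_mem (zpow_mem hy (-(b * j))) hx
    have := h.uc (k1 _ ⟨h1.1, by
      rw [h.mul_pow (zpow_mem hyH _) hx.1, ← zpow_natCast (y ^ _), ← zpow_mul, mul_comm (-(b * j)), zpow_mul,
        zpow_natCast, ← hi, ← hj, ← zpow_mul, ← zpow_add]
      exact mul_mem (zpow_mem_of_dvd ⟨a * j, by linear_combination (-j) * e⟩ (mem_zpowers _))
        (hc _ (zpow_mem hyH _) _ hx.1)⟩ h1.2) hy.1
    simpa using ((Commute.refl y).zpow_right (b * j)).mul_right this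
  have k3 : ∀ g ∈ H, ∃ e ∈ E, g * e ∈ H ⊓ centralizer (E : Set G) := fun g hg => by
    obtain ⟨e, he, h1⟩ := hes.exists_mul_mem_centralizer (g := g) fun a ha => h.comm' (hE ha).1 hg
    exact ⟨e, he, mul_mem hg (hE he).1, h1⟩
  intro g hg
  obtain ⟨e, he, h1⟩ := k3 g hg
  refine ((mul_mem_cancel_right (hE he)).1 (uK ((h.cent _).2 ⟨h1.1, fun y hy => ?_⟩))).2
  obtain ⟨e', he', h2⟩ := k3 y hy
  simpa using ((k2 _ h1 _ h2).mul_right (show Commute e' _ from h1.2 e' he').symm.inv_right).eq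

end St

omit [Finite G] in
theorem dich (hG : IsPGroup p G) {z u : G} (hz : z ∈ zpowers u) : z ∈ zpowers (u ^ p) ∨ u ∈ zpowers z := by
  obtain ⟨c, rfl⟩ := hz
  refine (em ((p : ℤ) ∣ c)).imp (fun h => zpow_mem_of_dvd h (mem_zpowers _)) fun h => mem_zpowers_zpow_iff.2 ?_
  obtain ⟨m, hm⟩ := IsPGroup.iff_orderOf.1 hG u
  rw [hm, Nat.cast_pow, ← Int.isCoprime_iff_gcd_eq_one]
  exact ((Nat.prime_iff_prime_int.1 hp.out).irreducible.coprime_iff_not_dvd.2 h).symm.pow_right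

theorem St.es {z u : G} {H : Subgroup G} (h : St p z u H) (hG : IsPGroup p G)
    (hs : ∀ A : Subgroup G, A.Characteristic → IsMulCommutative A → IsCyclic A) [H.Characteristic] :
    ∃ E ≤ H, IsES p z E ∧ H ≤ E ⊔ zpowers u := h.exists_es fun x hx => (dich hG h.zu).elim
  (fun k => h.adj hx (h.pow_mem hs (Or.inr k) x hx)) fun k =>
    ⟨1, one_mem _, by rw [mul_one]; exact zpowers_le.2 k (h.pow x hx)⟩

theorem fin {z : G} {E R : Subgroup G} (hE : IsES p z E) (hz : z ∈ R) (hc : ∀ e ∈ E, ∀ r ∈ R, e * r = r * e)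
    (ht : E ⊔ R = ⊤) {P : Prop} (hP : P) : ∃ E : Subgroup G, (∀ e ∈ E, ∀ r ∈ R, e * r = r * e) ∧ E ⊔ R = ⊤ ∧
      (E = ⊥ ∨ IsExtraspecial p E) ∧ P := by
  by_cases h : E ≤ zpowers z
  · exact ⟨⊥, by simp, by rw [bot_sup_eq, ← ht, sup_eq_right.2 (h.trans (zpowers_le.2 hz))], Or.inl rfl, hP⟩
  have k : ∀ a : E, a ∈ zpowers (⟨z, hE.mem⟩ : E) ↔ a.1 ∈ zpowers z := fun a =>
    ⟨fun ⟨k, hk⟩ => ⟨k, congrArg Subtype.val hk⟩, fun ⟨k, hk⟩ => ⟨k, Subtype.ext hk⟩⟩
  refine ⟨E, hc, ht, Or.inr (IsES.isExtraspecial (z := ⟨z, hE.mem⟩) ⟨(orderOf_mk _ _).trans hE.ord,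
    mem_center_iff.2 fun g => Subtype.ext (mem_center_iff.1 hE.central g), trivial,
    fun a _ b _ => (k _).2 (hE.comm a a.2 b b.2), fun a _ => (k _).2 (hE.pow a a.2), fun a _ hc => (k _).2
      (hE.cent a a.2 fun b hb => congrArg Subtype.val (hc ⟨b, hb⟩ trivial))⟩ fun e => h fun a ha => ?_), hP⟩
  exact (k ⟨a, ha⟩).1 (e ▸ mem_top _)

theorem modular {z u m : G} {E : Subgroup G} (hE : IsES p z E) (hz : z ∈ zpowers (u ^ p)) [(zpowers u).Normal]
    (hu : u ∈ centralizer (E : Set G)) (hC : ∀ r ∈ centralizer (E : Set G), Commute u r → r ∈ zpowers u)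
    (hG : ∀ g, ∃ e ∈ E, g * e ∈ centralizer (E : Set G)) (h1 : m ∈ centralizer (E : Set G))
    (h2 : Commute (u ^ p) m) (h3 : m ∉ zpowers u) : St p z (u ^ p) (centralizer (zpowers (u ^ p))) := by
  have hz' : z ∈ zpowers u := zpowers_le.2 (pow_mem (mem_zpowers u) p) hz
  have : (zpowers z).Normal := ⟨fun a ha g => by
    rwa [(commute_of_mem_zpowers_central hE.central ha g).eq, mul_inv_cancel_right]⟩
  have zc : ∀ w ∈ zpowers z, ∀ g, Commute g w := fun w hw => commute_of_mem_zpowers_central hE.central hw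
  let π := QuotientGroup.mk' (zpowers z)
  have hπ : ∀ x y, Commute (π x) (π y) ↔ ⁅x, y⁆ ∈ zpowers z := fun x y => by
    rw [← commutatorElement_eq_one_iff_commute, ← map_commutatorElement]; exact QuotientGroup.eq_one_iff _
  have k0 : ∀ g, Commute (u ^ p) g → ⁅u, g⁆ ∈ zpowers z := fun g hg => by
    have : ⁅u, g⁆ ∈ zpowers u := by
      rw [commutatorElement_def, mul_assoc, mul_assoc, ← mul_assoc g]
      exact mul_mem (mem_zpowers u) (Normal.conj_mem ‹_› _ (inv_mem (mem_zpowers u)) g)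
    refine om hE.ord hz' this ?_
    obtain ⟨k, hk⟩ := this
    rw [← H9.commutator_pow_left (hk ▸ (Commute.refl u).zpow_right k)]; exact hg.commutator_eq
  have k1 : ∀ {i : ℤ} {r}, ¬ (p : ℤ) ∣ i → Commute (u ^ i) r → Commute (u ^ p) r → Commute u r := fun hi e1 e2 =>
    mem_centralizer_singleton_iff.1 (mem_of_coprime hi (mem_centralizer_singleton_iff.2 e1)
      (mem_centralizer_singleton_iff.2 e2))
  have kU : ∀ w ∈ zpowers u, ∀ g, Commute (u ^ p) g → Commute (π w) (π g) := by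
    rintro _ ⟨k, rfl⟩ g hg
    rw [map_zpow]; exact ((hπ _ _).2 (k0 g hg)).zpow_left k
  have k2 : ∀ r ∈ centralizer (E : Set G), Commute (u ^ p) r → r ^ p ∈ zpowers (u ^ p) := fun r hr h => by
    obtain ⟨i, hi⟩ := hC _ (pow_mem hr p) (commutatorElement_eq_one_iff_commute.1 (by
      obtain ⟨k, hk⟩ := k0 r h
      rw [H9.commutator_pow_right (zc _ (k0 r h) r), ← hk, ← zpow_natCast, ← zpow_mul, mul_comm, zpow_mul,
        zpow_natCast, hE.pow_eq_one, one_zpow]))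
    dsimp only at hi
    by_cases hd : (p : ℤ) ∣ i
    · exact hi ▸ zpow_mem_of_dvd hd (mem_zpowers _)
    · obtain ⟨k, rfl⟩ := hC r hr (k1 hd (hi ▸ (Commute.refl r).pow_left p) h)
      exact ⟨k, by simp only [← zpow_natCast, ← zpow_mul, mul_comm]⟩
  have k3 : ∀ r ∈ centralizer (E : Set G), Commute (u ^ p) r → ∀ s ∈ centralizer (E : Set G), Commute (u ^ p) s →
      Commute (π r) (π s) := fun r hr h s hs h' => by
    obtain ⟨i, hi⟩ := k0 r h
    obtain ⟨j, hj⟩ := k0 s h'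
    dsimp only at hi hj
    have kz : ∀ k : ℤ, (p : ℤ) ∣ k → z ^ k = 1 := fun k hk => mem_bot.1 (zpow_mem_of_dvd hk hE.pow_eq_one)
    by_cases hd : (p : ℤ) ∣ i
    · exact kU r (hC r hr (commutatorElement_eq_one_iff_commute.1 (hi ▸ kz i hd))) s h'
    obtain ⟨a, b, e⟩ := (Nat.prime_iff_prime_int.1 hp.out).irreducible.coprime_iff_not_dvd.2 hd
    have := kU _ (hC _ (mul_mem (zpow_mem hr (-(b * j))) hs) (commutatorElement_eq_one_iff_commute.1 (by
      rw [H9.commutator_mul_right_of_commute (zc _ (k0 s h') _), H9.commutator_zpow_right (zc _ (k0 r h) _), ← hi,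
        ← hj, ← zpow_mul, ← zpow_add]
      exact kz _ ⟨a * j, by linear_combination (-j) * e⟩))) r h
    simpa using (((Commute.refl (π r)).zpow_right (b * j)).mul_right this.symm)
  have k4 : ∀ g, Commute (u ^ p) g → ∃ e ∈ E, ∃ r ∈ centralizer (E : Set G), Commute (u ^ p) r ∧ g = r * e :=
    fun g hg => by
      obtain ⟨e, he, h⟩ := hG g
      exact ⟨e⁻¹, inv_mem he, _, h, 
        hg.mul_right ((show Commute e u from hu e he).symm.pow_left p), by simp⟩
  refine ⟨hE.ord, hE.central, hz, fun x => ⟨?_, fun hx => ?_⟩, fun x hx => ?_, fun x hx y hy => ?_⟩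
  · rintro ⟨k, rfl⟩
    exact ⟨H9.mem_centralizer_zpowers.2 ((Commute.refl _).zpow_right k), fun y hy =>
      ((H9.mem_centralizer_zpowers.1 hy).zpow_left k).eq⟩
  · obtain ⟨i, rfl⟩ := hC x (fun e he => (hx.2 e (H9.mem_centralizer_zpowers.2
      ((show Commute e u from hu e he).symm.pow_left p))).symm)
      (hx.2 u (H9.mem_centralizer_zpowers.2 ((Commute.refl u).pow_left p))).symm
    exact by_contra fun hn => h3 (hC m h1 (k1 (fun hd => hn (zpow_mem_of_dvd hd (mem_zpowers _)))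
      (hx.2 m (H9.mem_centralizer_zpowers.2 h2)) h2))
  · obtain ⟨e, he, r, hr, h, rfl⟩ := k4 x (H9.mem_centralizer_zpowers.1 hx)
    rw [(show Commute e r from hr e he).symm.mul_pow]
    exact mul_mem (k2 r hr h) (zpowers_le.2 hz (hE.pow e he))
  · obtain ⟨e, he, r, hr, h, rfl⟩ := k4 x (H9.mem_centralizer_zpowers.1 hx)
    obtain ⟨f, hf, s, hs, h', rfl⟩ := k4 y (H9.mem_centralizer_zpowers.1 hy)
    refine zpowers_le.2 hz ((hπ _ _).1 ?_)
    rw [map_mul, map_mul]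
    exact ((k3 r hr h s hs h').mul_right ((show Commute f r from hr f hf).symm.map π)).mul_left
      (((show Commute e s from hs e he).map π).mul_right ((hπ _ _).2 (hE.comm e he f hf)))

theorem main (hG : IsPGroup p G) (hs : ∀ A : Subgroup G, A.Characteristic → IsMulCommutative A → IsCyclic A) :
    ∃ R E : Subgroup G, (∀ e ∈ E, ∀ r ∈ R, e * r = r * e) ∧ E ⊔ R = ⊤ ∧ (E = ⊥ ∨ IsExtraspecial p E) ∧
      (IsCyclic R ∨ (p = 2 ∧ 16 ≤ Nat.card R ∧ ((∃ m : ℕ, Nonempty (R ≃* DihedralGroup m)) ∨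
        (∃ m : ℕ, Nonempty (R ≃* QuaternionGroup m)) ∨ IsQuasiDihedral R))) := by
  rcases subsingleton_or_nontrivial G with h0 | h0
  · exact ⟨⊥, ⊥, by simp, Subsingleton.elim _ _, Or.inl rfl, Or.inl inferInstance⟩
  obtain ⟨H, hH, -, h1, h2, h3⟩ := exists_critical hG ⊥
  obtain ⟨u, hu⟩ := H8.exists_zpowers_eq_of_isCyclic (hs (centralizer H) inferInstance
    ⟨⟨fun a b => Subtype.ext (b.2 a (h3 a.2))⟩⟩)
  obtain ⟨z, -, hz, ho⟩ := H9.exists_mem_center_orderOf_eq hG (M := ⊤) top_ne_bot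
  have kc : ∀ x ∈ H, ∀ g, ⁅x, g⁆ ∈ zpowers u := fun x hx g => hu ▸ (h2 (commutator_mem_commutator hx (mem_top g))).2
  have hS : St p z u H := ⟨ho, hz, hu ▸ center_le_centralizer _ hz, fun x => hu ▸ ⟨fun hx => ⟨h3 hx, fun y hy =>
    (hx y hy).symm⟩, fun hx y hy => (hx.2 y hy).symm⟩, hu ▸ h1, fun x hx y _ => kc x hx y⟩
  obtain ⟨E, hEH, hE, hle⟩ := hS.es hG hs
  have hUc : (zpowers u).Characteristic := hu ▸ inferInstance
  have huR : u ∈ centralizer (E : Set G) := fun e he => hS.uc (mem_zpowers u) (hEH he)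
  have hC : ∀ r ∈ centralizer (E : Set G), Commute u r → r ∈ zpowers u := fun r hr h => hu ▸ fun x hx =>
    ((sup_le (fun b hb => mem_centralizer_singleton_iff.2 (hr b hb)) (zpowers_le.2
      (mem_centralizer_singleton_iff.2 h)) : _ ≤ centralizer {r}) (hle hx) r rfl).symm
  have hg : ∀ g, ∃ e ∈ E, g * e ∈ centralizer (E : Set G) := fun g => hE.exists_mul_mem_centralizer fun a ha =>
    om ho hS.zu (kc a (hEH ha) g) (by
      rw [← H9.commutator_pow_left (hS.uc (kc a (hEH ha) g) (hEH ha))]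
      exact (commute_of_mem_zpowers_central hz (hE.pow a ha) g).symm.commutator_eq)
  by_cases hm : ∃ m ∈ centralizer (E : Set G), Commute (u ^ p) m ∧ m ∉ zpowers u
  · obtain ⟨m, m1, m2, m3⟩ := hm
    have hS' := modular hE ((dich hG hS.zu).resolve_right fun h => m3 (hC m m1
      (commute_of_mem_zpowers_central hz h m).symm)) huR hC hg m1 m2 m3
    have := H7.zpowers_pow_characteristic hUc p
    have h4 := (dich hG hS'.zu).resolve_left fun h => hS'.not_mem (hS'.pow_mem hs (Or.inr h) u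
      (H9.mem_centralizer_zpowers.2 ((Commute.refl u).pow_left p)))
    obtain ⟨E', -, hE', hle'⟩ := hS'.es hG hs
    exact ⟨zpowers z, fin hE' (mem_zpowers z) (fun e _ r hr => commute_of_mem_zpowers_central hz hr e)
      (eq_top_iff.2 fun g _ => sup_le_sup_left (zpowers_le.2 h4) _ (hle' (H9.mem_centralizer_zpowers.2
        (commute_of_mem_zpowers_central hz h4 g).symm))) (Or.inl inferInstance)⟩
  push Not at hm
  refine ⟨centralizer E, fin hE (center_le_centralizer _ hz) (fun e he r hr => hr e he) (eq_top_iff.2 fun g _ => by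
    obtain ⟨e, he, h⟩ := hg g
    exact (mul_mem_cancel_right (mem_sup_left he)).1 (mem_sup_right h)) ?_⟩
  by_cases hR : centralizer (E : Set G) ≤ zpowers u
  · exact Or.inl (isCyclic_of_le hR)
  right
  set R := centralizer (E : Set G)
  let v : R := ⟨u, huR⟩
  have k : ∀ a : R, a ∈ zpowers v ↔ a.1 ∈ zpowers u := fun a =>
    ⟨fun ⟨k, hk⟩ => ⟨k, congrArg Subtype.val hk⟩, fun ⟨k, hk⟩ => ⟨k, Subtype.ext hk⟩⟩
  have : (zpowers v).Normal := ⟨fun a ha g => (k _).2 (Normal.conj_mem inferInstance _ ((k _).1 ha) _)⟩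
  obtain ⟨n, hn⟩ := IsPGroup.iff_orderOf.1 hG u
  rcases Cfsg.Agent.S3761.result (hG.to_subgroup R) (fun h => hR fun r hr => hC r hr
    (congrArg Subtype.val (h.1.1 v ⟨r, hr⟩))) (zpowers v) inferInstance n (by rw [Nat.card_zpowers, ← hn, orderOf_mk])
    (Subgroup.ext fun a => H9.mem_centralizer_zpowers.trans ⟨fun h => (k a).2 (hC a a.2 (congrArg Subtype.val h)),
      fun ⟨j, hj⟩ => hj ▸ (Commute.refl v).zpow_right j⟩) with ⟨rfl, h4, h5⟩ | ⟨h4, -⟩
  · refine ⟨rfl, h4 ▸ Nat.pow_le_pow_right two_pos (show 4 ≤ n + 1 from by_contra fun h => hR fun r hr =>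
      hm r hr (commute_of_mem_zpowers_central hz (om ho hS.zu (pow_mem (mem_zpowers u) 2) ?_) r).symm), h5⟩
    rw [← pow_mul, ← orderOf_dvd_iff_pow_eq_one, hn]
    exact Nat.pow_dvd_pow 2 (show n ≤ 2 by omega)
  · rw [H7.powerClosure_zpowers, pow_one, relIndex_eq_one.2 fun a ha => (k a).2 (hm a a.2
      (congrArg Subtype.val (H9.mem_centralizer_zpowers (a := v ^ p).1 ha)))] at h4
    exact absurd h4 hp.out.one_lt.ne

end Lead.PH
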