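import Mathlib

/-! Derangements in doubly transitive groups, part 1. -/

set_option autoImplicit false
set_option linter.unusedSectionVars false
set_option maxHeartbeats 400000

namespace Lead.Der
open Finset
open scoped Classical

variable {G Ω : Type*} [Group G] [Fintype G] [MulAction G Ω] [Fintype Ω]

variable (Ω) in
/-- number of fixed points -/
noncomputable def fx (g : G) : ℕ := #{x : Ω | g • x = x}

variable (G) in
/-- two point stabilizer -/
def HH (a b : Ω) : Subgroup G := MulAction.stabilizer G a ⊓ MulAction.stabilizer G b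

theorem mem_HH {a b : Ω} {g : G} : g ∈ HH G a b ↔ g • a = a ∧ g • b = b := Iff.rfl

variable (G) in
/-- fixed points of the two point stabilizer -/
noncomputable def FF (a b : Ω) : Finset Ω := {x | ∀ g ∈ HH G a b, g • x = x}

theorem mem_FF {a b x : Ω} : x ∈ FF G a b ↔ ∀ g ∈ HH G a b, g • x = x := by simp [FF]

/-- orbits -/
noncomputable def Orb (K : Subgroup G) (x : Ω) : Finset Ω := {y | ∃ g ∈ K, g • x = y}

theorem mem_Orb {K : Subgroup G} {x y : Ω} : y ∈ Orb K x ↔ ∃ g ∈ K, g • x = y := by simp [Orb]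

/-- elements of a subgroup -/
noncomputable def El (K : Subgroup G) : Finset G := {g | g ∈ K}

theorem mem_El {K : Subgroup G} {g : G} : g ∈ El K ↔ g ∈ K := by simp [El]

/-- stabilizers -/
noncomputable def St (K : Subgroup G) (x : Ω) : Finset G := {g | g ∈ K ∧ g • x = x}

theorem mem_St {K : Subgroup G} {x : Ω} {g : G} : g ∈ St K x ↔ g ∈ K ∧ g • x = x := by simp [St]

theorem orb_stab (K : Subgroup G) (x : Ω) : #(Orb K x) * #(St K x) = #(El K) := by
  rw [card_eq_sum_card_fiberwise (f := fun g : G => g • x) (s := El K) (t := Orb K x)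
    (fun g hg => mem_coe.2 (mem_Orb.2 ⟨g, mem_El.1 (mem_coe.1 hg), rfl⟩)), ← smul_eq_mul,
    ← sum_const]
  refine sum_congr rfl fun y hy => ?_
  obtain ⟨k, hk, rfl⟩ := mem_Orb.1 hy
  refine card_bij (fun g _ => k * g) (fun g hg => ?_) (fun a _ b _ e => mul_left_cancel e)
    (fun g hg => ⟨k⁻¹ * g, ?_, by group⟩)
  · obtain ⟨h1, h2⟩ := mem_St.1 hg
    simp only [mem_filter, mem_El]
    exact ⟨mul_mem hk h1, by rw [mul_smul, h2]⟩
  · simp only [mem_filter, mem_El] at hg
    exact mem_St.2 ⟨mul_mem (inv_mem hk) hg.1, by rw [mul_smul, hg.2, inv_smul_smul]⟩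

theorem self_mem_Orb (K : Subgroup G) (x : Ω) : x ∈ Orb K x := mem_Orb.2 ⟨1, one_mem _, one_smul _ _⟩

theorem Orb_eq {K : Subgroup G} {x y : Ω} (h : y ∈ Orb K x) : Orb K y = Orb K x := by
  obtain ⟨k, hk, rfl⟩ := mem_Orb.1 h
  ext z
  simp only [mem_Orb]
  constructor
  · rintro ⟨g, hg, rfl⟩; exact ⟨g * k, mul_mem hg hk, mul_smul _ _ _⟩
  · rintro ⟨g, hg, rfl⟩
    exact ⟨g * k⁻¹, mul_mem hg (inv_mem hk), by rw [mul_smul, inv_smul_smul]⟩

theorem fx_conj (k g : G) : fx Ω (k * g * k⁻¹) = fx Ω g := by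
  unfold fx
  refine card_bij (fun x _ => k⁻¹ • x) (fun x hx => ?_) (fun a _ b _ e => by simpa using e)
    (fun x hx => ⟨k • x, ?_, by simp⟩)
  · simp only [mem_filter, mem_univ, true_and] at hx ⊢
    rw [mul_smul, mul_smul] at hx
    exact eq_inv_smul_iff.2 hx
  · simp only [mem_filter, mem_univ, true_and] at hx ⊢
    rw [mul_smul, mul_smul, inv_smul_smul, hx]

theorem fx_one : fx Ω (1 : G) = Fintype.card Ω := by simp [fx]

theorem fx_le (g : G) : fx Ω g ≤ Fintype.card Ω := card_le_univ _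

theorem sum_fx (K : Subgroup G) : ∑ g ∈ El K, fx Ω g = ∑ x : Ω, #(St K x) := by
  simp only [fx, St, card_eq_sum_ones, sum_filter]
  rw [sum_comm]
  refine sum_congr rfl fun x _ => ?_
  simp only [El, sum_filter]
  refine sum_congr rfl fun g _ => ?_
  by_cases h1 : g ∈ K <;> by_cases h2 : g • x = x <;> simp [h1, h2]

theorem conj_mem {a b : Ω} {g : G} (k : G) (h : g ∈ HH G a b) :
    k * g * k⁻¹ ∈ HH G (k • a) (k • b) := by
  rw [mem_HH] at h ⊢
  simp [mul_smul, h.1, h.2]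

theorem conj_mem' {a b : Ω} {g : G} (k : G) (h : g ∈ HH G (k • a) (k • b)) :
    k⁻¹ * g * k ∈ HH G a b := by
  simpa using conj_mem k⁻¹ h

theorem left_mem (a b : Ω) : a ∈ FF G a b := mem_FF.2 fun _ h => h.1
theorem right_mem (a b : Ω) : b ∈ FF G a b := mem_FF.2 fun _ h => h.2

theorem card_Orb_conj (k : G) (a b x : Ω) :
    #(Orb (HH G (k • a) (k • b)) (k • x)) = #(Orb (HH G a b) x) := by
  symm
  refine card_bij (fun y _ => k • y) (fun y hy => ?_) (fun a _ b _ e => by simpa using e)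
    (fun y hy => ⟨k⁻¹ • y, ?_, by simp⟩)
  · obtain ⟨g, hg, rfl⟩ := mem_Orb.1 hy
    exact mem_Orb.2 ⟨_, conj_mem k hg, by simp [mul_smul]⟩
  · obtain ⟨g, hg, rfl⟩ := mem_Orb.1 hy
    exact mem_Orb.2 ⟨_, conj_mem' k hg, by simp [mul_smul]⟩

variable (G Ω) in
/-- double transitivity -/
def T2 : Prop := ∀ a b c d : Ω, a ≠ b → c ≠ d → ∃ g : G, g • a = c ∧ g • b = d

namespace T2
variable (h : T2 G Ω)
include h

theorem sum {a b c d : Ω} (hab : a ≠ b) (hcd : c ≠ d) (φ : ℕ → ℚ) :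
    ∑ g ∈ El (HH G c d), φ (fx Ω g) = ∑ g ∈ El (HH G a b), φ (fx Ω g) := by
  obtain ⟨k, rfl, rfl⟩ := h a b c d hab hcd
  symm
  refine sum_bij (fun g _ => k * g * k⁻¹) (fun g hg => mem_El.2 (conj_mem k (mem_El.1 hg)))
    (fun a _ b _ e => by simpa using e)
    (fun g hg => ⟨_, mem_El.2 (conj_mem' k (mem_El.1 hg)), by group⟩)
    (fun g _ => by rw [fx_conj])

theorem card {a b c d : Ω} (hab : a ≠ b) (hcd : c ≠ d) :
    #(El (HH G c d)) = #(El (HH G a b)) := by
  have := h.sum hab hcd fun _ => 1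
  simpa using this

theorem exch {a b c d : Ω} (hab : a ≠ b) (hcd : c ≠ d) (hc : c ∈ FF G a b) (hd : d ∈ FF G a b) :
    HH G c d = HH G a b := by
  have : El (HH G a b) = El (HH G c d) :=
    eq_of_subset_of_card_le (fun g hg => mem_El.2
      ⟨mem_FF.1 hc g (mem_El.1 hg), mem_FF.1 hd g (mem_El.1 hg)⟩) (h.card hab hcd).le
  ext g
  rw [← mem_El, ← mem_El, this]

theorem exchF {a b c d : Ω} (hab : a ≠ b) (hcd : c ≠ d) (hc : c ∈ FF G a b) (hd : d ∈ FF G a b) :
    FF G c d = FF G a b := by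
  unfold FF; rw [h.exch hab hcd hc hd]

theorem cardF {a b c d : Ω} (hab : a ≠ b) (hcd : c ≠ d) : #(FF G c d) = #(FF G a b) := by
  obtain ⟨k, rfl, rfl⟩ := h a b c d hab hcd
  symm
  refine card_bij (fun y _ => k • y) (fun y hy => ?_) (fun a _ b _ e => by simpa using e)
    (fun y hy => ⟨k⁻¹ • y, ?_, by simp⟩)
  · refine mem_FF.2 fun g hg => ?_
    have := mem_FF.1 hy _ (conj_mem' k hg)
    rw [mul_smul, mul_smul] at this
    exact inv_smul_eq_iff.1 this
  · refine mem_FF.2 fun g hg => ?_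
    have := mem_FF.1 hy _ (conj_mem k hg)
    rw [mul_smul, mul_smul] at this
    exact eq_inv_smul_iff.2 this

theorem orb {a b c d : Ω} (hab : a ≠ b) (hcd : c ≠ d) {m : ℕ}
    (ho : ∀ x : Ω, #(Orb (HH G a b) x) ≤ m) (x : Ω) : #(Orb (HH G c d) x) ≤ m := by
  obtain ⟨k, rfl, rfl⟩ := h a b c d hab hcd
  have := card_Orb_conj k a b (k⁻¹ • x)
  rw [smul_inv_smul] at this
  exact this ▸ ho _

theorem line {a b : Ω} (hab : a ≠ b) {g : G} {x : Ω} (hx : g • x ≠ x) :
    fx Ω g * (#(FF G a b) - 1) ≤ Fintype.card Ω - 1 := by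
  have ne : ∀ c : Ω, g • c = c → x ≠ c := fun c hc e => hx (e ▸ hc)
  have d : ((({c : Ω | g • c = c} : Finset Ω) : Set Ω)).PairwiseDisjoint
      fun c => (FF G x c).erase x := by
    intro c hc c' hc' hne
    simp only [coe_filter, mem_univ, true_and, Set.mem_setOf_eq] at hc hc'
    refine disjoint_left.2 fun y h1 h2 => ?_
    rw [mem_erase] at h1 h2
    have e1 := h.exchF (ne c hc) h1.1.symm (left_mem _ _) h1.2
    have e2 := h.exchF (ne c' hc') h1.1.symm (left_mem _ _) h2.2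
    have e3 := h.exchF (ne c hc) hne (right_mem _ _) (by rw [← e1, e2]; exact right_mem _ _)
    exact hx (mem_FF.1 (e3 ▸ left_mem (G := G) x c) g ⟨hc, hc'⟩)
  have e := card_biUnion d
  have l : ({c : Ω | g • c = c} : Finset Ω).biUnion (fun c => (FF G x c).erase x) ⊆
      univ.erase x := fun y hy => by
    obtain ⟨c, -, hy⟩ := mem_biUnion.1 hy
    exact mem_erase.2 ⟨(mem_erase.1 hy).1, mem_univ _⟩
  have l2 := card_le_card l
  rw [e, card_erase_of_mem (mem_univ _), card_univ, sum_congr rfl (g := fun _ => #(FF G a b) - 1)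
    (fun c hc => by
      rw [card_erase_of_mem (left_mem _ _), h.cardF hab (ne c (mem_filter.1 hc).2)]),
    sum_const, smul_eq_mul] at l2
  exact l2

end T2

theorem sq_fix {K : Subgroup G} {x : Ω} (ho : #(Orb K x) ≤ 2) {g : G} (hg : g ∈ K) :
    g • g • x = x := by
  by_contra n
  have n1 : g • x ≠ x := fun e => n (by rw [e, e])
  have : #({x, g • x, g • g • x} : Finset Ω) ≤ #(Orb K x) := card_le_card (by
    intro y hy
    simp only [mem_insert, mem_singleton] at hy
    rcases hy with rfl | rfl | rfl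
    exacts [self_mem_Orb _ _, mem_Orb.2 ⟨g, hg, rfl⟩,
      mem_Orb.2 ⟨g * g, mul_mem hg hg, mul_smul _ _ _⟩])
  rw [card_eq_three.2 ⟨_, _, _, n1.symm, fun e => n e.symm,
    fun e => n1 ((smul_left_cancel_iff g).1 e).symm, rfl⟩] at this
  omega

theorem two_orb {K : Subgroup G} {x : Ω} (ho : #(Orb K x) ≤ 2) {g u : G} (hg : g ∈ K)
    (hu : u ∈ K) (hx : g • x ≠ x) : u • x = x ∨ u • x = g • x := by
  by_contra n
  push Not at n
  have : #({x, g • x, u • x} : Finset Ω) ≤ #(Orb K x) := card_le_card (by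
    intro y hy
    simp only [mem_insert, mem_singleton] at hy
    rcases hy with rfl | rfl | rfl
    exacts [self_mem_Orb _ _, mem_Orb.2 ⟨g, hg, rfl⟩, mem_Orb.2 ⟨u, hu, rfl⟩])
  rw [card_eq_three.2 ⟨_, _, _, hx.symm, n.1.symm, n.2.symm, rfl⟩] at this
  omega

theorem comm_of_sq {K : Subgroup G} (hK : ∀ g ∈ K, g * g = 1) {u v : G} (hu : u ∈ K)
    (hv : v ∈ K) : u * v = v * u := by
  have e1 := hK u hu
  have e2 := hK v hv
  have e3 := hK _ (mul_mem hu hv)
  calc u * v = u * (u * v * (u * v)) * v := by rw [e3, mul_one]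
    _ = (u * u) * (v * u) * (v * v) := by simp only [mul_assoc]
    _ = v * u := by rw [e1, e2, one_mul, mul_one]

namespace T2
variable (h : T2 G Ω) [FaithfulSMul G Ω]
include h

theorem sq {a b c d : Ω} (hab : a ≠ b) (hcd : c ≠ d) (ho : ∀ x : Ω, #(Orb (HH G a b) x) ≤ 2) {g : G}
    (hg : g ∈ HH G c d) : g * g = 1 :=
  eq_of_smul_eq_smul (α := Ω) fun x => by
    rw [mul_smul, one_smul]; exact sq_fix (T2.orb h hab hcd ho x) hg

theorem comm {a b : Ω} (hab : a ≠ b) (ho : ∀ x : Ω, #(Orb (HH G a b) x) ≤ 2) {g : G} {x c d e : Ω}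
    (hx : g • x ≠ x) (hcd : c ≠ d) (hce : c ≠ e) (g1 : g ∈ HH G c d) (g2 : g ∈ HH G c e) {u v : G}
    (hu : u ∈ HH G c d) (hv : v ∈ HH G c e) : u * v = v * u := by
  have s1 := fun g (hg : g ∈ HH G c d) => T2.sq h hab hcd ho hg
  have s2 := fun g (hg : g ∈ HH G c e) => T2.sq h hab hce ho hg
  have cx : c ≠ x := fun e => hx (e ▸ g1.1)
  have s3 := fun g (hg : g ∈ HH G c x) => h.sq hab cx ho hg
  have c1 := comm_of_sq s1 g1 hu
  have c2 := comm_of_sq s2 g2 hv
  have gg : g • g • x = x := by rw [← mul_smul, s1 g g1, one_smul]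
  have key : ∀ u' v' : G, u' ∈ HH G c d → v' ∈ HH G c e → u' • x = x → v' • x = x →
      u' * v' = v' * u' := fun u' v' h1 h2 h3 h4 => comm_of_sq s3 ⟨h1.1, h3⟩ ⟨h2.1, h4⟩
  have r : ∀ w : G, w • x = g • x → (g * w) • x = x := fun w e => by rw [mul_smul, e, gg]
  rcases two_orb (h.orb hab hcd ho x) g1 hu hx with e1 | e1 <;>
    rcases two_orb (h.orb hab hce ho x) g2 hv hx with e2 | e2
  · exact key u v hu hv e1 e2
  · have := key u (g * v) hu (mul_mem g2 hv) e1 (r v e2)
    rw [← mul_assoc, ← c1, mul_assoc, mul_assoc] at this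
    exact mul_left_cancel this
  · have := key (g * u) v (mul_mem g1 hu) hv (r u e1) e2
    rw [← mul_assoc, ← c2, mul_assoc, mul_assoc] at this
    exact mul_left_cancel this
  · have := key (g * u) (g * v) (mul_mem g1 hu) (mul_mem g2 hv) (r u e1) (r v e2)
    rw [mul_assoc, mul_assoc, ← mul_assoc u, ← c1, ← mul_assoc v, ← c2, mul_assoc, mul_assoc] at this
    exact mul_left_cancel (mul_left_cancel this)

theorem small {a b : Ω} (hab : a ≠ b) (ho : ∀ x : Ω, #(Orb (HH G a b) x) ≤ 2)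
    (hf : #(FF G a b) ≤ 3) {g : G} (hg : g ∈ HH G a b) (g1 : g ≠ 1) {c : Ω} (hc : g • c = c) :
    c ∈ FF G a b := by
  by_contra n
  obtain ⟨x, hx⟩ : ∃ x : Ω, g • x ≠ x := by
    by_contra m
    push Not at m
    exact g1 (eq_of_smul_eq_smul (α := Ω) fun x => by rw [m, one_smul])
  have key : ∀ a' b' : Ω, a' ≠ b' → c ∉ FF G a' b' → g ∈ HH G a' b' →
      ∃ v ∈ HH G c a', v • b' ≠ b' ∧ v • b' ∈ FF G a' b' := by
    intro a' b' hab' n' hg'
    have ac : a' ≠ c := fun e => n' (e ▸ left_mem _ _)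
    have : b' ∉ FF G a' c := fun m =>
      n' (h.exchF ac hab' (left_mem _ _) m ▸ right_mem _ _)
    rw [mem_FF] at this
    push Not at this
    obtain ⟨v, hv, hv2⟩ := this
    refine ⟨v, ⟨hv.2, hv.1⟩, hv2, mem_FF.2 fun u hu => ?_⟩
    rw [← mul_smul, h.comm hab ho hx hab' ac hg' ⟨hg'.1, hc⟩ hu hv, mul_smul, hu.2]
  have eF : FF G b a = FF G a b := h.exchF hab hab.symm (right_mem _ _) (left_mem _ _)
  obtain ⟨v, hv, v1, v2⟩ := key a b hab n hg
  obtain ⟨w, hw, w1, w2⟩ := key b a hab.symm (eF ▸ n) ⟨hg.2, hg.1⟩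
  rw [eF] at w2
  have ca : c ≠ a := fun e => n (e ▸ left_mem _ _)
  have cb : c ≠ b := fun e => n (e ▸ right_mem _ _)
  have v3 : v • b ≠ a := fun e => hab ((smul_left_cancel_iff v).1 (hv.2.trans e.symm))
  have w3 : w • a ≠ b := fun e => hab ((smul_left_cancel_iff w).1 (e.trans hw.2.symm))
  have e : w • a = v • b := by
    by_contra m
    have : #({a, b, v • b, w • a} : Finset Ω) ≤ #(FF G a b) := card_le_card (by
      intro y hy
      simp only [mem_insert, mem_singleton] at hy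
      rcases hy with rfl | rfl | rfl | rfl
      exacts [left_mem _ _, right_mem _ _, v2, w2])
    rw [card_insert_of_notMem (by simp [hab, v3.symm, w1.symm]),
      card_eq_three.2 ⟨_, _, _, v1.symm, w3.symm, fun e => m e.symm, rfl⟩] at this
    omega
  have c := h.comm hab ho hx ca cb ⟨hc, hg.1⟩ ⟨hc, hg.2⟩ hv hw
  have := congrArg (· • a) c
  simp only [mul_smul] at this
  rw [hv.2, e, ← mul_smul, h.sq hab ca ho hv, one_smul] at this
  exact v1 this.symm

theorem three {a b x : Ω} (hab : a ≠ b) (hn : 7 ≤ Fintype.card Ω) (h3 : #(Orb (HH G a b) x) = 3)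
    (ho : ∀ y ∉ Orb (HH G a b) x, #(Orb (HH G a b) y) ≤ 2) : False := by
  have o3 : ∀ y, #(Orb (HH G a b) y) ≤ 3 := fun y => by
    by_cases m : y ∈ Orb (HH G a b) x
    · rw [Orb_eq m, h3]
    · exact (ho y m).trans (by norm_num)
  obtain ⟨t, ht, hx⟩ : ∃ t ∈ HH G a b, t • t • x ≠ x := by
    by_contra m
    push Not at m
    have s : ∀ t ∈ HH G a b, t * t = 1 := fun t ht => eq_of_smul_eq_smul (α := Ω) fun y => by
      rw [mul_smul, one_smul]
      by_cases m' : y ∈ Orb (HH G a b) x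
      · obtain ⟨k, hk, rfl⟩ := mem_Orb.1 m'
        have := m (k⁻¹ * t * k) (mul_mem (mul_mem (inv_mem hk) ht) hk)
        simp only [mul_smul, smul_inv_smul] at this
        exact inv_smul_eq_iff.1 this
      · exact sq_fix (ho y m') ht
    have p : IsPGroup 2 (HH G a b) := fun g => ⟨1, Subtype.ext (by simpa [pow_two] using s g g.2)⟩
    obtain ⟨k, hk⟩ := p.exists_card_eq
    have e := orb_stab (HH G a b) x
    have e2 : #(El (HH G a b)) = Nat.card (HH G a b) := by
      rw [Nat.card_eq_fintype_card, Fintype.card_subtype]; rfl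
    rw [h3, e2, hk] at e
    have := Nat.prime_three.dvd_of_dvd_pow (e ▸ Dvd.intro _ rfl : 3 ∣ 2 ^ k)
    omega
  set O := Orb (HH G a b) x with hO
  have tx : t • x ≠ x := fun e => hx (by rw [e, e])
  have hs : ∀ y ∉ O, (t * t) • y = y := fun y hy => by rw [mul_smul]; exact sq_fix (ho y hy) ht
  have xO : x ∈ O := self_mem_Orb _ _
  have sO : ∀ u ∈ HH G a b, ∀ y ∈ O, u • y ∈ O := fun u hu y hy => by
    rw [hO, ← Orb_eq hy]; exact mem_Orb.2 ⟨u, hu, rfl⟩
  obtain ⟨w, hw⟩ : ∃ w, w ∉ O := by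
    by_contra m
    push Not at m
    have := card_le_card (show (univ : Finset Ω) ⊆ O from fun y _ => m y)
    rw [card_univ] at this; omega
  have hs' : (t * t) • x ≠ x := by rwa [mul_smul]
  obtain ⟨k, k1, k2⟩ := h x ((t * t) • x) x w hs'.symm (fun e => hw (e ▸ xO))
  have c5 : #(O ∪ O.image (k • ·)) ≤ 5 := by
    have := card_union_add_card_inter O (O.image (k • ·))
    have h1 : 0 < #(O ∩ O.image (k • ·)) := card_pos.2 ⟨x, mem_inter.2 ⟨xO, mem_image.2 ⟨x, xO, k1⟩⟩⟩
    have h2 := card_image_le (s := O) (f := (k • ·))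
    omega
  obtain ⟨c, hc, d, hd, hcd⟩ := one_lt_card.1 (show 1 < #(O ∪ O.image (k • ·))ᶜ by
    rw [card_compl]; omega)
  have f1 : ∀ y ∈ (O ∪ O.image (k • ·))ᶜ, (t * t) • y = y ∧ (k * (t * t) * k⁻¹) • y = y := by
    intro y hy
    rw [mem_compl, mem_union, not_or] at hy
    refine ⟨hs y hy.1, ?_⟩
    rw [mul_smul, mul_smul, hs _ fun m => hy.2 (mem_image.2 ⟨_, m, smul_inv_smul _ _⟩),
      smul_inv_smul]
  have m1 : t * t ∈ HH G c d := ⟨(f1 c hc).1, (f1 d hd).1⟩
  have m2 : k * (t * t) * k⁻¹ ∈ HH G c d := ⟨(f1 c hc).2, (f1 d hd).2⟩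
  have tt := mul_mem ht ht
  have n4 : (t * t) • (t * t) • x ≠ x := fun e => by
    have : #({x, t • x, t • t • x, t • t • t • x} : Finset Ω) ≤ #O := card_le_card (by
      intro y hy
      simp only [mem_insert, mem_singleton] at hy
      rcases hy with rfl | rfl | rfl | rfl
      exacts [xO, sO t ht _ xO, sO t ht _ (sO t ht _ xO), sO t ht _ (sO t ht _ (sO t ht _ xO))])
    simp only [mul_smul] at e
    have n3 : t • t • t • x ≠ x := fun e' => tx (by rwa [e'] at e)
    rw [card_insert_of_notMem (by simp [tx.symm, hx.symm, n3.symm]),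
      card_eq_three.2 ⟨_, _, _, fun e => tx ((smul_left_cancel_iff t).1 e).symm,
        fun e => hx ((smul_left_cancel_iff t).1 e).symm,
        fun e => tx ((smul_left_cancel_iff t).1 ((smul_left_cancel_iff t).1 e)).symm, rfl⟩] at this
    omega
  have : #({w, x, (t * t) • x, (t * t) • (t * t) • x} : Finset Ω) ≤ #(Orb (HH G c d) x) :=
    card_le_card (by
      intro y hy
      simp only [mem_insert, mem_singleton] at hy
      rcases hy with rfl | rfl | rfl | rfl
      · refine mem_Orb.2 ⟨_, m2, ?_⟩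
        rw [mul_smul, mul_smul, inv_smul_eq_iff.2 k1.symm, k2]
      exacts [self_mem_Orb _ _, mem_Orb.2 ⟨_, m1, rfl⟩,
        mem_Orb.2 ⟨_, mul_mem m1 m1, mul_smul _ _ _⟩])
  rw [card_insert_of_notMem (by
      simp only [mem_insert, mem_singleton, not_or]
      exact ⟨fun e => hw (e ▸ xO), fun e => hw (e ▸ sO _ tt _ xO),
        fun e => hw (e ▸ sO _ tt _ (sO _ tt _ xO))⟩),
    card_eq_three.2 ⟨_, _, _, hs'.symm, n4.symm,
      fun e => hs' ((smul_left_cancel_iff _).1 e).symm, rfl⟩] at this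
  have := T2.orb h hab hcd o3 x
  omega

end T2

end Lead.Der
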