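import Cfsg.Agent.Lead.Der1

/-! Derangements in transitive groups, part 2. -/

set_option autoImplicit false
set_option linter.unusedSectionVars false
set_option maxHeartbeats 400000

namespace Lead.Der
open Finset
open scoped Classical

variable {G Ω : Type*} [Group G] [Fintype G] [MulAction G Ω] [Fintype Ω]

variable (G Ω) in
/-- number of derangements -/
noncomputable def DD : ℕ := #{g : G | fx Ω g = 0}

theorem El_top : El (⊤ : Subgroup G) = univ := by ext; simp [El]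

theorem sum_orb (K : Subgroup G) (x : Ω) : ∑ y ∈ Orb K x, #(St K y) = #(El K) := by
  have p : 0 < #(Orb K x) := card_pos.2 ⟨x, self_mem_Orb K x⟩
  refine Nat.eq_of_mul_eq_mul_left p ?_
  rw [mul_sum, sum_congr rfl (g := fun _ => #(El K)) fun y hy => by
    rw [← Orb_eq hy, orb_stab], sum_const, smul_eq_mul]

theorem sum_fx_top [MulAction.IsPretransitive G Ω] (a : Ω) : ∑ g : G, fx Ω g = Fintype.card G := by
  have := sum_fx (Ω := Ω) (⊤ : Subgroup G)
  have e : Orb (⊤ : Subgroup G) a = univ := eq_univ_of_forall fun y => by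
    obtain ⟨g, hg⟩ := MulAction.exists_smul_eq G a y
    exact mem_Orb.2 ⟨g, trivial, hg⟩
  rw [El_top, ← e, sum_orb, El_top] at this
  exact this

theorem fx_prod (g : G) : fx (Ω × Ω) g = fx Ω g * fx Ω g := by
  unfold fx
  rw [← card_product]
  congr 1
  ext ⟨x, y⟩
  simp

theorem disj_orb {X : Type*} [Fintype X] [MulAction G X] {K : Subgroup G} {x y : X}
    (h : y ∉ Orb K x) : Disjoint (Orb K x) (Orb K y) :=
  disjoint_left.2 fun z h1 h2 => h (by rw [← Orb_eq h1, Orb_eq h2]; exact self_mem_Orb _ _)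

theorem rank3 (h : ¬ T2 G Ω) : 3 * Fintype.card G ≤ ∑ g : G, fx Ω g * fx Ω g := by
  unfold T2 at h
  push Not at h
  obtain ⟨a, b, c, d, hab, hcd, h⟩ := h
  have := sum_fx (Ω := Ω × Ω) (⊤ : Subgroup G)
  rw [El_top] at this
  simp only [fx_prod] at this
  rw [this]
  have d1 : Disjoint (Orb (⊤ : Subgroup G) (a, a)) (Orb ⊤ (a, b)) := disj_orb fun m => by
    obtain ⟨g, -, e⟩ := mem_Orb.1 m
    simp only [Prod.smul_mk, Prod.mk.injEq] at e
    exact hab (e.1.symm.trans e.2)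
  have d2 : Disjoint (Orb (⊤ : Subgroup G) (a, a)) (Orb ⊤ (c, d)) := disj_orb fun m => by
    obtain ⟨g, -, e⟩ := mem_Orb.1 m
    simp only [Prod.smul_mk, Prod.mk.injEq] at e
    exact hcd (e.1.symm.trans e.2)
  have d3 : Disjoint (Orb (⊤ : Subgroup G) (a, b)) (Orb ⊤ (c, d)) := disj_orb fun m => by
    obtain ⟨g, -, e⟩ := mem_Orb.1 m
    simp only [Prod.smul_mk, Prod.mk.injEq] at e
    exact h g e.1 e.2
  have l := sum_le_sum_of_subset (f := fun p : Ω × Ω => #(St (⊤ : Subgroup G) p))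
    (subset_univ ((Orb (⊤ : Subgroup G) (a, a) ∪ Orb (⊤ : Subgroup G) (a, b)) ∪
      Orb (⊤ : Subgroup G) (c, d)))
  rw [sum_union (disjoint_union_left.2 ⟨d2, d3⟩), sum_union d1, sum_orb, sum_orb, sum_orb, El_top,
    card_univ] at l
  omega

theorem not_T2 [MulAction.IsPretransitive G Ω] (a : Ω) (h : ¬ T2 G Ω) :
    2 * Fintype.card G ≤ Fintype.card Ω * DD G Ω := by
  have h1 := sum_fx_top (G := G) a
  have h2 := rank3 h
  have h3 : ∑ g : G, (fx Ω g * fx Ω g + Fintype.card Ω) ≤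
      ∑ g : G, ((Fintype.card Ω + 1) * fx Ω g + if fx Ω g = 0 then Fintype.card Ω else 0) := by
    refine sum_le_sum fun g _ => ?_
    have := fx_le (Ω := Ω) g
    split_ifs with e
    · simp [e]
    · obtain ⟨m, hm⟩ := Nat.exists_eq_succ_of_ne_zero e
      rw [hm] at this ⊢
      nlinarith
  rw [sum_add_distrib, sum_add_distrib, ← mul_sum, h1, ← sum_filter, sum_const, sum_const,
    card_univ, smul_eq_mul, smul_eq_mul] at h3
  unfold DD
  nlinarith

namespace T2
variable (h : T2 G Ω)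
include h

theorem cardG {a b : Ω} (hab : a ≠ b) :
    Fintype.card G = Fintype.card Ω * (Fintype.card Ω - 1) * #(El (HH G a b)) := by
  have := orb_stab (⊤ : Subgroup G) (a, b)
  have e1 : Orb (⊤ : Subgroup G) (a, b) = univ.offDiag := by
    ext ⟨c, d⟩
    simp only [mem_Orb, mem_offDiag, mem_univ, true_and, Prod.smul_mk, Prod.mk.injEq,
      Subgroup.mem_top]
    constructor
    · rintro ⟨g, rfl, rfl⟩ e
      exact hab ((smul_left_cancel_iff g).1 e)
    · exact h a b c d hab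
  have e2 : St (⊤ : Subgroup G) (a, b) = El (HH G a b) := by
    ext g; simp [mem_St, mem_El, mem_HH]
  rw [e1, e2, El_top, offDiag_card, card_univ, card_univ] at this
  rw [← this, Nat.mul_sub_one]

theorem cardD {a b : Ω} (hab : a ≠ b) :
    (DD G Ω : ℚ) = Fintype.card Ω * (Fintype.card Ω - 1) * ∑ g ∈ El (HH G a b), 1 / (fx Ω g : ℚ) := by
  haveI : MulAction.IsPretransitive G Ω := ⟨fun x y => by
    have k : ∀ x : Ω, ∃ z, x ≠ z := fun x => by
      by_cases e : x = a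
      exacts [⟨b, e ▸ hab⟩, ⟨a, e⟩]
    obtain ⟨z, hz⟩ := k x
    obtain ⟨w, hw⟩ := k y
    obtain ⟨g, hg, -⟩ := h x z y w hz hw
    exact ⟨g, hg⟩⟩
  have h1 : ∑ g : G, (fx Ω g : ℚ) = Fintype.card G := by exact_mod_cast sum_fx_top (G := G) a
  have h2 : (DD G Ω : ℚ) = ∑ g : G, ((fx Ω g : ℚ) * fx Ω g - fx Ω g) * (1 / fx Ω g) := by
    have : ∑ g : G, ((fx Ω g : ℚ) * fx Ω g - fx Ω g) * (1 / fx Ω g) =
        ∑ g : G, ((fx Ω g : ℚ) - 1 + if fx Ω g = 0 then 1 else 0) := sum_congr rfl fun g _ => by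
      split_ifs with e
      · simp [e]
      · have : (fx Ω g : ℚ) ≠ 0 := by exact_mod_cast e
        field_simp
        ring
    rw [this, sum_add_distrib, sum_sub_distrib, h1, ← sum_filter]
    simp [DD]
  have h3 : ∀ g : G, ((fx Ω g : ℚ) * fx Ω g - fx Ω g) =
      ∑ p ∈ (univ : Finset Ω).offDiag, if g ∈ HH G p.1 p.2 then (1 : ℚ) else 0 := fun g => by
    rw [← sum_filter, sum_const, nsmul_eq_mul, mul_one]
    have : ({p ∈ (univ : Finset Ω).offDiag | g ∈ HH G p.1 p.2}) =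
        ({x : Ω | g • x = x} : Finset Ω).offDiag := by
      ext ⟨x, y⟩; simp [mem_HH]; tauto
    rw [this, offDiag_card, Nat.cast_sub (Nat.le_mul_self _)]
    simp [fx]
  rw [h2]
  simp only [h3, sum_mul]
  rw [sum_comm, sum_congr rfl (g := fun _ => ∑ g ∈ El (HH G a b), 1 / (fx Ω g : ℚ))
    fun p hp => by
      rw [← h.sum hab (mem_offDiag.1 hp).2.2 fun m => 1 / (m : ℚ), El, sum_filter]
      exact sum_congr rfl fun g _ => by split_ifs <;> simp,
    sum_const, offDiag_card, card_univ, nsmul_eq_mul, Nat.cast_sub (Nat.le_mul_self _)]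
  push_cast; ring

end T2

theorem orb_bound {a b : Ω} (B : Finset Ω) (k : ℕ) (hk : 2 ≤ k)
    (hB : ∀ x ∈ B, k ≤ #(Orb (HH G a b) x)) (hc : 2 * k ≤ (k - 2) * #B) :
    2 * ∑ g ∈ El (HH G a b), fx Ω g + 2 * #(El (HH G a b)) ≤
      #(El (HH G a b)) * (Fintype.card Ω + #(FF G a b)) := by
  obtain ⟨j, rfl⟩ := Nat.exists_eq_add_of_le' hk
  rw [Nat.add_sub_cancel] at hc
  set m := #(El (HH G a b))
  have l : ∑ x : Ω, (2 * (j + 2) * #(St (HH G a b) x) + if x ∈ B then j * m else 0) ≤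
      ∑ x : Ω, ((j + 2) * m + if x ∈ FF G a b then (j + 2) * m else 0) := by
    refine sum_le_sum fun x _ => ?_
    have e : _ = m := orb_stab (HH G a b) x
    have p : 0 < #(Orb (HH G a b) x) := card_pos.2 ⟨x, self_mem_Orb _ x⟩
    by_cases h1 : x ∈ B
    · have := hB x h1
      rw [if_pos h1]
      refine le_trans ?_ (Nat.le_add_right _ _)
      nlinarith
    · rw [if_neg h1]
      split_ifs with h2
      · have : #(St (HH G a b) x) ≤ m := by nlinarith
        nlinarith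
      · rw [mem_FF] at h2
        push Not at h2
        obtain ⟨g, hg, h2⟩ := h2
        have : 1 < #(Orb (HH G a b) x) :=
          one_lt_card.2 ⟨_, mem_Orb.2 ⟨g, hg, rfl⟩, x, self_mem_Orb _ _, h2⟩
        have : 2 * #(St (HH G a b) x) ≤ m := by nlinarith
        nlinarith
  rw [sum_add_distrib, sum_add_distrib, ← mul_sum, ← sum_fx, ← sum_filter, ← sum_filter,
    sum_const, sum_const, sum_const, filter_univ_mem, filter_univ_mem, card_univ, smul_eq_mul,
    smul_eq_mul, smul_eq_mul] at l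
  refine Nat.le_of_mul_le_mul_left (c := j + 2) ?_ (by omega)
  nlinarith

theorem titu (s : Finset G) (hs : ∀ g ∈ s, 0 < fx Ω g) (hn : s.Nonempty) :
    (#s : ℚ) ^ 2 ≤ (∑ g ∈ s, fx Ω g : ℕ) * ∑ g ∈ s, 1 / (fx Ω g : ℚ) := by
  have := sq_sum_div_le_sum_sq_div s (fun _ => (1 : ℚ)) (g := fun g => (fx Ω g : ℚ))
    fun g hg => by exact_mod_cast hs g hg
  have p : (0 : ℚ) < ∑ g ∈ s, (fx Ω g : ℚ) := sum_pos (fun g hg => by exact_mod_cast hs g hg) hn
  rw [div_le_iff₀ p] at this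
  push_cast
  simpa [mul_comm] using this

theorem unif (s : Finset G) (hs : ∀ g ∈ s, 0 < fx Ω g) {k m : ℕ} (hm : ∀ g ∈ s, fx Ω g * k ≤ m) :
    (#s : ℚ) * k ≤ m * ∑ g ∈ s, 1 / (fx Ω g : ℚ) := by
  rw [mul_sum, ← nsmul_eq_mul, ← sum_const]
  refine sum_le_sum fun g hg => ?_
  have p : (0 : ℚ) < fx Ω g := by exact_mod_cast hs g hg
  rw [mul_one_div, le_div_iff₀ p, mul_comm]
  exact_mod_cast hm g hg

theorem no84 [FaithfulSMul G Ω] (hG : Fintype.card G = 84) (hn : Fintype.card Ω = 7) {a b : Ω}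
    (hab : a ≠ b) {g : G} (hg : g ∈ HH G a b) : g = 1 := by
  haveI : Fact (Nat.Prime 7) := ⟨by norm_num⟩
  obtain ⟨P⟩ : Nonempty (Sylow 7 G) := inferInstance
  have hG' : Nat.card G = 84 := by rw [Nat.card_eq_fintype_card, hG]
  have cP : Nat.card P = 7 := by
    rw [P.card_eq_multiplicity, hG', show (84 : ℕ) = 7 ^ 1 * 12 by norm_num,
      Nat.factorization_mul (by norm_num) (by norm_num), Nat.factorization_pow]
    simp [Nat.factorization_eq_zero_of_not_dvd (show ¬ 7 ∣ 12 by norm_num),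
      Nat.Prime.factorization_self (show Nat.Prime 7 by norm_num)]
  have iP : (P : Subgroup G).index = 12 := by
    have := (P : Subgroup G).card_mul_index
    rw [cP, hG'] at this; omega
  have c1 : Nat.card (Sylow 7 G) = 1 := by
    have h1 := P.card_dvd_index
    have h2 := card_sylow_modEq_one 7 G
    rw [iP] at h1
    have := Nat.le_of_dvd (by norm_num) h1
    unfold Nat.ModEq at h2
    interval_cases (Nat.card (Sylow 7 G)) <;> omega
  haveI : Subsingleton (Sylow 7 G) := (Nat.card_eq_one_iff_unique.1 c1).1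
  have nP := P.normal_of_subsingleton
  have eP : #(El (P : Subgroup G)) = 7 := by
    refine Eq.trans ?_ cP
    rw [Nat.card_eq_fintype_card, Fintype.card_subtype]; rfl
  obtain ⟨u, hu, u1⟩ : ∃ u ∈ El (P : Subgroup G), u ≠ 1 := exists_mem_ne (by omega) 1
  obtain ⟨x, hx⟩ : ∃ x : Ω, u • x ≠ x := by
    by_contra m
    push Not at m
    exact u1 (eq_of_smul_eq_smul (α := Ω) fun x => by rw [m, one_smul])
  have o1 := orb_stab (P : Subgroup G) x
  have o2 : 1 < #(Orb (P : Subgroup G) x) :=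
    one_lt_card.2 ⟨_, mem_Orb.2 ⟨u, mem_El.1 hu, rfl⟩, x, self_mem_Orb _ _, hx⟩
  rw [eP] at o1
  have o3 := ((Nat.dvd_prime (by norm_num : Nat.Prime 7)).1 (Dvd.intro _ o1)).resolve_left (by omega)
  have o4 : Orb (P : Subgroup G) x = univ := (card_eq_iff_eq_univ _).1 (o3.trans hn.symm)
  have o5 : Orb (P : Subgroup G) a = univ := (Orb_eq (o4 ▸ mem_univ a)).trans o4
  have o6 := orb_stab (P : Subgroup G) a
  rw [o5, eP, card_univ, hn] at o6
  obtain ⟨p, hp, e⟩ := mem_Orb.1 (o5 ▸ mem_univ b)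
  have c : p⁻¹ * (g * p * g⁻¹) = 1 := card_le_one.1 (show #(St (P : Subgroup G) a) ≤ 1 by omega) _
    (mem_St.2 ⟨mul_mem (inv_mem hp) (nP.conj_mem p hp g), by
      rw [mul_smul, mul_smul, mul_smul, inv_smul_eq_iff.2 hg.1.symm, e, hg.2, ← e, inv_smul_smul]⟩)
    _ (mem_St.2 ⟨one_mem _, one_smul _ _⟩)
  have c' : Commute g p := by
    rw [inv_mul_eq_one, eq_comm, mul_inv_eq_iff_eq_mul] at c; exact c
  refine eq_of_smul_eq_smul (α := Ω) fun y => ?_
  obtain ⟨q, hq, rfl⟩ := mem_Orb.1 (o5 ▸ mem_univ y)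
  have p1 : (⟨p, hp⟩ : P) ≠ 1 := fun e' => hab (by
    rw [← e, show p = 1 from congrArg Subtype.val e', one_smul])
  obtain ⟨i, hi⟩ := mem_zpowers_of_prime_card cP p1 (g' := ⟨q, hq⟩)
  have : q = p ^ i := (congrArg Subtype.val hi).symm
  rw [one_smul, ← mul_smul, this, (c'.zpow_right i).eq, mul_smul, hg.1]

end Lead.Der
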