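import Cfsg.Agent.Lead.Der2

/-! Derangements in transitive groups, part 3. -/

set_option autoImplicit false
set_option linter.unusedSectionVars false
set_option maxHeartbeats 800000

namespace Lead.Der
open Finset
open scoped Classical

variable {G Ω : Type*} [Group G] [Fintype G] [MulAction G Ω] [Fintype Ω]

theorem two_le_fx {a b : Ω} (hab : a ≠ b) {g : G} (hg : g ∈ HH G a b) : 2 ≤ fx Ω g :=
  one_lt_card.2 ⟨a, mem_filter.2 ⟨mem_univ _, hg.1⟩, b, mem_filter.2 ⟨mem_univ _, hg.2⟩, hab⟩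

theorem T2.bound [FaithfulSMul G Ω] (h : T2 G Ω) (hn : 7 ≤ Fintype.card Ω) {a b : Ω} (hab : a ≠ b)
    {x : Ω} (hx : 3 ≤ #(Orb (HH G a b) x)) :
    2 * ∑ g ∈ El (HH G a b), fx Ω g + 2 * #(El (HH G a b)) ≤
      #(El (HH G a b)) * (Fintype.card Ω + #(FF G a b)) := by
  set B : Finset Ω := {y | 3 ≤ #(Orb (HH G a b) y)} with hB
  have mB : ∀ y, y ∈ B ↔ 3 ≤ #(Orb (HH G a b) y) := fun y => by simp [hB]
  have sB : ∀ y ∈ B, Orb (HH G a b) y ⊆ B := fun y hy z hz =>
    (mB z).2 (by rw [Orb_eq hz]; exact (mB y).1 hy)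
  by_cases h6 : 6 ≤ #B
  · exact orb_bound B 3 (by norm_num) (fun y hy => (mB y).1 hy) (by omega)
  by_cases h3 : ∃ y : Ω, #(Orb (HH G a b) y) = 3
  · obtain ⟨y, hy⟩ := h3
    refine (h.three hab hn hy fun z hz => ?_).elim
    by_contra m
    have := card_le_card (union_subset (sB y ((mB y).2 hy.ge)) (sB z ((mB z).2 (by omega))))
    rw [card_union_of_disjoint (disj_orb hz)] at this
    omega
  · push Not at h3
    have k : ∀ y ∈ B, 4 ≤ #(Orb (HH G a b) y) := fun y hy => by
      have := (mB y).1 hy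
      have := h3 y
      omega
    have := card_le_card (sB x ((mB x).2 hx))
    have := k x ((mB x).2 hx)
    exact orb_bound B 4 (by norm_num) k (by omega)

theorem T2.main [FaithfulSMul G Ω] (h : T2 G Ω) (hn : 7 ≤ Fintype.card Ω) {a b : Ω} (hab : a ≠ b)
    (h2 : 2 ≤ #(El (HH G a b))) :
    2 * (#(El (HH G a b)) : ℚ) ≤ Fintype.card Ω * ∑ g ∈ El (HH G a b), 1 / (fx Ω g : ℚ) := by
  have o1 : (1 : G) ∈ El (HH G a b) := mem_El.2 (one_mem _)
  have pos : ∀ g ∈ El (HH G a b), 0 < fx Ω g := fun g hg => by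
    have := two_le_fx hab (mem_El.1 hg); omega
  have pos' : ∀ g ∈ (El (HH G a b)).erase 1, 0 < fx Ω g := fun g hg => pos g (mem_of_mem_erase hg)
  have eT := add_sum_erase _ (fun g : G => 1 / (fx Ω g : ℚ)) o1
  have eS := add_sum_erase _ (fun g : G => fx Ω g) o1
  have eC := card_erase_add_one o1
  simp only [fx_one] at eT eS
  have f2 : 2 ≤ #(FF G a b) := one_lt_card.2 ⟨a, left_mem _ _, b, right_mem _ _, hab⟩
  have ln : ∀ g ∈ (El (HH G a b)).erase 1, fx Ω g * (#(FF G a b) - 1) ≤ Fintype.card Ω - 1 := by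
    intro g hg
    obtain ⟨x, hx⟩ : ∃ x : Ω, g • x ≠ x := by
      by_contra m
      push Not at m
      exact (mem_erase.1 hg).1 (eq_of_smul_eq_smul (α := Ω) fun x => by rw [m, one_smul])
    exact h.line hab hx
  have n7 : (7 : ℚ) ≤ Fintype.card Ω := by exact_mod_cast hn
  have T0 : 0 ≤ ∑ g ∈ (El (HH G a b)).erase 1, 1 / (fx Ω g : ℚ) :=
    sum_nonneg fun g _ => by positivity
  have eT' : (Fintype.card Ω : ℚ) * ∑ g ∈ El (HH G a b), 1 / (fx Ω g : ℚ) =
      1 + Fintype.card Ω * ∑ g ∈ (El (HH G a b)).erase 1, 1 / (fx Ω g : ℚ) := by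
    rw [← eT, mul_add, mul_one_div_cancel (by linarith)]
  have eC' : (#(El (HH G a b)) : ℚ) = #((El (HH G a b)).erase 1) + 1 := by exact_mod_cast eC.symm
  have c1 : (1 : ℚ) ≤ #((El (HH G a b)).erase 1) := by
    exact_mod_cast (show 1 ≤ #((El (HH G a b)).erase 1) by omega)
  have n1 : ((Fintype.card Ω - 1 : ℕ) : ℚ) = Fintype.card Ω - 1 := by
    rw [Nat.cast_sub (by omega)]; simp
  by_cases f4 : 4 ≤ #(FF G a b)
  · have := unif _ pos' (k := 3) (m := Fintype.card Ω - 1) fun g hg =>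
      (Nat.mul_le_mul_left _ (by omega)).trans (ln g hg)
    rw [n1] at this
    rw [eT', eC']
    push_cast at this
    nlinarith
  by_cases ho : ∀ x : Ω, #(Orb (HH G a b) x) ≤ 2
  · have sm : ∀ g ∈ (El (HH G a b)).erase 1, fx Ω g = #(FF G a b) := fun g hg => by
      have m := mem_El.1 (mem_of_mem_erase hg)
      unfold fx
      congr 1
      ext c
      simp only [mem_filter, mem_univ, true_and]
      exact ⟨h.small hab ho (by omega) m (mem_erase.1 hg).1, fun hc => mem_FF.1 hc g m⟩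
    obtain ⟨x, hx⟩ : ∃ x, x ∉ FF G a b := by
      by_contra m
      push Not at m
      have := card_le_card (show (univ : Finset Ω) ⊆ FF G a b from fun y _ => m y)
      rw [card_univ] at this; omega
    have s1 : #(St (HH G a b) x) ≤ 1 := card_le_one.2 fun u hu v hv => by
      have k : ∀ u ∈ St (HH G a b) x, u = 1 := fun u hu => by_contra fun n =>
        hx (h.small hab ho (by omega) (mem_St.1 hu).1 n (mem_St.1 hu).2)
      rw [k u hu, k v hv]
    have e := orb_stab (HH G a b) x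
    have := ho x
    have e2 : #(El (HH G a b)) = 2 := by nlinarith
    obtain ⟨g, hg⟩ := card_eq_one.1 (show #((El (HH G a b)).erase 1) = 1 by omega)
    have gm : g ∈ (El (HH G a b)).erase 1 := hg ▸ mem_singleton_self g
    have eD := h.cardD hab
    have eG := h.cardG hab
    rw [mul_right_comm, eT', hg, sum_singleton, sm g gm] at eD
    rw [eT', e2, hg, sum_singleton, sm g gm]
    obtain f | f : #(FF G a b) = 2 ∨ #(FF G a b) = 3 := by omega
    · rw [f]; push_cast; linarith
    · rw [f] at eD ⊢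
      obtain n | n | n : Fintype.card Ω = 7 ∨ Fintype.card Ω = 8 ∨ 9 ≤ Fintype.card Ω := by omega
      · exact ((mem_erase.1 gm).1 (no84 (by rw [eG, e2, n]) n hab
          (mem_El.1 (mem_of_mem_erase gm)))).elim
      · rw [n] at eD
        have : ((3 * DD G Ω : ℕ) : ℚ) = (77 : ℕ) := by push_cast at eD ⊢; rw [eD]; norm_num
        have := Nat.cast_injective this
        omega
      · have : (9 : ℚ) ≤ Fintype.card Ω := by exact_mod_cast n
        push_cast; linarith
  push Not at ho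
  obtain ⟨x, hx⟩ := ho
  have bd := h.bound hn hab hx
  obtain f | f : #(FF G a b) = 2 ∨ #(FF G a b) = 3 := by omega
  · have t := titu _ pos ⟨1, o1⟩
    rw [f] at bd
    have bd' : 2 * ((∑ g ∈ El (HH G a b), fx Ω g : ℕ) : ℚ) ≤ #(El (HH G a b)) * Fintype.card Ω := by
      exact_mod_cast (show 2 * ∑ g ∈ El (HH G a b), fx Ω g ≤ #(El (HH G a b)) * Fintype.card Ω by
        nlinarith)
    have T1 : 0 ≤ ∑ g ∈ El (HH G a b), 1 / (fx Ω g : ℚ) := sum_nonneg fun g _ => by positivity
    refine le_of_mul_le_mul_left (a := (#(El (HH G a b)) : ℚ)) ?_ (by linarith)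
    nlinarith
  · rw [f] at bd ln
    rw [eT', eC']
    by_cases c : Fintype.card Ω + 1 ≤ 2 * #(El (HH G a b))
    · have := unif _ pos' (k := 2) (m := Fintype.card Ω - 1) ln
      rw [n1] at this
      have c' : (Fintype.card Ω : ℚ) + 1 ≤ 2 * #(El (HH G a b)) := by exact_mod_cast c
      rw [eC'] at c'
      push_cast at this
      refine le_of_mul_le_mul_left (a := (Fintype.card Ω : ℚ) - 1) ?_ (by linarith)
      nlinarith
    · have t := titu _ pos' (card_pos.1 (by omega))
      rw [← eS, ← eC] at bd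
      have c' : 2 * ((#((El (HH G a b)).erase 1) : ℚ) + 1) ≤ Fintype.card Ω := by
        exact_mod_cast (show 2 * (#((El (HH G a b)).erase 1) + 1) ≤ Fintype.card Ω by omega)
      have bd' : 2 * (Fintype.card Ω + ((∑ g ∈ (El (HH G a b)).erase 1, fx Ω g : ℕ) : ℚ)) +
          2 * ((#((El (HH G a b)).erase 1) : ℚ) + 1) ≤
          ((#((El (HH G a b)).erase 1) : ℚ) + 1) * (Fintype.card Ω + 3) := by exact_mod_cast bd
      have S0 : (0 : ℚ) ≤ ((∑ g ∈ (El (HH G a b)).erase 1, fx Ω g : ℕ) : ℚ) := Nat.cast_nonneg _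
      generalize ((∑ g ∈ (El (HH G a b)).erase 1, fx Ω g : ℕ) : ℚ) = S at *
      generalize ∑ g ∈ (El (HH G a b)).erase 1, 1 / (fx Ω g : ℚ) = T at *
      generalize (#((El (HH G a b)).erase 1) : ℚ) = m at *
      generalize (Fintype.card Ω : ℚ) = n at *
      by_contra l
      push Not at l
      have l1 : n * m ^ 2 ≤ S * (n * T) := by nlinarith
      have l2 : S * (n * T) ≤ S * (2 * m + 1) := mul_le_mul_of_nonneg_left (by linarith) S0
      have l3 : 2 * S * (2 * m + 1) ≤ ((m + 1) * (n + 1) - 2 * n) * (2 * m + 1) :=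
        mul_le_mul_of_nonneg_right (by linarith) (by linarith)
      nlinarith

end Lead.Der
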