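import Cfsg.Agent.H19.Npc
import Cfsg.Agent.H21.Glau1

/-! Galois-fixed odd degree characters of the principal `2`-block and normal `2`-complements. -/

set_option autoImplicit false
set_option maxHeartbeats 400000

open Cfsg H17 Subgroup Finset H19
open H20 (eG eA IB IsBlk emin vd)
open CF (Irr dot cfj stab)

namespace Lead.GalNpc

variable {G : Type*} [Group G] [Finite G] {O : ValuationSubring ℂ} [CharP (kk O) 2]

theorem cop {k : ℕ} (hk₁ : ∀ g : G, (∃ j : ℕ, orderOf g = 2 ^ j) → g ^ k = g ^ 3)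
    (hk₂ : ∀ g : G, Odd (orderOf g) → g ^ k = g) : k.Coprime (Nat.card G) :=
  Nat.coprime_of_dvd fun q hq h1 h2 => by
    have := Fact.mk hq
    obtain ⟨g, hg⟩ := exists_prime_orderOf_dvd_card' q h2
    have h3 : g ^ k = 1 := orderOf_dvd_iff_pow_eq_one.1 (hg ▸ h1)
    rcases hq.eq_two_or_odd' with rfl | h
    · rw [hk₁ g ⟨1, hg⟩, ← orderOf_dvd_iff_pow_eq_one, hg] at h3
      omega
    · rw [hk₂ g (hg ▸ h)] at h3
      rw [h3, orderOf_one] at hg
      exact hq.one_lt.ne hg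

variable (O) in
theorem card_modEq {k : ℕ} (hk₁ : ∀ g : G, (∃ j : ℕ, orderOf g = 2 ^ j) → g ^ k = g ^ 3)
    (hk₂ : ∀ g : G, Odd (orderOf g) → g ^ k = g) (Q : ℕ → Prop) :
    Nat.card {χ : IrrCharacter G // χ ∈ irr (B0 O G) ∧ Q (charDegree (χ : G → ℂ))} ≡
      Nat.card {χ : IrrCharacter G // χ ∈ irr (B0 O G) ∧ Q (charDegree (χ : G → ℂ)) ∧
        ∀ g : G, (χ : G → ℂ) (g ^ k) = (χ : G → ℂ) g} [MOD 2] := by
  classical
  have := Fintype.ofFinite G
  have hk := cop hk₁ hk₂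
  have hr : ∀ g : G, ¬ 2 ∣ orderOf g → g ^ k = g := fun g hg =>
    hk₂ g (Nat.not_even_iff_odd.1 (mt even_iff_two_dvd.1 hg))
  let A := {χ : IrrCharacter G // χ ∈ H19.irr (H19.B0 O G) ∧ Q (charDegree (χ : G → ℂ))}
  let f : Function.End A := fun χ => ⟨⟨_, χ.1.2.comp_pow hk⟩, by
    refine Eq.trans (by_contra fun h => ?_) (show H19.lam O χ.1 = _ from χ.2.1)
    have h1 := H19.inner_pr_eq_zero (p := 2) h
    rw [H19.pr_eq_iff.2 fun g hg => congrArg χ.1.1 (hr g hg), ← H19.pr_pr,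
      H19.classInner_pr_left, H17.classInner_self_eq_zero] at h1
    exact H19.irr_one_ne_zero χ.1 ((H19.pr_of_reg _ H19.preg_one).symm.trans (congrFun h1 1)), by
    simpa [charDegree] using χ.2.2⟩
  have hf : ∀ n χ g, ((f ^ n) χ).1.1 g = χ.1.1 (g ^ k ^ n) := fun n => by
    induction n with
    | zero => exact fun χ g => by simp only [pow_zero, pow_one]; rfl
    | succ n ih => exact fun χ g => by rw [pow_succ', pow_succ', pow_mul, ← ih]; rfl
  have hf' : f ^ 2 ^ Nat.card G = 1 := funext fun χ => Subtype.ext (Subtype.ext (funext fun g => by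
    rw [hf]; congr 1
    obtain ⟨j, hj⟩ := H19.ppart_isPElt (p := 2) g
    have h1 : ∀ n, H19.ppart 2 g ^ k ^ n = H19.ppart 2 g ^ 3 ^ n ∧
        H19.rpart 2 g ^ k ^ n = H19.rpart 2 g := fun n => by
      induction n with
      | zero => simp
      | succ n ih => rw [pow_succ, pow_succ, pow_mul, pow_mul, pow_mul, ih.1, ih.2,
          hk₁ _ ((H19.ppart_isPElt g).pow _), hr _ (H19.rpart_reg g)]; simp
    have h2 : j ≤ Nat.card G := (Nat.lt_two_pow_self.le.trans_eq hj.symm).trans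
      (Nat.le_of_dvd Nat.card_pos (orderOf_dvd_natCard _))
    have h3 : ∀ n, 3 ^ 2 ^ n ≡ 1 [MOD 2 ^ n] := fun n => by
      have := Nat.ModEq.pow_totient (x := 3) (n := 2 ^ (n + 1)) (by norm_num)
      rw [Nat.totient_prime_pow_succ Nat.prime_two] at this
      simpa using this.of_dvd (pow_dvd_pow 2 n.le_succ)
    conv_lhs => rw [← H19.ppart_mul_rpart (p := 2) g, (H19.commute_ppart_rpart g).mul_pow,
      (h1 _).1, (h1 _).2, pow_eq_pow_iff_modEq.2 (hj ▸ (h3 _).of_dvd (pow_dvd_pow 2 h2)), pow_one,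
      H19.ppart_mul_rpart]
    rfl))
  have h4 := Equiv.Perm.card_fixedPoints_modEq hf'
  rw [← Nat.card_eq_fintype_card, ← Nat.card_eq_fintype_card] at h4
  refine h4.trans ?_
  refine congrArg (· % 2) (Nat.card_congr (α := Function.fixedPoints f)
    ⟨fun χ => ⟨χ.1.1, χ.1.2.1, χ.1.2.2, congrFun (congrArg (·.1.1) χ.2)⟩,
    fun χ => ⟨⟨χ.1, χ.2.1, χ.2.2.1⟩, Subtype.ext (Subtype.ext (funext χ.2.2.2))⟩,
    fun _ => rfl, fun _ => rfl⟩)

variable (O) in
theorem npc {k : ℕ} (hk₁ : ∀ g : G, (∃ j : ℕ, orderOf g = 2 ^ j) → g ^ k = g ^ 3)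
    (hk₂ : ∀ g : G, Odd (orderOf g) → g ^ k = g)
    (h : ∀ χ ∈ irr (B0 O G), Odd (charDegree (χ : G → ℂ)) →
      (∀ g : G, (χ : G → ℂ) (g ^ k) = (χ : G → ℂ) g) → charDegree (χ : G → ℂ) = 1) :
    HasNormalPComplement 2 G := by
  classical
  have hp := Nat.prime_two
  rw [H3.hasNormalPComplement_iff_coprime, Nat.coprime_comm, hp.coprime_iff_not_dvd]
  intro hN
  obtain ⟨e, he⟩ := H3.index_pResidual (G := G) (p := 2)
  have hd := fun θ hθ => H21.not_dvd_detOrder (G := G) (θ := θ) hp hθ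
  obtain ⟨P⟩ : Nonempty (Sylow 2 G) := inferInstance
  have hP := H3.pResidual_sup_sylow P
  have hk := cop hk₁ hk₂
  set N := pResidual 2 G
  have hc : ∀ {m : ℕ}, ¬ 2 ∣ m → N.index.Coprime m := fun h =>
    he ▸ Nat.Coprime.pow_left e (hp.coprime_iff_not_dvd.2 h)
  have hγ := H20.isBlk_eA N (B0 O N)
  let R : (G → ℂ) → Prop := fun φ => (Odd (charDegree φ) ∧ charDegree φ ≠ 1) ∧
    ∀ g ∈ N, φ (g ^ k) = φ g
  have hR : ∀ φ g, R φ → R (cfj g φ) := fun φ g hφ => by
    refine ⟨by rw [H21.deg_congr (CF.cfj_at_one g φ)]; exact hφ.1, fun x hx => ?_⟩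
    show φ (g⁻¹ * x ^ k * g) = φ (g⁻¹ * x * g)
    have := hφ.2 (g⁻¹ * x * g) (by
      simpa using (inferInstance : N.Normal).conj_mem x hx g⁻¹)
    rw [← this]
    congr 1
    simpa using (conj_pow (a := g⁻¹) (b := x) (i := k)).symm
  have key := H21.dvd_sum_of_orb hp P.2 (IB N (eA N (B0 O N)))
    (fun φ hφ g _ => by
      have := hγ.cfj_mem_IB hφ g
      rwa [H20.sc_eq_of_nrm (H20.top_le_nrm N (mem_top g)),
        H20.eA_B0_fixed N g (mem_top g)] at this)
    (fun φ => if R φ then 1 else 0)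
    (fun φ _ g _ => by
      have : R (cfj g φ) ↔ R φ := ⟨fun h => by
        have := hR _ g⁻¹ h
        have e1 : cfj g⁻¹ (cfj g φ) = φ := funext fun x => by
          show φ _ = φ x
          congr 1; group
        rwa [e1] at this, hR φ g⟩
      simp only [this]) fun φ hφ hs => by
      rw [if_neg, Nat.cast_ofNat]
      · exact dvd_zero _
      rintro ⟨⟨h3, h3'⟩, h6⟩
      have h4 : ¬ 2 ∣ charDegree φ := h3.not_two_dvd_nat
      have h2 := H20.irr_of_IB hφ
      have h5 : ⊤ ≤ stab φ := hP ▸ sup_le (CF.le_stab (CF.irr_cf h2)) hs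
      have hd' := hd _ (CF.irr_res h2).isCharacter
      obtain ⟨ξ, ⟨h7, h8, h10⟩, h11⟩ := H21.ext_canonical (CF.irr_res h2)
        (fun g n => CF.mem_stab_iff.1 (h5 (mem_top g)) n) (H21.deg_cast h2).symm
        ((hc hd').mul_right (hc h4))
      have h12 : (fun g => ξ (g ^ k)) = ξ := by
        refine h11 _ (h7.comp_pow hk) (fun n => ?_) ?_
        · exact (h8 (n ^ k)).trans (h6 n n.2)
        · obtain ⟨σ, hσ⟩ := exists_ringEquiv_pow_char hk
          simp only [← hσ ξ h7.isGen]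
          rw [show (fun g => σ (ξ g)) = fun g => (σ : ℂ →+* ℂ) (ξ g) from rfl,
            H21.detOrder_aut h7.isCharacter, h10]
          exact hc hd'
      obtain ⟨θ, hθ, rfl⟩ := H20.exists_of_IB hφ
      have h9 := h ⟨ξ, h7⟩ (mem_B0_of_dot he hθ
        (H20.dot_ne_of_res fun n => (h8 n).trans (H20.ext_coe _ n)))
      rw [H21.deg_congr (h8 1)] at h9
      exact h3' (h9 h3 (congrFun h12))
  rw [H20.sum_IB_eA, sum_boole, filter_filter, Int.natCast_dvd_natCast] at key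
  have h1 := card_modEq (G := N) O (k := k)
    (fun g hg => Subtype.ext (hk₁ g (by simpa using hg)))
    (fun g hg => Subtype.ext (hk₂ g (by simpa using hg))) fun d => Odd d ∧ d ≠ 1
  have := Fintype.ofFinite N
  rw [Nat.card_eq_fintype_card, Nat.card_eq_fintype_card, Fintype.card_subtype,
    Fintype.card_subtype] at h1
  have h2 : 2 ∣ #{χ : IrrCharacter N | χ ∈ irr (B0 O N) ∧ Odd (charDegree (χ : N → ℂ)) ∧
      charDegree (χ : N → ℂ) ≠ 1} := by
    refine (h1.dvd_iff dvd_rfl).2 ?_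
    convert key using 3 with χ
    simp only [R, H21.deg_congr (H20.ext_one _)]
    refine and_congr_right fun _ => and_congr_right fun _ => ⟨fun h g hg => ?_, fun h g => ?_⟩
    · exact (H20.ext_coe _ (⟨g, hg⟩ ^ k)).trans ((h _).trans (H20.ext_coe _ ⟨g, hg⟩).symm)
    · exact (H20.ext_coe _ (g ^ k)).symm.trans ((h g g.2).trans (H20.ext_coe _ g))
  have h3 := dvd_sum_sq_B0 (O := O) hN
  rw [← even_iff_two_dvd, Finset.even_sum_iff_even_card_odd, Finset.filter_filter,
    even_iff_two_dvd] at h3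
  have h4 : #{χ : IrrCharacter N | χ ∈ irr (B0 O N) ∧ Odd (charDegree (χ : N → ℂ) ^ 2)} =
      #{χ : IrrCharacter N | χ ∈ irr (B0 O N) ∧ Odd (charDegree (χ : N → ℂ)) ∧
        charDegree (χ : N → ℂ) ≠ 1} +
      #{χ : IrrCharacter N | χ ∈ irr (B0 O N) ∧ charDegree (χ : N → ℂ) = 1} := by
    rw [← card_union_of_disjoint (by
      rw [disjoint_filter]; exact fun χ _ a b => a.2.2 b.2), ← filter_or]
    congr 1
    refine filter_congr fun χ _ => ?_
    rw [Nat.odd_pow_iff two_ne_zero]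
    by_cases h : charDegree (χ : N → ℂ) = 1 <;> simp [h]
  rw [h4, Nat.dvd_add_right h2, ← card_linB0] at h3
  have := finite_monoidHom_units (G := N)
  obtain ⟨l, hl⟩ := exists_prime_orderOf_dvd_card' 2 h3
  refine hd _ (isIrr_linear l.1).isCharacter ?_
  rw [detOrder, H21.detChar_linear (isIrr_linear l.1).isCharacter (by simp), H21.orderOf_linear,
    orderOf_coe, hl]

end Lead.GalNpc
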