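import Mathlib

/-! Overgroups of `SL₂(q)` on its natural module, part 1. -/

set_option autoImplicit false
set_option maxHeartbeats 400000

namespace Lead.NS

open Subgroup

variable {F : Type*} [Field F] {Γ : Type*} [Group Γ] [DistribMulAction Γ (F × F)]

/-- `L` acts as `SL₂(F)`. -/
structure Nat2 (F : Type*) [Field F] {Γ : Type*} [Group Γ] [DistribMulAction Γ (F × F)]
    (L : Subgroup Γ) : Prop where
  faith : ∀ g : Γ, (∀ w : F × F, g • w = w) → g = 1
  lin : ∀ l ∈ L, ∃ a b c d : F, a * d - b * c = 1 ∧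
    ∀ w : F × F, l • w = (a * w.1 + b * w.2, c * w.1 + d * w.2)
  ex : ∀ a b c d : F, a * d - b * c = 1 → ∃ l ∈ L,
    ∀ w : F × F, l • w = (a * w.1 + b * w.2, c * w.1 + d * w.2)

variable (F) in
/-- The conjugates of the line `F × 0`. -/
def Uc (g : Γ) : AddSubgroup (F × F) where
  carrier := {w | (g⁻¹ • w).2 = 0}
  zero_mem' := by simp
  add_mem' := fun {a b} ha hb => by
    simp only [Set.mem_setOf_eq] at *
    rw [smul_add, Prod.snd_add, ha, hb, add_zero]
  neg_mem' := fun {a} ha => by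
    simp only [Set.mem_setOf_eq] at *
    rw [smul_neg, Prod.snd_neg, ha, neg_zero]

theorem mem_Uc {g : Γ} {w : F × F} : w ∈ Uc F g ↔ (g⁻¹ • w).2 = 0 := Iff.rfl

theorem mem_Uc_mul {g h : Γ} {w : F × F} : w ∈ Uc F (h * g) ↔ h⁻¹ • w ∈ Uc F g := by
  rw [mem_Uc, mem_Uc, mul_inv_rev, mul_smul]

theorem mem_U1 {w : F × F} : w ∈ Uc F (1 : Γ) ↔ w.2 = 0 := by rw [mem_Uc, inv_one, one_smul]

variable (Γ) in
/-- Elements trivial on `Y` and on the quotient. -/
def AA (Y : AddSubgroup (F × F)) : Subgroup Γ where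
  carrier := {g | (∀ y ∈ Y, g • y = y) ∧ ∀ w, g • w - w ∈ Y}
  one_mem' := ⟨fun _ _ => one_smul _ _, fun w => by simp⟩
  mul_mem' := fun {a b} ha hb => ⟨fun y hy => by rw [mul_smul, hb.1 y hy, ha.1 y hy], fun w => by
    have := Y.add_mem (ha.2 (b • w)) (hb.2 w)
    rwa [sub_add_sub_cancel, ← mul_smul] at this⟩
  inv_mem' := fun {a} ha => ⟨fun y hy => by rw [inv_smul_eq_iff, ha.1 y hy], fun w => by
    have := Y.neg_mem (ha.2 (a⁻¹ • w))
    rwa [smul_inv_smul, neg_sub] at this⟩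

theorem AA_conj {g h t : Γ} (ht : t ∈ AA Γ (Uc F g)) : h * t * h⁻¹ ∈ AA Γ (Uc F (h * g)) :=
  ⟨fun y hy => by rw [mul_smul, mul_smul, ht.1 _ (mem_Uc_mul.1 hy), smul_inv_smul], fun w => by
    rw [mem_Uc_mul, smul_sub, mul_smul, mul_smul, inv_smul_smul]
    exact ht.2 _⟩

variable (F Γ) in
/-- The stabilizer of the line. -/
def St [Finite Γ] : Subgroup Γ where
  carrier := {g | ∀ w : F × F, w.2 = 0 → (g • w).2 = 0}
  one_mem' := fun w hw => by rwa [one_smul]
  mul_mem' := fun {a b} ha hb w hw => by rw [mul_smul]; exact ha _ (hb w hw)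
  inv_mem' := fun {a} ha w hw => by
    have h : ∀ n : ℕ, ((a ^ n) • w).2 = 0 := fun n => by
      induction n with
      | zero => rwa [pow_zero, one_smul]
      | succ n ih => rw [pow_succ', mul_smul]; exact ha _ ih
    have := h (orderOf a - 1)
    rwa [show a ^ (orderOf a - 1) = a⁻¹ by
      rw [eq_inv_iff_mul_eq_one, ← pow_succ, Nat.sub_add_cancel (orderOf_pos a),
        pow_orderOf_eq_one]] at this

theorem Uc_of_St [Finite Γ] {n : Γ} (hn : n ∈ St F Γ) : Uc F n = Uc F (1 : Γ) := by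
  ext w
  rw [mem_Uc, mem_U1]
  exact ⟨fun h => by simpa using hn _ h, fun h => (St F Γ).inv_mem hn w h⟩

variable {L : Subgroup Γ}

theorem isP_AA (H : Nat2 F L) (p : ℕ) [CharP F p] (Y : AddSubgroup (F × F)) :
    IsPGroup p (AA Γ Y) := fun ⟨a, ha⟩ => ⟨1, Subtype.ext (H.faith _ fun w => by
  have h : ∀ n : ℕ, (a ^ n) • w = w + (n : F) • (a • w - w) := fun n => by
    induction n with
    | zero => simp
    | succ n ih =>
      have e : ((n : F) • (a • w - w)) = n • (a • w - w) := Nat.cast_smul_eq_nsmul _ _ _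
      rw [pow_succ', mul_smul, ih, smul_add, e, ha.1 _ (Y.nsmul_mem (ha.2 w) n), ← e]
      rw [Nat.cast_succ, add_smul, one_smul]
      abel
  simpa using h p)⟩

theorem Nat2.smul_comm (H : Nat2 F L) {l : Γ} (hl : l ∈ L) (c : F) (w : F × F) :
    l • (c • w) = c • (l • w) := by
  obtain ⟨a, b, c', d, -, h⟩ := H.lin l hl
  rw [h, h]; ext <;> simp <;> ring

theorem Nat2.endo (H : Nat2 F L) (f : F × F →+ F × F) (hf : ∀ l ∈ L, ∀ w, f (l • w) = l • f w) :
    ∃ s : F, ∀ w, f w = s • w := by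
  obtain ⟨r, hr, hr'⟩ := H.ex 1 0 1 1 (by ring)
  have h1 : (f (0, 1)).1 = 0 := by
    have := congrArg Prod.snd (hf r hr (0, 1))
    rw [hr', hr'] at this
    simpa using this
  have h2 : ∀ c x y : F, f (x + c * y, y) = ((f (x, y)).1 + c * (f (x, y)).2, (f (x, y)).2) :=
    fun c x y => by
      obtain ⟨u, hu, hu'⟩ := H.ex 1 c 0 1 (by ring)
      have := hf u hu (x, y)
      rw [hu', hu'] at this
      simpa using this
  set s := (f (0, 1)).2
  have h3 : ∀ x, f (x, 0) = (x * s, 0) := fun x => by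
    have e := h2 x 0 1
    rw [show ((0 : F) + x * 1, (1 : F)) = (x, 0) + (0, 1) by simp, map_add, h1] at e
    have e1 := congrArg Prod.fst e
    have e2 := congrArg Prod.snd e
    simp only [Prod.fst_add, Prod.snd_add, h1, add_zero, zero_add] at e1 e2
    exact Prod.ext e1 (by simpa using e2)
  have h4 : ∀ y, f (0, y) = (0, y * s) := fun y => by
    obtain ⟨u, hu, hu'⟩ := H.ex 0 (-1) 1 0 (by ring)
    have := hf u hu (y, 0)
    rw [hu', hu', h3] at this
    simpa using this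
  refine ⟨s, fun w => ?_⟩
  rw [show w = (w.1, 0) + (0, w.2) by simp, map_add, h3, h4]
  ext <;> simp [mul_comm]

theorem Nat2.semi (H : Nat2 F L) {b : Γ} (hb : b ∈ normalizer (L : Set Γ)) :
    ∃ σ : F → F, (∀ c w, b • (c • w) = σ c • (b • (w : F × F))) ∧
      (∀ c d, σ (c + d) = σ c + σ d) ∧ ∀ c d, σ (c * d) = σ c * σ d := by
  have h : ∀ c : F, ∃ s : F, ∀ w : F × F, b • (c • w) = s • (b • w) := fun c => by
    obtain ⟨s, hs⟩ := H.endo
      { toFun := fun w => b • (c • (b⁻¹ • w))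
        map_zero' := by simp
        map_add' := fun x y => by simp only [smul_add] } fun l hl w => by
      have h1 : b⁻¹ * l * b ∈ L := by
        have := (mem_normalizer_iff.1 (inv_mem hb) l).1 hl
        rwa [inv_inv] at this
      show b • (c • (b⁻¹ • l • w)) = l • b • (c • (b⁻¹ • w))
      rw [show b⁻¹ • l • w = (b⁻¹ * l * b) • (b⁻¹ • w) by simp [mul_smul], ← H.smul_comm h1]
      simp [mul_smul]
    exact ⟨s, fun w => by simpa using hs (b • w)⟩
  choose σ hσ using h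
  have h0 : b • ((1, 0) : F × F) ≠ 0 := by rw [Ne, smul_eq_zero_iff_eq]; simp
  refine ⟨σ, hσ, fun c d => smul_left_injective F h0 ?_, fun c d => smul_left_injective F h0 ?_⟩
  · simp only
    rw [← hσ, add_smul, smul_add, hσ, hσ, add_smul]
  · simp only
    rw [← hσ, mul_smul, hσ, hσ, mul_smul]

theorem Nat2.AA_form (H : Nat2 F L) {a : Γ} (ha : a ∈ AA Γ (Uc F (1 : Γ)))
    (hb : a ∈ normalizer (L : Set Γ)) : ∃ c : F, ∀ w : F × F, a • w = (w.1 + c * w.2, w.2) := by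
  obtain ⟨σ, h1, -, -⟩ := H.semi hb
  have h2 : ∀ x : F, a • ((x, 0) : F × F) = (x, 0) := fun x => ha.1 _ (mem_U1.2 rfl)
  have h3 : ∀ c, σ c = c := fun c => by
    have := h1 c (1, 0)
    rw [h2, Prod.smul_mk, smul_zero, h2] at this
    simpa using (congrArg Prod.fst this).symm
  have h4 := mem_U1.1 (ha.2 (0, 1))
  refine ⟨(a • ((0, 1) : F × F)).1, fun w => ?_⟩
  conv_lhs => rw [show w = (w.1, 0) + w.2 • ((0, 1) : F × F) by simp, smul_add, h2, h1, h3]
  rw [Prod.snd_sub, sub_eq_zero] at h4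
  ext
  · simp [mul_comm]
  · simp [h4]

variable [Finite Γ] [Finite F]

theorem Nat2.conj_into (H : Nat2 F L) (p : ℕ) [hp : Fact p.Prime] [CharP F p]
    (hS : ∀ S : Sylow p (normalizer (L : Set Γ)), ∀ P : Sylow p Γ, Nat.card S = Nat.card P)
    {B : Subgroup Γ} (hB : IsPGroup p B) (hB' : B ≤ St F Γ) :
    ∃ n ∈ St F Γ, ∀ b ∈ B, n⁻¹ * b * n ∈ normalizer (L : Set Γ) := by
  have h0 : IsPGroup p ((L ⊓ AA Γ (Uc F (1 : Γ))).subgroupOf (normalizer (L : Set Γ))) :=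
    ((isP_AA H p _).to_le inf_le_right).comap_subtype
  obtain ⟨S', hS'⟩ := h0.exists_le_sylow
  obtain ⟨P⟩ : Nonempty (Sylow p Γ) := inferInstance
  let S : Sylow p Γ := Sylow.ofCard ((S' : Subgroup _).map (normalizer (L : Set Γ)).subtype) (by
    rw [card_map_of_injective (subtype_injective _), hS S' P, P.card_eq_multiplicity])
  have hSN : (S : Subgroup Γ) ≤ normalizer (L : Set Γ) := map_subtype_le _
  have hST : (S : Subgroup Γ) ≤ St F Γ := by
    have h1 : IsPGroup p ((S : Subgroup Γ) ⊓ L : Subgroup Γ) := S.2.to_le inf_le_left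
    obtain ⟨v, hv, hv0⟩ := h1.exists_fixed_point_of_prime_dvd_card_of_fixed_point (F × F)
      (a := 0) (by
        have := Fintype.ofFinite F
        obtain ⟨n, -, hn⟩ := FiniteField.card F p
        rw [Nat.card_prod, Nat.card_eq_fintype_card, hn]
        exact (dvd_pow_self p n.ne_zero).mul_right _) (fun g => smul_zero g)
    obtain ⟨u, hu, hu'⟩ := H.ex 1 1 0 1 (by ring)
    have huA : u ∈ AA Γ (Uc F (1 : Γ)) := ⟨fun y hy => by
      rw [hu', mem_U1.1 hy]; ext <;> simp [mem_U1.1 hy], fun w => by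
      rw [mem_U1, hu']; simp⟩
    have huS : u ∈ (S : Subgroup Γ) := ⟨⟨u, le_normalizer hu⟩, hS' ⟨hu, huA⟩, rfl⟩
    have hfix : ∀ w : F × F, u • w = w → w.2 = 0 := fun w hw => by
      rw [hu'] at hw
      simpa using congrArg Prod.fst hw
    have hv2 : v.2 = 0 := hfix v (hv ⟨u, huS, hu⟩)
    have hv1 : v.1 ≠ 0 := fun h => hv0 (Prod.ext h hv2).symm
    intro s hs w hw
    replace hs : s ∈ (S : Subgroup Γ) := hs
    refine hfix _ ?_
    have h2 : s⁻¹ * u * s ∈ L := by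
      have := (mem_normalizer_iff.1 (inv_mem (hSN hs)) u).1 hu
      rwa [inv_inv] at this
    have h3 : (s⁻¹ * u * s) • v = v := hv ⟨_, mem_inf.2 ⟨mul_mem (mul_mem (inv_mem hs) huS) hs, h2⟩⟩
    have h4 : w = (w.1 / v.1) • v := by ext <;> simp [hv1, hw, hv2]
    have h5 : (s⁻¹ * u * s) • w = w := by rw [h4, H.smul_comm h2, h3]
    rw [mul_smul, mul_smul, inv_smul_eq_iff] at h5
    exact h5
  obtain ⟨Q, hQ⟩ := (hB.comap_subtype (K := St F Γ)).exists_le_sylow
  obtain ⟨n, hn⟩ := MulAction.exists_smul_eq (St F Γ) (S.subtype hST) Q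
  refine ⟨n, n.2, fun b hb => hSN ?_⟩
  have : (⟨b, hB' hb⟩ : St F Γ) ∈ (Q : Subgroup _) := hQ hb
  rw [← hn, Sylow.coe_subgroup_smul, mem_pointwise_smul_iff_inv_smul_mem] at this
  simpa [mem_subgroupOf] using this

theorem alg {Y : AddSubgroup (F × F)} (H : Nat2 F L) {ξ η : F} (hξ : ξ ≠ 0) (hx : (ξ, 0) ∈ Y)
    (hy : (η, 0) ∉ Y) (hfix : ∀ b ∈ AA Γ Y, ∀ w, b • w = w → w ∈ Y ∨ b = 1)
    (hb : ∀ ζ : F, (ζ, 0) ∈ Y → ∃ b ∈ AA Γ Y, b ∈ normalizer (L : Set Γ) ∧
      b • ((η, 0) : F × F) = (η + ζ, 0)) : Nat.card F = 4 := by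
  classical
  set l := η / ξ with hl
  have key : ∀ κ : F, (κ * ξ, 0) ∈ Y → ∃ σ : F → F, (∀ c d, σ (c + d) = σ c + σ d) ∧
      (∀ c d, σ (c * d) = σ c * σ d) ∧ σ l = l + κ ∧ (∀ c, ((σ c - c) * ξ, 0) ∈ Y) ∧
      (∀ c, (c * ξ, 0) ∈ Y → σ c = c) ∧ (κ ≠ 0 → ∀ c, σ c = c → (c * ξ, 0) ∈ Y) := fun κ hκ => by
    obtain ⟨b, h1, h2, h3⟩ := hb _ hκ
    obtain ⟨σ, h4, h5, h6⟩ := H.semi h2
    have h7 : ∀ c, b • ((c * ξ, 0) : F × F) = (σ c * ξ, 0) := fun c => by
      have := h4 c (ξ, 0)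
      rw [h1.1 _ hx] at this
      simpa using this
    have h8 : σ l = l + κ := by
      have := h7 l
      rw [hl, div_mul_cancel₀ _ hξ, h3] at this
      have := congrArg Prod.fst this
      simp only at this
      rw [hl]; field_simp; linear_combination this.symm
    refine ⟨σ, h5, h6, h8, fun c => ?_, fun c hc => ?_, fun hκ0 c hc => ?_⟩
    · have := h1.2 (c * ξ, 0)
      rw [h7] at this
      simpa [sub_mul] using this
    · have := h1.1 _ hc
      rw [h7] at this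
      exact mul_right_cancel₀ hξ (congrArg Prod.fst this)
    · refine (hfix b h1 _ (by rw [h7, hc])).resolve_right fun e => hκ0 ?_
      rw [e, one_smul] at h3
      have := congrArg Prod.fst h3
      simpa [hξ] using this
  obtain ⟨σ, a1, a2, a3, a4, a5, a6⟩ := key 1 (by rwa [one_mul])
  replace a6 := a6 one_ne_zero
  have h2 : (2 : F) = 0 := by
    by_contra h
    have e := a4 (l * l)
    rw [a2, a3] at e
    have e2 : ((l + l) * ξ, (0 : F)) ∈ Y := by
      have := Y.sub_mem e hx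
      convert this using 1
      ext
      · simp; ring
      · simp
    have := a5 _ e2
    rw [a1, a3] at this
    exact h (by linear_combination this)
  have hK : ∀ κ : F, (κ * ξ, 0) ∈ Y → κ = 0 ∨ κ = 1 := fun κ hκ => by
    obtain ⟨τ, b1, b2, b3, -, b5, -⟩ := key κ hκ
    have e := b5 (l * l + l) (a6 _ (by rw [a1, a2, a3]; linear_combination (l + 1) * h2))
    rw [b1, b2, b3] at e
    have : κ * (κ - 1) = 0 := by linear_combination e - (l * κ + κ) * h2
    rcases mul_eq_zero.1 this with h | h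
    · exact Or.inl h
    · exact Or.inr (sub_eq_zero.1 h)
  have hl0 : ∀ κ : F, (κ * ξ, 0) ∈ Y → l ≠ κ := fun κ hκ e => hy (by
    rwa [← e, hl, div_mul_cancel₀ _ hξ] at hκ)
  have e0 := hl0 0 (by simp [show ((0 : F), (0 : F)) = 0 from rfl])
  have e1 := hl0 1 (by rwa [one_mul])
  have := Fintype.ofFinite F
  have hu : (Finset.univ : Finset F) = {0, 1, l, l + 1} := by
    refine (Finset.eq_univ_of_forall fun μ => ?_).symm
    simp only [Finset.mem_insert, Finset.mem_singleton]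
    rcases hK _ (a4 μ) with h | h
    · rcases hK _ (a6 μ (sub_eq_zero.1 h)) with h | h <;> simp [h]
    · rcases hK _ (a6 (μ + l) (by rw [a1, a3]; linear_combination h + h2)) with h' | h'
      · exact Or.inr (Or.inr (Or.inl (by linear_combination h' - l * h2)))
      · exact Or.inr (Or.inr (Or.inr (by linear_combination h' - l * h2)))
  rw [Nat.card_eq_fintype_card, ← Finset.card_univ, hu, Finset.card_insert_of_notMem,
    Finset.card_insert_of_notMem, Finset.card_pair (by simp)]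
  · simp only [Finset.mem_insert, Finset.mem_singleton, not_or]
    exact ⟨e1.symm, fun h => e0 (by linear_combination -h)⟩
  · simp only [Finset.mem_insert, Finset.mem_singleton, not_or]
    exact ⟨zero_ne_one, e0.symm, fun h => e1 (by linear_combination -h - h2)⟩

theorem Nat2.normal (H : Nat2 F L) (p : ℕ) [hp : Fact p.Prime] [CharP F p]
    (hS : ∀ S : Sylow p (normalizer (L : Set Γ)), ∀ P : Sylow p Γ, Nat.card S = Nat.card P)
    (h4 : Nat.card F ≠ 4) : L.Normal := by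
  classical
  have hA : ∀ a ∈ AA Γ (Uc F (1 : Γ)), ∃ c : F, ∀ w : F × F, a • w = (w.1 + c * w.2, w.2) := by
    obtain ⟨n, hn, h⟩ := H.conj_into p hS (isP_AA H p (Uc F (1 : Γ))) fun a ha w hw => by
      rw [ha.1 w (mem_U1.2 hw), hw]
    intro a ha
    refine H.AA_form ha ?_
    have h1 := AA_conj (h := n) ha
    rw [mul_one, Uc_of_St hn] at h1
    simpa [mul_assoc] using h _ h1
  have hAL : AA Γ (Uc F (1 : Γ)) ≤ L := fun a ha => by
    obtain ⟨c, hc⟩ := hA a ha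
    obtain ⟨u, hu, hu'⟩ := H.ex 1 c 0 1 (by ring)
    have : u⁻¹ * a = 1 := H.faith _ fun w => by
      rw [mul_smul, inv_smul_eq_iff, hc, hu']; simp
    rwa [← inv_mul_eq_one.1 this]
  have hfix : ∀ g : Γ, ∀ b ∈ AA Γ (Uc F g), ∀ w : F × F, b • w = w → w ∈ Uc F g ∨ b = 1 := by
    intro g b hb w hw
    have h1 := AA_conj (h := g⁻¹) hb
    rw [inv_mul_cancel, inv_inv] at h1
    obtain ⟨c, hc⟩ := hA _ h1
    have h2 := hc (g⁻¹ • w)
    rw [mul_smul, mul_smul, smul_inv_smul, hw] at h2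
    have h3 : c * (g⁻¹ • w).2 = 0 := by simpa using congrArg Prod.fst h2
    rcases mul_eq_zero.1 h3 with h | h
    · right
      have : g⁻¹ * b * g = 1 := H.faith _ fun w => by rw [hc, h]; simp
      simpa [mul_assoc, inv_mul_eq_one] using congrArg (fun x => g * x * g⁻¹) this
    · exact Or.inl h
  have hex : ∀ g : Γ, ∀ y ∉ Uc F g, ∀ x ∈ Uc F g, ∃ t ∈ AA Γ (Uc F g), t • y = y + x := by
    intro g y hy x hx
    rw [mem_Uc] at hy hx
    obtain ⟨u, hu, hu'⟩ := H.ex 1 ((g⁻¹ • x).1 / (g⁻¹ • y).2) 0 1 (by ring)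
    have h1 : u ∈ AA Γ (Uc F (1 : Γ)) := ⟨fun z hz => by
      rw [hu', mem_U1.1 hz]; ext <;> simp [mem_U1.1 hz], fun w => by rw [mem_U1, hu']; simp⟩
    have h2 := AA_conj (h := g) h1
    rw [mul_one] at h2
    refine ⟨_, h2, ?_⟩
    rw [mul_smul, mul_smul, ← eq_inv_smul_iff, smul_add, hu']
    ext
    · simp [hy]
    · simp [hx]
  have main : ∀ g : Γ, (∃ w ∈ Uc F g ⊓ Uc F (1 : Γ), w ≠ 0) → Uc F (1 : Γ) ≤ Uc F g := by
    by_contra hc
    push Not at hc
    obtain ⟨g, ⟨⟨x, hx, hx0⟩, hg⟩, hmax⟩ := Set.exists_max_image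
      {g : Γ | (∃ w ∈ Uc F g ⊓ Uc F (1 : Γ), w ≠ 0) ∧ ¬ Uc F (1 : Γ) ≤ Uc F g}
      (fun g => Nat.card ↥(Uc F g ⊓ Uc F (1 : Γ))) (Set.toFinite _) hc
    obtain ⟨y, hy1, hy⟩ := SetLike.not_le_iff_exists.1 hg
    have h1 : ∀ z ∈ Uc F g ⊓ Uc F (1 : Γ), ∃ t ∈ AA Γ (Uc F g) ⊓ St F Γ, t • y = y + z := by
      intro z hz
      obtain ⟨t, ht, ht'⟩ := hex g y hy z hz.1
      refine ⟨t, ⟨ht, ?_⟩, ht'⟩
      have hle : Uc F g ⊓ Uc F (1 : Γ) ≤ Uc F t ⊓ Uc F (1 : Γ) := fun v hv => ⟨mem_Uc.2 (by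
        have := (inv_mem ht).1 v hv.1
        rw [this]; exact mem_U1.1 hv.2), hv.2⟩
      have h2 : Uc F (1 : Γ) ≤ Uc F t := by
        by_contra h
        have h3 := AddSubgroup.eq_of_le_of_card_ge hle (hmax t ⟨⟨x, hle hx, hx0⟩, h⟩)
        have h5 : y + z ∈ Uc F t ⊓ Uc F (1 : Γ) := ⟨mem_Uc.2 (by
          rw [← ht', inv_smul_smul]; exact mem_U1.1 hy1), add_mem hy1 hz.2⟩
        rw [← h3] at h5
        exact hy (by simpa using (Uc F g).sub_mem h5.1 hz.1)
      exact (St F Γ).inv_mem_iff.1 fun w hw => h2 (mem_U1.2 hw)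
    obtain ⟨n, hn, h⟩ := H.conj_into p hS ((isP_AA H p (Uc F g)).to_le inf_le_left)
      (inf_le_right : AA Γ (Uc F g) ⊓ St F Γ ≤ _)
    have hx' := inv_mem hn x (mem_U1.1 hx.2)
    have hy' := inv_mem hn y (mem_U1.1 hy1)
    have ex : n⁻¹ • x = ((n⁻¹ • x).1, 0) := Prod.ext rfl hx'
    have ey : n⁻¹ • y = ((n⁻¹ • y).1, 0) := Prod.ext rfl hy'
    refine h4 (alg (Y := Uc F (n⁻¹ * g)) H (ξ := (n⁻¹ • x).1) (η := (n⁻¹ • y).1) (fun e => ?_)
      ?_ ?_ (hfix _) fun ζ hζ => ?_)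
    · rw [e] at ex
      exact hx0 (by simpa using (smul_eq_zero_iff_eq n⁻¹).1 ex)
    · rw [← ex, mem_Uc_mul, inv_inv, smul_inv_smul]; exact hx.1
    · rw [← ey, mem_Uc_mul, inv_inv, smul_inv_smul]; exact hy
    · rw [mem_Uc_mul, inv_inv] at hζ
      obtain ⟨t, ht, ht'⟩ := h1 _ ⟨hζ, mem_U1.2 (hn _ rfl)⟩
      have h2 := AA_conj (h := n⁻¹) ht.1
      rw [inv_inv] at h2
      refine ⟨_, h2, h t ht, ?_⟩
      rw [← ey, mul_smul, mul_smul, smul_inv_smul, ht', smul_add, inv_smul_smul, ey]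
      simp
  have hcore : AA Γ (Uc F (1 : Γ)) ≤ L.normalCore := fun a ha g => by
    obtain ⟨l, hl, hl'⟩ : ∃ l ∈ L, l • ((1, 0) : F × F) = g • ((1, 0) : F × F) := by
      set v := g • ((1, 0) : F × F)
      have hv : v ≠ 0 := by rw [Ne, smul_eq_zero_iff_eq]; simp
      by_cases h : v.1 = 0
      · have h' : v.2 ≠ 0 := fun e => hv (Prod.ext h e)
        obtain ⟨l, hl, hl'⟩ := H.ex 0 (-v.2⁻¹) v.2 0 (by field_simp; ring)
        exact ⟨l, hl, by rw [hl']; ext <;> simp [h]⟩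
      · obtain ⟨l, hl, hl'⟩ := H.ex v.1 0 v.2 v.1⁻¹ (by field_simp; ring)
        exact ⟨l, hl, by rw [hl']; ext <;> simp⟩
    have h1 : g⁻¹ * l ∈ St F Γ := by
      rw [← inv_mem_iff]
      refine fun w hw => main (g⁻¹ * l) ⟨(1, 0), ⟨mem_Uc.2 ?_, mem_U1.2 rfl⟩, by simp⟩ (mem_U1.2 hw)
      rw [mul_inv_rev, inv_inv, mul_smul, ← hl', inv_smul_smul]
    have h2 := AA_conj (h := (g⁻¹ * l)⁻¹) ha
    rw [mul_one, Uc_of_St (inv_mem h1)] at h2
    have h3 := mul_mem (mul_mem hl (hAL h2)) (inv_mem hl)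
    simpa [mul_assoc] using h3
  have hup : ∀ c : F, ∃ u ∈ L.normalCore, ∀ w : F × F, u • w = (w.1 + c * w.2, w.2) := fun c => by
    obtain ⟨u, hu, hu'⟩ := H.ex 1 c 0 1 (by ring)
    refine ⟨u, hcore ⟨fun z hz => ?_, fun w => ?_⟩, fun w => by rw [hu']; simp⟩
    · rw [hu', mem_U1.1 hz]; ext <;> simp [mem_U1.1 hz]
    · rw [mem_U1, hu']; simp
  have hlo : ∀ c : F, ∃ u ∈ L.normalCore, ∀ w : F × F, u • w = (w.1, c * w.1 + w.2) := fun c => by
    obtain ⟨u, hu, hu'⟩ := hup (-c)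
    obtain ⟨r, -, hr'⟩ := H.ex 0 (-1) 1 0 (by ring)
    refine ⟨r * u * r⁻¹, (normalCore_normal L).conj_mem u hu r, fun w => ?_⟩
    have : r⁻¹ • w = (w.2, -w.1) := by rw [inv_smul_eq_iff, hr']; simp
    rw [mul_smul, mul_smul, this, hu', hr']
    ext <;> simp; ring
  have hgen : ∀ l : Γ, ∀ a b c d : F, a * d - b * c = 1 → c ≠ 0 →
      (∀ w : F × F, l • w = (a * w.1 + b * w.2, c * w.1 + d * w.2)) → l ∈ L.normalCore := by
    intro l a b c d hd hc hl
    obtain ⟨u1, h1, h1'⟩ := hup ((a - 1) / c)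
    obtain ⟨u2, h2, h2'⟩ := hlo c
    obtain ⟨u3, h3, h3'⟩ := hup ((d - 1) / c)
    have : l⁻¹ * (u1 * u2 * u3) = 1 := H.faith _ fun w => by
      rw [mul_smul, inv_smul_eq_iff, mul_smul, mul_smul, h3', h2', h1', hl]
      ext
      · simp only; field_simp; linear_combination w.2 * hd
      · simp only; field_simp; ring
    rw [inv_mul_eq_one.1 this]
    exact mul_mem (mul_mem h1 h2) h3
  have : L ≤ L.normalCore := fun l hl => by
    obtain ⟨a, b, c, d, hd, h⟩ := H.lin l hl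
    by_cases hc : c = 0
    · obtain ⟨u, hu, hu'⟩ := hlo 1
      refine (mul_mem_cancel_left hu).1 (hgen _ a b (a + c) (b + d) (by linear_combination hd)
        (fun e => ?_) fun w => ?_)
      · rw [hc, add_zero] at e
        rw [e, hc] at hd
        simp at hd
      · rw [mul_smul, h, hu']; ext <;> simp; ring
    · exact hgen l a b c d hd hc h
  rw [le_antisymm this (normalCore_le L)]
  infer_instance

end Lead.NS
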