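import Mathlib

/-! Overgroups of a five-point `A₅` in `A₈`. -/

set_option autoImplicit false
set_option maxHeartbeats 400000

namespace Lead.NS

open Subgroup Equiv Equiv.Perm Finset

variable {α : Type*} [Fintype α] [DecidableEq α]

/-- Even permutations supported in `M`. -/
def Alt (M : Finset α) : Subgroup (Perm α) :=
  (alternatingGroup M).map (Perm.ofSubtype : Perm M →* Perm α)

theorem mem_Alt {M : Finset α} {σ : Perm α} : σ ∈ Alt M ↔ σ.support ⊆ M ∧ sign σ = 1 := by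
  rw [Alt, alternatingGroup.map_ofSubtype, Subgroup.mem_inf, Perm.mem_range_ofSubtype_iff,
    mem_alternatingGroup]
  simp

/-- The isomorphism with the alternating group of the subtype. -/
noncomputable def altEquiv (M : Finset α) : alternatingGroup M ≃* Alt M :=
  (alternatingGroup M).equivMapOfInjective _ Perm.ofSubtype_injective

theorem card_Alt {M : Finset α} (h : #M = 5) : Nat.card (Alt M) = 60 := by
  have : Nontrivial M := Fintype.one_lt_card_iff_nontrivial.1 (by simp [h])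
  rw [← Nat.card_congr (altEquiv M).toEquiv, nat_card_alternatingGroup]
  simp [h]; rfl

theorem Alt_conj {M : Finset α} {K : Subgroup (Perm α)} (h : Alt M ≤ K) {g : Perm α} (hg : g ∈ K) :
    Alt (M.map g.toEmbedding) ≤ K := fun σ hσ => by
  obtain ⟨h1, h2⟩ := mem_Alt.1 hσ
  have : g⁻¹ * σ * g⁻¹⁻¹ ∈ Alt M := mem_Alt.2 ⟨by
    rw [support_conj]
    intro x hx
    obtain ⟨y, hy, rfl⟩ := Finset.mem_map.1 hx
    obtain ⟨z, hz, rfl⟩ := Finset.mem_map.1 (h1 hy)
    simpa using hz, by simp [h2]⟩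
  simpa [mul_assoc] using mul_mem (mul_mem hg (h this)) (inv_mem hg)

theorem swap_mem_Alt {M : Finset α} {a b c d : α} (ha : a ∈ M) (hb : b ∈ M) (hc : c ∈ M)
    (hd : d ∈ M) (hab : a ≠ b) (hcd : c ≠ d) : swap a b * swap c d ∈ Alt M :=
  mem_Alt.2 ⟨(support_mul_le _ _).trans (by
    rw [support_swap hab, support_swap hcd]
    intro x hx
    simp only [sup_eq_union, Finset.mem_union, Finset.mem_insert, Finset.mem_singleton] at hx
    rcases hx with (rfl | rfl) | rfl | rfl <;> assumption), by simp [hab, hcd]⟩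

theorem Alt_le {M : Finset α} {K : Subgroup (Perm α)} {s : Perm α}
    (h : ∀ a ∈ M, ∀ b ∈ M, a ≠ b → s * swap a b ∈ K) : Alt M ≤ K := by
  rintro _ ⟨σ, hσ, rfl⟩
  obtain ⟨l, rfl, hl⟩ := (truncSwapFactors σ).out
  have h1 := (prod_list_swap_mem_alternatingGroup_iff_even_length hl).1 hσ
  clear hσ
  induction l using List.twoStepInduction with
  | nil => simp
  | singleton x => simp at h1
  | cons_cons x y l ih _ =>
    obtain ⟨a, b, hab, rfl⟩ := hl x (by simp)
    obtain ⟨c, d, hcd, rfl⟩ := hl y (by simp)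
    rw [List.prod_cons, List.prod_cons, ← mul_assoc, map_mul]
    refine mul_mem ?_ (ih (fun g hg => hl g (by simp [hg])) (by
      simp only [List.length_cons] at h1
      rwa [add_assoc, Nat.even_add, iff_true_intro (by decide : Even (1 + 1)), iff_true] at h1))
    rw [map_mul, ofSubtype_swap_eq, ofSubtype_swap_eq]
    have := mul_mem (inv_mem (h a a.2 b b.2 fun e => hab (Subtype.ext e)))
      (h c c.2 d d.2 fun e => hcd (Subtype.ext e))
    simpa [mul_assoc] using this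

theorem Alt_union {A B : Finset α} {K : Subgroup (Perm α)} (hA : Alt A ≤ K) (hB : Alt B ≤ K)
    (h : 1 < #(A ∩ B)) : Alt (A ∪ B) ≤ K := by
  obtain ⟨u, hu, v, hv, huv⟩ := one_lt_card.1 h
  rw [Finset.mem_inter] at hu hv
  have key : ∀ {A B : Finset α}, Alt A ≤ K → Alt B ≤ K → u ∈ A → v ∈ A → u ∈ B → v ∈ B →
      ∀ a ∈ A, ∀ b ∈ B, a ≠ b → swap u v * swap a b ∈ K := by
    intro A B hA hB uA vA uB vB a ha b hb hab
    by_cases h1 : a = u
    · exact hB (swap_mem_Alt uB vB (h1 ▸ uB) hb huv hab)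
    by_cases h2 : b = u
    · exact hA (swap_mem_Alt uA vA ha (h2 ▸ uA) huv hab)
    have e : swap a b = swap u a * swap u b * swap u a := by
      have := swap_apply_apply (swap u a) u b
      rwa [swap_inv, swap_apply_left, swap_apply_of_ne_of_ne h2 hab.symm] at this
    have := mul_mem (mul_mem (hA (swap_mem_Alt uA vA uA ha huv (Ne.symm h1)))
      (hB (swap_mem_Alt uB hb uB vB (Ne.symm h2) huv)))
      (hA (swap_mem_Alt uA vA uA ha huv (Ne.symm h1)))
    rw [e]
    simpa [mul_assoc] using this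
  refine Alt_le (s := swap u v) fun a ha b hb hab => ?_
  rcases Finset.mem_union.1 ha with ha | ha <;> rcases Finset.mem_union.1 hb with hb | hb
  · exact key hA hA hu.1 hv.1 hu.1 hv.1 a ha b hb hab
  · exact key hA hB hu.1 hv.1 hu.2 hv.2 a ha b hb hab
  · exact key hB hA hu.2 hv.2 hu.1 hv.1 a ha b hb hab
  · exact key hB hB hu.2 hv.2 hu.2 hv.2 a ha b hb hab

theorem inter_big (h8 : Fintype.card α = 8) {A B : Finset α} (hA : 5 ≤ #A) (hB : 5 ≤ #B) :
    1 < #(A ∩ B) := by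
  have h1 := card_union_add_card_inter A B
  have h2 := card_le_univ (A ∪ B)
  omega

theorem exists_fpf {M : Finset α} (h : #M = 6 ∨ #M = 8) :
    ∃ σ ∈ Alt M, σ ^ 2 ^ 2 = 1 ∧ ∀ x ∈ M, σ x ≠ x := by
  obtain ⟨τ, h1, h2, h3⟩ : ∃ τ : Perm M, sign τ = 1 ∧ τ ^ 2 ^ 2 = 1 ∧ τ.support = univ := by
    rcases h with h | h
    · obtain ⟨τ, hτ⟩ := (exists_with_cycleType_iff M (m := {4, 2})).2 (by simp [h])
      refine ⟨τ, by rw [sign_of_cycleType, hτ]; decide, ?_, ?_⟩
      · rw [← orderOf_dvd_iff_pow_eq_one, ← lcm_cycleType, hτ]; decide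
      · rw [← card_eq_iff_eq_univ, ← sum_cycleType, hτ]; simp [h]
    · obtain ⟨τ, hτ⟩ := (exists_with_cycleType_iff M (m := {4, 4})).2 (by simp [h])
      refine ⟨τ, by rw [sign_of_cycleType, hτ]; decide, ?_, ?_⟩
      · rw [← orderOf_dvd_iff_pow_eq_one, ← lcm_cycleType, hτ]; decide
      · rw [← card_eq_iff_eq_univ, ← sum_cycleType, hτ]; simp [h]
  refine ⟨ofSubtype τ, ⟨τ, h1, rfl⟩, by rw [← map_pow, h2, map_one], fun x hx e => ?_⟩
  rw [ofSubtype_apply_of_mem τ hx] at e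
  exact mem_support.1 (h3 ▸ mem_univ (⟨x, hx⟩ : M)) (Subtype.ext e)

theorem supp_prime (h8 : Fintype.card α = 8) {c : Perm α} (hc : orderOf c = 5) :
    #c.support = 5 := by
  have := isCycle_of_prime_order' (σ := c) (by rw [hc]; norm_num) (by rw [hc, h8]; norm_num)
  rw [← this.orderOf, hc]

theorem fix_of {σ : Perm α} {D : Finset α} (h : ∀ x, σ x ∈ D ↔ x ∈ D) {p n : ℕ} [Fact p.Prime]
    (hp : ¬ p ∣ #D) (hσ : σ ^ p ^ n = 1) : ∃ x ∈ D, σ x = x := by
  obtain ⟨x, hx⟩ := exists_fixed_point_of_prime (α := D) (p := p) (n := n) (by simpa using hp)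
    (σ := σ.subtypePerm h) (by rw [subtypePerm_pow]; ext x; simp [hσ])
  exact ⟨x, x.2, congrArg Subtype.val hx⟩

theorem eq_Alt (h8 : Fintype.card α = 8) {L : Subgroup (Perm α)} (hL : Nat.card L = 60)
    (hs : ∀ l ∈ L, sign l = 1) {ω : Perm α} (hω : orderOf ω = 3) (hc : ∀ l ∈ L, Commute ω l)
    (hg : ∀ K : Subgroup (Perm α), (∀ l ∈ L, l ^ 2 = 1 → l ∈ K) → L ≤ K) :
    ∃ c ∈ L, #c.support = 5 ∧ L = Alt c.support := by
  have : Fact (Nat.Prime 5) := ⟨by norm_num⟩
  obtain ⟨⟨c, hcL⟩, hc5⟩ := exists_prime_orderOf_dvd_card' (G := L) 5 (by rw [hL]; norm_num)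
  rw [← orderOf_coe] at hc5
  have h5 := supp_prime h8 hc5
  have hcy := isCycle_of_prime_order' (σ := c) (by rw [hc5]; norm_num) (by rw [hc5, h8]; norm_num)
  have hω3 : ω ^ 3 ^ 1 = 1 := by rw [pow_one, ← hω, pow_orderOf_eq_one]
  have pres : ∀ {a b : Perm α}, Commute a b → ∀ x, a x ∈ b.support ↔ x ∈ b.support :=
    fun {a b} h x => by
      rw [mem_support, mem_support, ← Perm.mul_apply, ← h.eq, Perm.mul_apply]
      exact a.injective.ne_iff
  have fixall : ∀ {a b : Perm α}, Commute a b → b.IsCycle → ∀ x ∈ b.support, a x = x →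
      ∀ y ∈ b.support, a y = y := fun {a b} h hb x hx hax y hy => by
    obtain ⟨i, rfl⟩ := hb.exists_pow_eq (mem_support.1 hx) (mem_support.1 hy)
    rw [← Perm.mul_apply, (h.pow_right i).eq, Perm.mul_apply, hax]
  have : Fact (Nat.Prime 3) := ⟨by norm_num⟩
  obtain ⟨x, hx, hx'⟩ := fix_of (pres (hc c hcL)) (p := 3) (by rw [h5]; norm_num) hω3
  have h1 : ω.support ⊆ c.supportᶜ := fun y hy => Finset.mem_compl.2 fun h =>
    mem_support.1 hy (fixall (hc c hcL) hcy x hx hx' y h)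
  have h2 : #c.supportᶜ = 3 := by rw [card_compl, h8, h5]
  have h3 : ω.IsCycle := isCycle_of_prime_order (by rw [hω]; norm_num) (by
    have := card_le_card h1
    omega)
  have h4 : ω.support = c.supportᶜ := eq_of_subset_of_card_le h1 (by rw [← h3.orderOf, hω, h2])
  have h6 : L ≤ Alt c.support := hg _ fun l hl hl2 => mem_Alt.2 ⟨fun y hy => by
    by_contra h
    obtain ⟨z, hz, hz'⟩ := fix_of (pres (hc l hl).symm) (p := 2) (n := 1)
      (by rw [h4, h2]; norm_num) hl2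
    exact mem_support.1 hy (fixall (hc l hl).symm h3 z hz hz' y (h4 ▸ Finset.mem_compl.2 h)),
    hs l hl⟩
  exact ⟨c, hcL, h5, eq_of_le_of_card_ge h6 (by rw [hL, card_Alt h5])⟩

theorem overg (h8 : Fintype.card α = 8) {K : Subgroup (Perm α)} (hs : ∀ g ∈ K, sign g = 1)
    {c : Perm α} (h5 : #c.support = 5) (hc : c ∈ Alt c.support) (hK : Alt c.support ≤ K)
    (h2 : ∀ g ∈ K, g ^ 2 ^ 2 = 1 → ∃ n ∈ K, ∀ l ∈ Alt c.support,
      (n⁻¹ * g * n) * l * (n⁻¹ * g * n)⁻¹ ∈ Alt c.support) :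
    (∀ g ∈ K, ∀ l ∈ Alt c.support, g * l * g⁻¹ ∈ Alt c.support) ∨
      Nonempty (K ≃* alternatingGroup (Fin 7)) := by
  classical
  obtain ⟨M, hM, hmax⟩ := exists_max_image
    (univ.filter fun M : Finset α => 5 ≤ #M ∧ Alt M ≤ K) card ⟨c.support, by simp [h5, hK]⟩
  simp only [mem_filter, mem_univ, true_and] at hM hmax
  have h1 : ∀ A : Finset α, 5 ≤ #A → Alt A ≤ K → A ⊆ M := fun A hA hA' => by
    have := hmax (M ∪ A) ⟨hM.1.trans (card_le_card subset_union_left),
      Alt_union hM.2 hA' (inter_big h8 hM.1 hA)⟩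
    exact subset_union_right.trans (eq_of_subset_of_card_le subset_union_left this).ge
  have h3 : ∀ g ∈ K, M.map g.toEmbedding = M := fun g hg =>
    eq_of_subset_of_card_le (h1 _ (by rw [card_map]; exact hM.1) (Alt_conj hM.2 hg))
      (by rw [card_map])
  have h4 := h1 _ h5.ge hK
  have h6 : #M ≤ 8 := h8 ▸ card_le_univ M
  have h7 : ¬ (#M = 6 ∨ #M = 8) := fun h => by
    obtain ⟨σ, hσ, hσ2, hσ3⟩ := exists_fpf h
    obtain ⟨n, hn, hn'⟩ := h2 σ (hM.2 hσ) hσ2
    have e1 := (mem_Alt.1 (hn' c hc)).1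
    rw [support_conj] at e1
    have e2 := eq_of_subset_of_card_le e1 (by rw [card_map])
    obtain ⟨x, hx, hx'⟩ := fix_of (σ := n⁻¹ * σ * n) (D := c.support) (p := 2) (n := 2) (fun x => by
      conv_lhs => rw [← e2]
      exact mem_map' _) (by rw [h5]; norm_num) (by
      rw [show n⁻¹ * σ * n = n⁻¹ * σ * n⁻¹⁻¹ by rw [inv_inv], conj_pow, hσ2]; simp)
    refine hσ3 (n x) ?_ ?_
    · rw [← h3 n hn]; exact (mem_map' _).2 (h4 hx)
    · simpa [Equiv.symm_apply_eq] using hx'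
  by_cases h9 : #M = 5
  · left
    have e : c.support = M := eq_of_subset_of_card_le h4 (by rw [h9, h5])
    intro g hg l hl
    rw [e] at hl ⊢
    obtain ⟨a1, a2⟩ := mem_Alt.1 hl
    refine mem_Alt.2 ⟨?_, by simp [a2]⟩
    rw [support_conj, ← h3 g hg]
    exact map_subset_map.2 a1
  · right
    have h10 : #M = 7 := by omega
    have e : K = Alt M := le_antisymm (fun g hg => mem_Alt.2 ⟨fun x hx => by
      by_contra h
      have e1 : g x ∉ M := fun h' => h ((mem_map' g.toEmbedding).1 (by rwa [h3 g hg]))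
      have e2 : #Mᶜ ≤ 1 := by rw [card_compl, h8, h10]
      exact mem_support.1 hx (card_le_one.1 e2 _ (Finset.mem_compl.2 e1) _
        (Finset.mem_compl.2 h)), hs g hg⟩) hM.2
    exact ⟨(MulEquiv.subgroupCongr e).trans ((altEquiv M).symm.trans
      (Equiv.altCongrHom (Fintype.equivFinOfCardEq (by simp [h10]))))⟩

end Lead.NS
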