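import Cfsg.Agent.Lead.NS1
import Cfsg.Agent.Lead.NS2
import Cfsg.Agent.H12.GL4

/-! Overgroups of `SL₂(q)` on its natural module, part 3. -/

set_option autoImplicit false
set_option maxHeartbeats 400000

namespace Lead.NS

open Subgroup

variable {F : Type*} [Field F] {Γ : Type*} [Group Γ] [DistribMulAction Γ (F × F)] {L : Subgroup Γ}

theorem Nat2.le_of (H : Nat2 F L) (h2 : (2 : F) = 0) (K : Subgroup Γ)
    (hK : ∀ l ∈ L, l ^ 2 = 1 → l ∈ K) : L ≤ K := by
  have hup : ∀ c : F, ∃ u ∈ K, ∀ w : F × F, u • w = (w.1 + c * w.2, w.2) := fun c => by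
    obtain ⟨u, hu, hu'⟩ := H.ex 1 c 0 1 (by ring)
    refine ⟨u, hK u hu (H.faith _ fun w => ?_), fun w => by rw [hu']; simp⟩
    rw [pow_two, mul_smul, hu', hu']
    ext
    · simp only; linear_combination c * w.2 * h2
    · simp
  have hlo : ∀ c : F, ∃ u ∈ K, ∀ w : F × F, u • w = (w.1, c * w.1 + w.2) := fun c => by
    obtain ⟨u, hu, hu'⟩ := H.ex 1 0 c 1 (by ring)
    refine ⟨u, hK u hu (H.faith _ fun w => ?_), fun w => by rw [hu']; simp⟩
    rw [pow_two, mul_smul, hu', hu']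
    ext
    · simp
    · simp only; linear_combination c * w.1 * h2
  have hgen : ∀ l : Γ, ∀ a b c d : F, a * d - b * c = 1 → c ≠ 0 →
      (∀ w : F × F, l • w = (a * w.1 + b * w.2, c * w.1 + d * w.2)) → l ∈ K := by
    intro l a b c d hd hc hl
    obtain ⟨u1, h1, h1'⟩ := hup ((a - 1) / c)
    obtain ⟨u2, h2, h2'⟩ := hlo c
    obtain ⟨u3, h3, h3'⟩ := hup ((d - 1) / c)
    have : l⁻¹ * (u1 * u2 * u3) = 1 := H.faith _ fun w => by
      rw [mul_smul, inv_smul_eq_iff, mul_smul, mul_smul, h3', h2', h1', hl]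
      ext
      · simp only; field_simp; linear_combination w.2 * hd
      · simp only; field_simp; ring
    rw [inv_mul_eq_one.1 this]
    exact mul_mem (mul_mem h1 h2) h3
  intro l hl
  obtain ⟨a, b, c, d, hd, h⟩ := H.lin l hl
  by_cases hc : c = 0
  · obtain ⟨u, hu, hu'⟩ := hlo 1
    refine (mul_mem_cancel_left hu).1 (hgen _ a b (a + c) (b + d) (by linear_combination hd)
      (fun e => ?_) fun w => ?_)
    · rw [hc, add_zero] at e
      rw [e, hc] at hd
      simp at hd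
    · rw [mul_smul, h, hu']; ext <;> simp; ring
  · exact hgen l a b c d hd hc h

variable [Finite Γ] [Fintype F]

theorem Nat2.four (H : Nat2 F L) (p : ℕ) [hp : Fact p.Prime] [CharP F p]
    (hS : ∀ S : Sylow p (normalizer (L : Set Γ)), ∀ P : Sylow p Γ, Nat.card S = Nat.card P)
    (h4 : Fintype.card F = 4) (hL : Nat.card L = 60) :
    L.Normal ∨ Nonempty (Γ ≃* alternatingGroup (Fin 7)) := by
  classical
  obtain rfl : p = 2 := by
    obtain ⟨n, -, hn⟩ := FiniteField.card F p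
    have : p ∣ 2 ^ 2 := by
      rw [show 2 ^ 2 = 4 from rfl, ← h4, hn]; exact dvd_pow_self p n.ne_zero
    exact (Nat.prime_dvd_prime_iff_eq hp.out Nat.prime_two).1 (hp.out.dvd_of_dvd_pow this)
  have h2 : (2 : F) = 0 := by exact_mod_cast CharP.cast_eq_zero F 2
  let _ : Algebra (ZMod 2) F := ZMod.algebra F 2
  obtain ⟨f₀, hf₀⟩ := H12.exists_A8_of_rep (V := F × F)
    (by rw [Nat.card_prod, Nat.card_eq_fintype_card, h4]) (MonoidHom.id _)
  have hf₀' : Function.Injective f₀ := by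
    rw [← MonoidHom.ker_eq_bot_iff, hf₀, MonoidHom.ker_id]
  let e : ((F × F) ≃+ (F × F)) → ((F × F) ≃ₗ[ZMod 2] (F × F)) := fun a =>
    { a with map_smul' := fun c x => ZMod.map_smul a c x }
  let ρ : Γ →* ((F × F) ≃ₗ[ZMod 2] (F × F)) :=
    { toFun := fun g => e (DistribMulAction.toAddEquiv (F × F) g)
      map_one' := LinearEquiv.ext fun w => one_smul Γ w
      map_mul' := fun a b => LinearEquiv.ext fun w => mul_smul a b w }
  let f : Γ →* Equiv.Perm (Fin 8) := (alternatingGroup (Fin 8)).subtype.comp (f₀.comp ρ)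
  have hf : Function.Injective f := (subtype_injective _).comp (hf₀'.comp
    ((injective_iff_map_eq_one ρ).2 fun g hg => H.faith g fun w => LinearEquiv.congr_fun hg w))
  have : Fact (Nat.Prime 3) := ⟨by norm_num⟩
  obtain ⟨z, hz⟩ := exists_prime_orderOf_dvd_card' (G := Fˣ) 3 (by
    rw [Nat.card_units, Nat.card_eq_fintype_card, h4])
  let ζ : Fˣ →* ((F × F) ≃ₗ[ZMod 2] (F × F)) :=
    { toFun := fun g => e (DistribMulAction.toAddEquiv (F × F) g)
      map_one' := LinearEquiv.ext fun w => one_smul Fˣ w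
      map_mul' := fun a b => LinearEquiv.ext fun w => mul_smul a b w }
  have hζ : Function.Injective ζ := (injective_iff_map_eq_one ζ).2 fun g hg => by
    have : (g : F) • ((1, 0) : F × F) = (1, 0) := LinearEquiv.congr_fun hg (1, 0)
    simpa using this
  obtain ⟨c, hc, h5, hA⟩ := eq_Alt (L := L.map f) (Fintype.card_fin 8)
    (by rw [card_map_of_injective hf, hL]) (by rintro _ ⟨l, -, rfl⟩; exact (f₀ (ρ l)).2)
    (ω := (f₀ (ζ z) : Equiv.Perm (Fin 8)))
    (by rw [orderOf_coe, orderOf_injective f₀ hf₀', orderOf_injective ζ hζ, hz])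
    (by
      rintro _ ⟨l, hl, rfl⟩
      refine ((show Commute (ζ z) (ρ l) from LinearEquiv.ext fun w => ?_).map f₀).map
        (alternatingGroup (Fin 8)).subtype
      exact (H.smul_comm hl (z : F) w).symm)
    fun K hK => map_le_iff_le_comap.2 (H.le_of h2 _ fun l hl h =>
      hK _ (mem_map_of_mem f hl) (by rw [← map_pow, h, map_one]))
  obtain ⟨S'⟩ : Nonempty (Sylow 2 (normalizer (L : Set Γ))) := inferInstance
  obtain ⟨P⟩ : Nonempty (Sylow 2 Γ) := inferInstance
  let S : Sylow 2 Γ := Sylow.ofCard ((S' : Subgroup _).map (normalizer (L : Set Γ)).subtype) (by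
    rw [card_map_of_injective (subtype_injective _), hS S' P, P.card_eq_multiplicity])
  have hSN : (S : Subgroup Γ) ≤ normalizer (L : Set Γ) := map_subtype_le _
  rcases overg (K := f.range) (Fintype.card_fin 8) (by rintro _ ⟨l, rfl⟩; exact (f₀ (ρ l)).2) h5
    (hA ▸ hc) (hA ▸ map_le_range f L) (by
      rintro _ ⟨g, rfl⟩ hg
      rw [← map_pow, ← map_one f, hf.eq_iff] at hg
      have h1 : IsPGroup 2 (zpowers g) := IsPGroup.of_card_dvd_pow (n := 2) (by
        rw [Nat.card_zpowers]; exact orderOf_dvd_of_pow_eq_one hg)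
      obtain ⟨Q, hQ⟩ := h1.exists_le_sylow
      obtain ⟨n, hn⟩ := MulAction.exists_smul_eq Γ S Q
      have h3 : g ∈ (Q : Subgroup Γ) := hQ (mem_zpowers g)
      rw [← hn, Sylow.coe_subgroup_smul, mem_pointwise_smul_iff_inv_smul_mem] at h3
      have h6 : n⁻¹ * g * n ∈ normalizer (L : Set Γ) := hSN (by simpa using h3)
      refine ⟨f n, ⟨n, rfl⟩, ?_⟩
      rw [← hA]
      rintro _ ⟨l, hl, rfl⟩
      exact ⟨_, (mem_normalizer_iff.1 h6 l).1 hl, by simp⟩) with h | ⟨⟨e⟩⟩
  · refine Or.inl ⟨fun l hl g => ?_⟩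
    rw [← hA] at h
    obtain ⟨m, hm, e⟩ := h _ ⟨g, rfl⟩ _ (mem_map_of_mem f hl)
    rw [← map_inv, ← map_mul, ← map_mul, hf.eq_iff] at e
    exact e ▸ hm
  · exact Or.inr ⟨(MonoidHom.ofInjective hf).trans e⟩

end Lead.NS
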