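import Cfsg.Agent.H23.Mat

/-! Amalgam for `Sp(2n, F)`, part 1: linear algebra. -/

set_option autoImplicit false
set_option linter.unusedSectionVars false
set_option maxHeartbeats 400000

namespace Lead.SpA
open Sum

/-- the space -/
abbrev VV (n : ℕ) (F : Type*) := Fin n ⊕ Fin n → F

variable {n : ℕ} {F : Type*} [Field F]

/-- the form -/
noncomputable def om : VV n F →ₗ[F] VV n F →ₗ[F] F := Matrix.toBilin' (Matrix.J (Fin n) F)

theorem om_B (u v : VV n F) : (H23.spForm n F).B u v = om u v := rfl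

theorem om_eq (u v : VV n F) : om u v = ∑ i, (u (inr i) * v (inl i) - u (inl i) * v (inr i)) := by
  rw [← om_B, H23.spForm_B, H23.sympForm_eq]

@[simp] theorem om_self (u : VV n F) : om u u = 0 := by
  rw [← om_B, H23.spForm_B, H23.sympForm_self]

theorem om_comm (u v : VV n F) : om u v = -om v u := by
  rw [← om_B, ← om_B, H23.spForm_B, H23.spForm_B, H23.sympForm_comm]

theorem om_ne {u v : VV n F} (h : om u v ≠ 0) : om v u ≠ 0 := by
  rw [om_comm]; exact neg_ne_zero.2 h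

theorem om_zero {u v : VV n F} (h : om u v = 0) : om v u = 0 := by rw [om_comm, h, neg_zero]

/-- basis vectors -/
def bb (i : Fin n ⊕ Fin n) : VV n F := Pi.single i 1

theorem om_inl (u : VV n F) (k : Fin n) : om u (bb (inl k)) = u (inr k) := by
  rw [om_eq, Finset.sum_eq_single k] <;> simp +contextual [bb, Pi.single_apply]

theorem om_inr (u : VV n F) (k : Fin n) : om u (bb (inr k)) = -u (inl k) := by
  rw [om_eq, Finset.sum_eq_single k] <;> simp +contextual [bb, Pi.single_apply]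

theorem om_fe (k : Fin n) : om (bb (inr k) : VV n F) (bb (inl k)) = 1 := by
  rw [om_inl]; simp [bb]

theorem bb_ne (i : Fin n ⊕ Fin n) : (bb i : VV n F) ≠ 0 := fun e => by
  simpa [bb] using congrFun e i

/-- index of a basis vector -/
def ix : Fin n ⊕ Fin n → Fin n := Sum.elim id id

@[simp] theorem ix_l (k : Fin n) : ix (inl k) = k := rfl
@[simp] theorem ix_r (k : Fin n) : ix (inr k) = k := rfl

variable (F) in
/-- vectors supported on `J` -/
def HJ (J : Set (Fin n)) : Submodule F (VV n F) where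
  carrier := {v | ∀ i, ix i ∉ J → v i = 0}
  add_mem' ha hb i hi := by simp [ha i hi, hb i hi]
  zero_mem' _ _ := rfl
  smul_mem' c _ ha i hi := by simp [ha i hi]

theorem bb_mem {J : Set (Fin n)} {i : Fin n ⊕ Fin n} (h : ix i ∈ J) : bb i ∈ HJ F J :=
  fun j hj => Pi.single_eq_of_ne (fun e : j = i => hj (e ▸ h)) _

theorem HJ_mono {J J' : Set (Fin n)} (h : J ⊆ J') : HJ F J ≤ HJ F J' :=
  fun _ hv i hi => hv i fun m => hi (h m)

theorem om_HJ {J J' : Set (Fin n)} (h : Disjoint J J') {u v : VV n F} (hu : u ∈ HJ F J)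
    (hv : v ∈ HJ F J') : om u v = 0 := by
  rw [om_eq]
  refine Finset.sum_eq_zero fun k _ => ?_
  by_cases hk : k ∈ J
  · have := Set.disjoint_left.1 h hk
    rw [hv (inl k) this, hv (inr k) this]; simp
  · rw [hu (inl k) hk, hu (inr k) hk]; simp

theorem mem_of_perp {J : Set (Fin n)} {u : VV n F} (h : ∀ v ∈ HJ F Jᶜ, om u v = 0) :
    u ∈ HJ F J := by
  rintro (k | k) hk
  · simpa [om_inr] using h (bb (inr k)) (bb_mem hk)
  · simpa [om_inl] using h (bb (inl k)) (bb_mem hk)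

theorem exists_ne {J : Set (Fin n)} {u : VV n F} (hu : u ∈ HJ F J) (h0 : u ≠ 0) :
    ∃ y ∈ HJ F J, om y u ≠ 0 := by
  obtain ⟨i, hi⟩ := Function.ne_iff.1 h0
  have m : ix i ∈ J := by_contra fun m => hi (hu i m)
  rcases i with k | k
  · exact ⟨bb (inr k), bb_mem m, om_ne (by simpa [om_inr] using hi)⟩
  · exact ⟨bb (inl k), bb_mem m, om_ne (by simpa [om_inl] using hi)⟩

theorem avoid2 (hF : ∃ a : F, a ≠ 0 ∧ a ≠ 1) (s t : F) : ∃ l : F, l ≠ s ∧ l ≠ t := by
  obtain ⟨a, h0, h1⟩ := hF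
  by_contra c
  push Not at c
  by_cases e0 : (0 : F) = s
  · exact h1 ((c a (e0 ▸ h0)).trans (c 1 (e0 ▸ one_ne_zero)).symm)
  · by_cases e1 : (1 : F) = s
    · exact h0 ((c a (e1 ▸ h1)).trans (c 0 e0).symm)
    · exact zero_ne_one ((c 0 e0).trans (c 1 e1).symm)

theorem lin_ne {a b l : F} (hb : b ≠ 0) (h : l ≠ -a / b) : a + l * b ≠ 0 := fun e =>
  h (by field_simp; linear_combination e)

theorem three (hF : ∃ a : F, a ≠ 0 ∧ a ≠ 1) {J : Set (Fin n)} {u v w : VV n F} (hu : u ∈ HJ F J)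
    (hv : v ∈ HJ F J) (hw : w ∈ HJ F J) (u0 : u ≠ 0) (v0 : v ≠ 0) (w0 : w ≠ 0) :
    ∃ y ∈ HJ F J, om y u ≠ 0 ∧ om y v ≠ 0 ∧ om y w ≠ 0 := by
  have step : ∀ y ∈ HJ F J, ∀ a b c : VV n F, om y a ≠ 0 → om y b ≠ 0 → c ∈ HJ F J → c ≠ 0 →
      ∃ y ∈ HJ F J, om y a ≠ 0 ∧ om y b ≠ 0 ∧ om y c ≠ 0 := by
    intro y hy a b c ha hb hc c0
    by_cases e : om y c = 0
    · obtain ⟨z, hz, h⟩ := exists_ne hc c0
      obtain ⟨l, l1, l2⟩ := avoid2 hF (-om z a / om y a) (-om z b / om y b)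
      refine ⟨z + l • y, add_mem hz (Submodule.smul_mem _ _ hy), ?_, ?_, ?_⟩
      · simpa using lin_ne ha l1
      · simpa using lin_ne hb l2
      · simpa [e] using h
    · exact ⟨y, hy, ha, hb, e⟩
  obtain ⟨y, hy, h⟩ := exists_ne hu u0
  obtain ⟨y', hy', h1, -, h2⟩ := step y hy u u v h h hv v0
  exact step y' hy' u v w h1 h2 hw w0

theorem four (hF : ∃ a : F, a ≠ 0 ∧ a ≠ 1) {J : Set (Fin n)} {u v w x : VV n F} (hu : u ∈ HJ F J)
    (hw : w ∈ HJ F J) (hx : x ∈ HJ F J) (w0 : w ≠ 0) (x0 : x ≠ 0) (h1 : om u v ≠ 0)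
    (h2 : om u w = 0) : ∃ y ∈ HJ F J, om y u ≠ 0 ∧ om y v ≠ 0 ∧ om y w ≠ 0 ∧ om y x ≠ 0 := by
  obtain ⟨y, hy, a, b, c⟩ := three hF hu hw hx (fun e => h1 (by simp [e])) w0 x0
  obtain ⟨l, l1, l2⟩ := avoid2 hF (-om y v / om u v) (-om y x / om u x)
  refine ⟨y + l • u, add_mem hy (Submodule.smul_mem _ _ hu), by simpa using a,
    by simpa using lin_ne h1 l1, by simpa [h2] using b, ?_⟩
  by_cases e : om u x = 0
  · simpa [e] using c
  · simpa using lin_ne e l2

/-- isometries -/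
def Iso (g : VV n F ≃ₗ[F] VV n F) : Prop := ∀ x y, om (g x) (g y) = om x y

theorem Iso.mul {g h : VV n F ≃ₗ[F] VV n F} (hg : Iso g) (hh : Iso h) : Iso (g * h) :=
  fun x y => (hg _ _).trans (hh x y)

theorem Iso.inv {g : VV n F ≃ₗ[F] VV n F} (hg : Iso g) : Iso g⁻¹ := fun x y => by
  rw [← hg]; simp

theorem Iso.om_inv {g : VV n F ≃ₗ[F] VV n F} (hg : Iso g) (x y : VV n F) :
    om (g⁻¹ x) y = om x (g y) := by rw [← hg]; simp

/-- fixes everything outside `J` -/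
def Fx (J : Set (Fin n)) (g : VV n F ≃ₗ[F] VV n F) : Prop := ∀ v ∈ HJ F Jᶜ, g v = v

theorem inv_fix {g : VV n F ≃ₗ[F] VV n F} {v : VV n F} (h : g v = v) : g⁻¹ v = v := by
  nth_rewrite 1 [← h]; simp

theorem inv_app {g : VV n F ≃ₗ[F] VV n F} {v w : VV n F} (h : g v = w) : g⁻¹ w = v := by
  rw [← h]; simp

theorem Fx.mul {J : Set (Fin n)} {g h : VV n F ≃ₗ[F] VV n F} (hg : Fx J g) (hh : Fx J h) :
    Fx J (g * h) := fun v hv => by rw [LinearEquiv.mul_apply, hh v hv, hg v hv]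

theorem Fx.inv {J : Set (Fin n)} {g : VV n F ≃ₗ[F] VV n F} (hg : Fx J g) : Fx J g⁻¹ :=
  fun v hv => inv_fix (hg v hv)

theorem Fx.mono {J J' : Set (Fin n)} (h : J ⊆ J') {g : VV n F ≃ₗ[F] VV n F} (hg : Fx J g) :
    Fx J' g := fun v hv => hg v (HJ_mono (Set.compl_subset_compl.2 h) hv)

theorem Fx.map {J : Set (Fin n)} {g : VV n F ≃ₗ[F] VV n F} (hg : Fx J g) (hi : Iso g)
    {u : VV n F} (hu : u ∈ HJ F J) : g u ∈ HJ F J :=
  mem_of_perp fun v hv => by rw [← hg v hv, hi, om_HJ disjoint_compl_right hu hv]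

theorem fix_of_bb {g : VV n F ≃ₗ[F] VV n F} {v : VV n F} (h : ∀ i, v i ≠ 0 → g (bb i) = bb i) :
    g v = v := by
  have e : v = ∑ i, v i • bb i := by
    ext j; simp [bb, Finset.sum_apply, Pi.single_apply]
  rw [e, map_sum]
  refine Finset.sum_congr rfl fun i _ => ?_
  by_cases c : v i = 0
  · simp [c]
  · rw [map_smul, h i c]

theorem Fx_iff {J : Set (Fin n)} {g : VV n F ≃ₗ[F] VV n F} :
    Fx J g ↔ ∀ i, ix i ∉ J → g (bb i) = bb i :=
  ⟨fun h _ hi => h _ (bb_mem hi), fun h _ hv => fix_of_bb fun i hi =>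
    h i fun m => hi (hv i (not_not.2 m))⟩

theorem Fx.erase {J J' : Set (Fin n)} {m : Fin n} (h : ∀ k ∈ J', k ≠ m → k ∈ J)
    {g : VV n F ≃ₗ[F] VV n F} (hg : Fx J' g) (h1 : g (bb (inl m)) = bb (inl m))
    (h2 : g (bb (inr m)) = bb (inr m)) : Fx J g := by
  refine Fx_iff.2 fun i hi => ?_
  by_cases e : ix i = m
  · rcases i with k | k <;> obtain rfl : k = m := e <;> assumption
  · exact Fx_iff.1 hg i fun c => hi (h _ c e)

theorem ext_bb {g h : VV n F ≃ₗ[F] VV n F} (e : ∀ i, g (bb i) = h (bb i)) : g = h := by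
  have : h⁻¹ * g = 1 := LinearEquiv.ext fun v => fix_of_bb fun i _ => by
    rw [LinearEquiv.mul_apply, e]; simp
  exact (inv_mul_eq_one.1 this).symm

theorem Fx.comm {J J' : Set (Fin n)} (h : Disjoint J J') {g g' : VV n F ≃ₗ[F] VV n F}
    (hg : Fx J g) (hg' : Fx J' g') (hi : Iso g) (hi' : Iso g') : Commute g g' := by
  refine ext_bb fun i => ?_
  rw [LinearEquiv.mul_apply, LinearEquiv.mul_apply]
  have s := HJ_mono (F := F) h.subset_compl_right
  have s' := HJ_mono (F := F) h.subset_compl_left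
  by_cases c : ix i ∈ J
  · rw [hg' _ (s (bb_mem c)), hg' _ (s (hg.map hi (bb_mem c)))]
  · rw [hg _ (bb_mem c)]
    by_cases c' : ix i ∈ J'
    · rw [hg _ (s' (hg'.map hi' (bb_mem c')))]
    · rw [hg' _ (bb_mem c'), hg _ (bb_mem c)]

/-- fixes all `e_k` -/
def FE (g : VV n F ≃ₗ[F] VV n F) : Prop := ∀ k, g (bb (inl k)) = bb (inl k)

theorem FE.comm {g g' : VV n F ≃ₗ[F] VV n F} (hg : FE g) (hg' : FE g') (hi : Iso g)
    (hi' : Iso g') : Commute g g' := by
  have key : ∀ g g' : VV n F ≃ₗ[F] VV n F, FE g → FE g' → Iso g' → ∀ y,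
      g (g' y) = g y + g' y - y := by
    intro g g' hg hg' hi' y
    have : g (g' y - y) = g' y - y := fix_of_bb fun i hi => by
      rcases i with k | k
      · exact hg k
      · refine (hi ?_).elim
        rw [← om_inl (g' y - y) k, map_sub, LinearMap.sub_apply]
        nth_rewrite 1 [← hg' k]
        rw [hi', sub_self]
    rw [map_sub, sub_eq_iff_eq_add] at this
    rw [this]; abel
  refine LinearEquiv.ext fun y => ?_
  rw [LinearEquiv.mul_apply, LinearEquiv.mul_apply, key g g' hg hg' hi', key g' g hg' hg hi]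
  abel

/-- the predicate describing `M_p` -/
def MP (p m : Fin n) (g : VV n F ≃ₗ[F] VV n F) : Prop :=
  Fx {p, m} g ∧ g (bb (inl p)) = bb (inl p) ∧ g (bb (inl m)) = bb (inl m)

theorem MP.fe {p m : Fin n} {g : VV n F ≃ₗ[F] VV n F} (h : MP p m g) : FE g := fun k => by
  by_cases c : k = p
  · exact c ▸ h.2.1
  by_cases c' : k = m
  · exact c' ▸ h.2.2
  · exact Fx_iff.1 h.1 _ (by simp [c, c'])

theorem witt1 {J : Set (Fin n)} {x y : VV n F} (hx : x ∈ HJ F J) (hy : y ∈ HJ F J) (x0 : x ≠ 0)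
    (y0 : y ≠ 0) : ∃ g, Iso g ∧ Fx J g ∧ g x = y := by
  have k : ∀ x ∈ HJ F J, x ≠ 0 → x ∉ HJ F Jᶜ := fun x hx x0 m => by
    obtain ⟨z, hz, h⟩ := exists_ne hx x0
    exact h (om_HJ disjoint_compl_right hz m)
  obtain ⟨g, hg, h1, h2⟩ := (H23.spForm_nondeg (F := F) n).exists_step (H := HJ F Jᶜ) (k x hx x0)
    (k y hy y0) (fun v hv => by
      rw [om_B, om_B, om_HJ disjoint_compl_right hx hv, om_HJ disjoint_compl_right hy hv])
    (by rw [om_B, om_B, om_self, om_self]) rfl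
  exact ⟨g, hg.1, h2, h1⟩

theorem witt3 {J : Set (Fin n)} {a a' x y : VV n F} (ha : a ∈ HJ F J) (hx : x ∈ HJ F J)
    (hy : y ∈ HJ F J) (h0 : om a' a = 0) (h1 : om x a = om y a) (h2 : om x a ≠ 0)
    (h3 : om x a' = om y a') : ∃ g, Iso g ∧ Fx J g ∧ g a = a ∧ g a' = a' ∧ g x = y := by
  have k : ∀ v ∈ HJ F Jᶜ ⊔ Submodule.span F {a, a'}, om v a = 0 ∧ om x v = om y v := fun v hv => by
    obtain ⟨z, hz, w, hw, rfl⟩ := Submodule.mem_sup.1 hv
    obtain ⟨s, t, rfl⟩ := Submodule.mem_span_pair.1 hw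
    simp [om_HJ disjoint_compl_left hz ha, om_HJ disjoint_compl_right hx hz,
      om_HJ disjoint_compl_right hy hz, h0, h1, h3]
  obtain ⟨g, hg, e1, e2⟩ := (H23.spForm_nondeg (F := F) n).exists_step
    (H := HJ F Jᶜ ⊔ Submodule.span F {a, a'}) (fun m => h2 (k x m).1)
    (fun m => h2 (h1 ▸ (k y m).1)) (fun v hv => (k v hv).2) (by rw [om_B, om_B, om_self, om_self]) rfl
  exact ⟨g, hg.1, fun v hv => e2 v (Submodule.mem_sup_left hv),
    e2 a (Submodule.mem_sup_right (Submodule.subset_span (by simp))),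
    e2 a' (Submodule.mem_sup_right (Submodule.subset_span (by simp))), e1⟩

/-- Siegel transformations -/
def Ev (e v : VV n F) (c : F) (g : VV n F ≃ₗ[F] VV n F) : Prop :=
  ∀ y, g y = y + om y v • e + om y e • v + (c * om y e) • e

theorem exists_Ev {e v : VV n F} (h : om v e = 0) (c : F) : ∃ g, Iso g ∧ Ev e v c g := by
  let f : VV n F →ₗ[F] VV n F := LinearMap.id + (om.flip v).smulRight e + (om.flip e).smulRight v +
    c • (om.flip e).smulRight e
  have hf : ∀ y, f y = y + om y v • e + om y e • v + (c * om y e) • e := fun y => by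
    simp [f, mul_smul]
  have hi : ∀ x y, om (f x) (f y) = om x y := fun x y => by
    simp only [hf, map_add, map_smul, LinearMap.add_apply, LinearMap.smul_apply, smul_eq_mul,
      om_self, h, om_zero h, om_comm e y, om_comm v y]
    ring
  exact ⟨H23.Form.equivOfIsometry (H23.spForm_nondeg n) f hi, hi, hf⟩

theorem Ev.ext {e v : VV n F} {c : F} {g g' : VV n F ≃ₗ[F] VV n F} (h : Ev e v c g)
    (h' : Ev e v c g') : g = g' := LinearEquiv.ext fun y => (h y).trans (h' y).symm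

theorem Ev.mul {e v v' : VV n F} {c c' : F} {g g' : VV n F ≃ₗ[F] VV n F} (h : Ev e v c g)
    (h' : Ev e v' c' g') (hv : om v e = 0) (hv' : om v' e = 0) :
    Ev e (v + v') (c + c' + om v' v) (g * g') := fun y => by
  rw [LinearEquiv.mul_apply, h, h']
  simp only [map_add, map_smul, LinearMap.add_apply, LinearMap.smul_apply, smul_eq_mul,
    om_self, hv', om_zero hv]
  module

theorem Ev.conj {e v : VV n F} {c : F} {g a : VV n F ≃ₗ[F] VV n F} (h : Ev e v c g) (hi : Iso a)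
    (he : a e = e) : Ev e (a v) c (a * g * a⁻¹) := fun y => by
  rw [LinearEquiv.mul_apply, LinearEquiv.mul_apply, h, hi.om_inv, hi.om_inv, he]
  simp [he]

theorem Ev.one (e : VV n F) : Ev e 0 0 1 := fun y => by simp

theorem Ev.fix {e v y : VV n F} {c : F} {g : VV n F ≃ₗ[F] VV n F} (h : Ev e v c g)
    (h1 : om y v = 0) (h2 : om y e = 0) : g y = y := by rw [h, h1, h2]; simp

theorem Ev.fx {e v : VV n F} {c : F} {g : VV n F ≃ₗ[F] VV n F} (h : Ev e v c g)
    {J : Set (Fin n)} (he : e ∈ HJ F J) (hv : v ∈ HJ F J) : Fx J g := fun _ hy =>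
  h.fix (om_HJ disjoint_compl_left hy hv) (om_HJ disjoint_compl_left hy he)

theorem dec {J J' : Set (Fin n)} {m : Fin n} (hm : m ∈ J') (hJ : ∀ k ∈ J', k ≠ m → k ∈ J)
    (hmJ : m ∉ J) {g : VV n F ≃ₗ[F] VV n F} (hi : Iso g) (hg : Fx J' g)
    (he : g (bb (inl m)) = bb (inl m)) : ∃ v ∈ HJ F J, ∃ c, ∀ h, Ev (bb (inl m)) v c h →
      h (bb (inr m)) = g (bb (inr m)) := by
  have m1 : g (bb (inr m)) ∈ HJ F J' := hg.map hi (bb_mem hm)
  have e1 : g (bb (inr m)) (inr m) = 1 := by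
    rw [← om_inl (g (bb (inr m))) m, ← he, hi, om_fe]
  have hv : g (bb (inr m)) - bb (inr m) - g (bb (inr m)) (inl m) • bb (inl m) ∈ HJ F J := by
    intro i hi
    by_cases e : ix i = m
    · rcases i with k | k <;> obtain rfl : k = m := e <;> simp [bb] at e1 ⊢
      simp [e1]
    · have := m1 i fun c => hi (hJ _ c e)
      have a1 : i ≠ inr m := fun c => e (c ▸ rfl)
      have a2 : i ≠ inl m := fun c => e (c ▸ rfl)
      simp [bb, a1, a2] at this ⊢
      exact this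
  refine ⟨_, hv, g (bb (inr m)) (inl m), fun h hh => ?_⟩
  rw [hh, om_fe, om_HJ (J := {m}) (by simpa using hmJ) (bb_mem (i := inr m) rfl) hv]
  module

end Lead.SpA
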