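import Cfsg.Agent.Lead.SpA1

/-! Amalgam for `Sp(2n, F)`, part 2: the induction step. -/

set_option autoImplicit false
set_option linter.unusedSectionVars false
set_option maxHeartbeats 400000

namespace Lead.SpA
open Sum

variable {n : ℕ} {F : Type*} [Field F] {K : Type*} [Group K]
  (π : K →* (VV n F ≃ₗ[F] VV n F))

/-- `π` is injective on `X` -/
def Inj (X : Subgroup K) : Prop := ∀ x ∈ X, π x = 1 → x = 1

/-- `π` maps `X` onto the isometries with property `P` -/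
structure Rep (X : Subgroup K) (P : (VV n F ≃ₗ[F] VV n F) → Prop) : Prop where
  sat : ∀ x ∈ X, P (π x)
  sur : ∀ g, Iso g → P g → ∃ x ∈ X, π x = g

variable {π}

theorem Inj.eq {X : Subgroup K} (h : Inj π X) {x y : K} (hx : x ∈ X) (hy : y ∈ X)
    (e : π x = π y) : x = y :=
  (inv_mul_eq_one.1 (h _ (mul_mem (inv_mem hy) hx) (by rw [map_mul, map_inv, e, inv_mul_cancel]))).symm

theorem Inj.comm {X : Subgroup K} (h : Inj π X) {x y : K} (hx : x ∈ X) (hy : y ∈ X)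
    (e : Commute (π x) (π y)) : Commute x y :=
  h.eq (mul_mem hx hy) (mul_mem hy hx) (by rw [map_mul, map_mul, e.eq])

theorem act_mul (a b : K) (v : VV n F) : π (a * b) v = π a (π b v) := by rw [map_mul]; rfl

theorem act_inv {a : K} {v w : VV n F} (h : π a v = w) : π a⁻¹ w = v := by
  rw [map_inv]; exact inv_app h

theorem act_ne (a : K) {v : VV n F} (h : v ≠ 0) : π a v ≠ 0 := by simpa using h

variable (π) in
/-- elements fixing the complement of `J` -/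
def FxS (J : Set (Fin n)) : Subgroup K where
  carrier := {k | Fx J (π k)}
  mul_mem' ha hb := by rw [Set.mem_setOf_eq, map_mul]; exact Fx.mul ha hb
  one_mem' := by rw [Set.mem_setOf_eq, map_one]; exact fun _ _ => rfl
  inv_mem' ha := by rw [Set.mem_setOf_eq, map_inv]; exact Fx.inv ha

variable (π) in
/-- elements fixing a vector -/
def FvS (v : VV n F) : Subgroup K where
  carrier := {k | π k v = v}
  mul_mem' ha hb := by rw [Set.mem_setOf_eq, act_mul, hb, ha]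
  one_mem' := by rw [Set.mem_setOf_eq, map_one]; rfl
  inv_mem' ha := act_inv ha

variable (π) in
/-- the data of the induction step -/
structure Stp (J : Set (Fin n)) (p m : Fin n) (A S S' M : Subgroup K) (u : K) : Prop where
  hF : ∃ a : F, a ≠ 0 ∧ a ≠ 1
  iso : ∀ k, Iso (π k)
  pJ : p ∈ J
  mJ : m ∉ J
  rA : Rep π A (Fx J)
  iA : Inj π A
  rS : Rep π S (Fx {m})
  rS' : Rep π S' (Fx {p})
  le : S' ≤ A
  rM : Rep π M (MP p m)
  iS : Inj π (M ⊔ S)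
  iS' : Inj π (M ⊔ S')
  c1 : ∀ a ∈ A, ∀ s ∈ S, Commute a s
  c2 : ∀ a ∈ A, π a (bb (inl p)) = bb (inl p) → ∀ x ∈ M, Commute a x
  uM : u ∈ M
  uE : Ev (bb (inl m)) (bb (inl p)) 0 (π u)

variable (π) in
/-- lifts of Siegel transformations -/
def IsT (p : Fin n) (A : Subgroup K) (u : K) (v : VV n F) (t : K) : Prop :=
  (v = 0 ∧ t = 1) ∨ ∃ a ∈ A, π a (bb (inl p)) = v ∧ t = a * u * a⁻¹

variable (π) in
/-- additivity -/
def AddP (p : Fin n) (A Z : Subgroup K) (u : K) (v v' : VV n F) : Prop :=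
  ∀ t t' t'', IsT π p A u v t → IsT π p A u v' t' → IsT π p A u (v + v') t'' →
    ∃ z ∈ Z, t * t' = t'' * z

namespace Stp
variable {J : Set (Fin n)} {p m : Fin n} {A S S' M : Subgroup K} {u : K}
  (h : Stp π J p m A S S' M u)
include h

local notation "e" => (bb (inl m) : VV n F)
local notation "f" => (bb (inr m) : VV n F)
local notation "e'" => (bb (inl p) : VV n F)
local notation "f'" => (bb (inr p) : VV n F)
local notation "T" => IsT π p A u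

theorem pm : p ≠ m := fun c => h.mJ (c ▸ h.pJ)
theorem dj : Disjoint J {m} := by simpa using h.mJ
theorem ae {a : K} (ha : a ∈ A) : π a e = e := h.rA.sat a ha _ (bb_mem h.mJ)
theorem af {a : K} (ha : a ∈ A) : π a f = f := h.rA.sat a ha _ (bb_mem h.mJ)
theorem oe {v : VV n F} (hv : v ∈ HJ F J) : om v e = 0 := om_HJ h.dj hv (bb_mem rfl)
theorem of {v : VV n F} (hv : v ∈ HJ F J) : om v f = 0 := om_HJ h.dj hv (bb_mem rfl)
theorem pl {v : VV n F} (hv : v ∈ HJ F {p}) : v ∈ HJ F J := HJ_mono (by simpa using h.pJ) hv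

theorem T_mem {v : VV n F} {t : K} (ht : T v t) : v ∈ HJ F J := by
  rcases ht with ⟨rfl, -⟩ | ⟨a, ha, rfl, -⟩
  exacts [zero_mem _, (h.rA.sat a ha).map (h.iso a) (bb_mem h.pJ)]

theorem T_ev {v : VV n F} {t : K} (ht : T v t) : Ev e v 0 (π t) := by
  rcases ht with ⟨rfl, rfl⟩ | ⟨a, ha, rfl, rfl⟩
  · rw [map_one]; exact Ev.one _
  · rw [map_mul, map_mul, map_inv]; exact h.uE.conj (h.iso a) (h.ae ha)

theorem T_ex {v : VV n F} (hv : v ∈ HJ F J) : ∃ t, T v t := by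
  by_cases c : v = 0
  · exact ⟨1, Or.inl ⟨c, rfl⟩⟩
  · obtain ⟨g, h1, h2, h3⟩ := witt1 (bb_mem (i := inl p) h.pJ) hv (bb_ne _) c
    obtain ⟨a, ha, rfl⟩ := h.rA.sur g h1 h2
    exact ⟨_, Or.inr ⟨a, ha, h3, rfl⟩⟩

theorem T_uniq {v : VV n F} {t t' : K} (ht : T v t) (ht' : T v t') : t = t' := by
  rcases ht with ⟨h0, rfl⟩ | ⟨a, ha, h0, rfl⟩ <;> rcases ht' with ⟨h1, rfl⟩ | ⟨b, hb, h1, rfl⟩
  · rfl
  · exact (act_ne b (bb_ne _) (h1.trans h0)).elim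
  · exact (act_ne a (bb_ne _) (h0.trans h1)).elim
  · have := (h.c2 _ (mul_mem (inv_mem hb) ha) (by rw [act_mul, h0, act_inv h1]) u h.uM).eq
    calc a * u * a⁻¹ = b * (b⁻¹ * a * u) * a⁻¹ := by group
      _ = b * u * b⁻¹ := by rw [this]; group

theorem T_conj {a : K} (ha : a ∈ A) {v : VV n F} {t : K} (ht : T v t) :
    T (π a v) (a * t * a⁻¹) := by
  rcases ht with ⟨rfl, rfl⟩ | ⟨b, hb, rfl, rfl⟩
  · exact Or.inl ⟨map_zero _, by group⟩
  · exact Or.inr ⟨a * b, mul_mem ha hb, act_mul _ _ _, by group⟩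

theorem T_plane {v : VV n F} (hv : v ∈ HJ F {p}) {t : K} (ht : T v t) : t ∈ M ⊔ S' := by
  by_cases c : v = 0
  · rw [h.T_uniq ht (Or.inl ⟨c, rfl⟩)]; exact one_mem _
  · obtain ⟨g, h1, h2, h3⟩ := witt1 (J := {p}) (bb_mem (i := inl p) rfl) hv (bb_ne _) c
    obtain ⟨a, ha, rfl⟩ := h.rS'.sur g h1 h2
    rw [h.T_uniq ht (Or.inr ⟨a, h.le ha, h3, rfl⟩)]
    exact mul_mem (mul_mem (Subgroup.mem_sup_right ha) (Subgroup.mem_sup_left h.uM))
      (inv_mem (Subgroup.mem_sup_right ha))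

theorem S_fix {s : K} (hs : s ∈ S) (he : π s e = e) : s ∈ S ⊓ M := by
  obtain ⟨x, hx, c⟩ := h.rM.sur _ (h.iso s) ⟨(h.rS.sat s hs).mono (by simp),
    h.rS.sat s hs _ (bb_mem (i := inl p) h.pm), he⟩
  exact ⟨hs, h.iS.eq (Subgroup.mem_sup_left hx) (Subgroup.mem_sup_right hs) c ▸ hx⟩

theorem Z_ex (c : F) : ∃ z ∈ S ⊓ M, Ev e 0 c (π z) := by
  obtain ⟨g, h1, h2⟩ := exists_Ev (show om (0 : VV n F) e = 0 by simp) c
  obtain ⟨s, hs, rfl⟩ := h.rS.sur g h1 (h2.fx (bb_mem rfl) (zero_mem _))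
  exact ⟨s, h.S_fix hs (h2.fix (by simp) (by simp)), h2⟩

theorem MM {x y : K} (hx : x ∈ M) (hy : y ∈ M) : Commute x y :=
  h.iS.comm (Subgroup.mem_sup_left hx) (Subgroup.mem_sup_left hy)
    ((h.rM.sat x hx).fe.comm (h.rM.sat y hy).fe (h.iso _) (h.iso _))

theorem ZA {z a : K} (hz : z ∈ S ⊓ M) (ha : a ∈ A) : Commute z a := (h.c1 a ha z hz.1).symm

theorem ZT {z t : K} (hz : z ∈ S ⊓ M) {v : VV n F} (ht : T v t) : Commute z t := by
  rcases ht with ⟨-, rfl⟩ | ⟨a, ha, -, rfl⟩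
  · exact Commute.one_right _
  · exact ((h.ZA hz ha).mul_right (h.MM hz.2 h.uM)).mul_right (h.ZA hz ha).inv_right

theorem add_plane {v v' : VV n F} (hv : v ∈ HJ F {p}) (hv' : v' ∈ HJ F {p}) :
    AddP π p A (S ⊓ M) u v v' := fun t t' t'' h1 h2 h3 => by
  obtain ⟨z, hz, ez⟩ := h.Z_ex (om v' v)
  refine ⟨z, hz, h.iS'.eq (mul_mem (h.T_plane hv h1) (h.T_plane hv' h2))
    (mul_mem (h.T_plane (add_mem hv hv') h3) (Subgroup.mem_sup_left hz.2)) ?_⟩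
  have a1 := (h.T_ev h1).mul (h.T_ev h2) (h.oe (h.pl hv)) (h.oe (h.pl hv'))
  have a2 := (h.T_ev h3).mul ez (h.oe (h.T_mem h3)) (by simp)
  rw [map_mul, map_mul]
  refine a1.ext ?_
  simpa using a2

theorem add_ne {v v' : VV n F} (hv : v ∈ HJ F J) (hv' : v' ∈ HJ F J) (c : om v' v ≠ 0) :
    AddP π p A (S ⊓ M) u v v' := fun t t' t'' h1 h2 h3 => by
  obtain ⟨g, g1, g2, g3⟩ := witt1 (bb_mem (i := inl p) h.pJ) hv (bb_ne _) fun c' => c (by simp [c'])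
  have k : om (g (om v' v • f')) v = om v' v := by
    nth_rewrite 2 [← g3]
    rw [g1]; simp [om_fe]
  obtain ⟨g', g4, g5, g6, -, g7⟩ := witt3 (a' := v) hv
    (g2.map g1 (Submodule.smul_mem _ (om v' v) (bb_mem (i := inr p) h.pJ))) hv' (om_self _) k
    (by rw [k]; exact c) k
  obtain ⟨a, ha, ea⟩ := h.rA.sur _ (g4.mul g1) (g5.mul g2)
  have e1 : π a⁻¹ v = e' := act_inv (by rw [ea, LinearEquiv.mul_apply, g3, g6])
  have e2 : π a⁻¹ v' = om v' v • f' := act_inv (by rw [ea, LinearEquiv.mul_apply, g7])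
  have k1 := h.T_conj (inv_mem ha) h1
  have k2 := h.T_conj (inv_mem ha) h2
  have k3 := h.T_conj (inv_mem ha) h3
  rw [map_add] at k3
  obtain ⟨z, hz, ez⟩ := h.add_plane (e1 ▸ bb_mem rfl) (e2 ▸ Submodule.smul_mem _ _ (bb_mem rfl))
    _ _ _ k1 k2 k3
  refine ⟨z, hz, ?_⟩
  calc t * t' = a * (a⁻¹ * t * a⁻¹⁻¹ * (a⁻¹ * t' * a⁻¹⁻¹)) * a⁻¹ := by group
    _ = t'' * (a * z) * a⁻¹ := by rw [ez]; group
    _ = t'' * z := by rw [← (h.ZA hz ha).eq]; group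

theorem add_all (v v' : VV n F) : AddP π p A (S ⊓ M) u v v' := fun t t' t'' h1 h2 h3 => by
  have hv := h.T_mem h1
  have hv' := h.T_mem h2
  by_cases c1 : v = 0
  · obtain rfl := h.T_uniq h1 (Or.inl ⟨c1, rfl⟩)
    rw [c1, zero_add] at h3
    exact ⟨1, one_mem _, by rw [h.T_uniq h2 h3]; group⟩
  by_cases c2 : v' = 0
  · obtain rfl := h.T_uniq h2 (Or.inl ⟨c2, rfl⟩)
    rw [c2, add_zero] at h3
    exact ⟨1, one_mem _, by rw [h.T_uniq h1 h3]⟩
  by_cases c3 : v + v' = 0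
  · obtain rfl := h.T_uniq h3 (Or.inl ⟨c3, rfl⟩)
    obtain ⟨y, hy, c⟩ := exists_ne hv' c2
    obtain ⟨r, hr⟩ := h.T_ex hy
    obtain ⟨r', hr'⟩ := h.T_ex (add_mem hv' hy)
    obtain rfl : v = -v' := eq_neg_of_add_eq_zero_left c3
    obtain ⟨z, hz, e1⟩ := h.add_ne hv' hy c _ _ _ h2 hr hr'
    obtain ⟨z', hz', e2⟩ := h.add_ne hv (add_mem hv' hy) (by simpa using c) _ _ _ h1 hr'
      (by simpa using hr)
    refine ⟨z' * z, mul_mem hz' hz, ?_⟩
    calc t * t' = t * (t' * r) * r⁻¹ := by group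
      _ = r * (z' * z) * r⁻¹ := by rw [e1, ← mul_assoc, e2]; group
      _ = 1 * (z' * z) := by rw [← (h.ZT (mul_mem hz' hz) hr).eq]; group
  obtain ⟨y, hy, d1, d2, d3⟩ := three h.hF hv hv' (add_mem hv hv') c1 c2 c3
  obtain ⟨r, hr⟩ := h.T_ex hy
  obtain ⟨r1, hr1⟩ := h.T_ex (sub_mem hv' hy)
  obtain ⟨r2, hr2⟩ := h.T_ex (add_mem hv hy)
  obtain ⟨z1, hz1, e1⟩ := h.add_ne hy (sub_mem hv' hy) (by simpa using om_ne d2) _ _ _ hr hr1
    (by simpa using h2)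
  by_cases c4 : om v' v = 0
  swap
  · exact h.add_ne hv hv' c4 _ _ _ h1 h2 h3
  obtain ⟨z2, hz2, e2⟩ := h.add_ne hv hy d1 _ _ _ h1 hr hr2
  obtain ⟨z3, hz3, e3⟩ := h.add_ne (add_mem hv hy) (sub_mem hv' hy) (fun c => d3 (by
    simp only [map_add, map_sub, LinearMap.sub_apply, om_self, c4, om_comm v' y] at c ⊢
    linear_combination -c)) _ _ _ hr2 hr1 (by simpa using h3)
  refine ⟨z3 * z2 * z1⁻¹, mul_mem (mul_mem hz3 hz2) (inv_mem hz1), ?_⟩
  calc t * t' = t * (t' * z1) * z1⁻¹ := by group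
    _ = r2 * (z2 * r1) * z1⁻¹ := by rw [← e1, ← mul_assoc, e2]; group
    _ = t'' * (z3 * z2 * z1⁻¹) := by rw [(h.ZT hz2 hr1).eq, ← mul_assoc, e3]; group

/-- the lift of the stabilizer of `e` -/
def W : Subgroup K where
  carrier := {x | ∃ v t z a, T v t ∧ z ∈ S ⊓ M ∧ a ∈ A ∧ x = t * z * a}
  one_mem' := ⟨0, 1, 1, 1, Or.inl ⟨rfl, rfl⟩, one_mem _, one_mem _, by group⟩
  mul_mem' := by
    rintro _ _ ⟨v, t, z, a, h1, h2, h3, rfl⟩ ⟨v', t', z', a', h4, h5, h6, rfl⟩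
    have k := h.T_conj h3 h4
    obtain ⟨r, hr⟩ := h.T_ex (add_mem (h.T_mem h1) (h.T_mem k))
    obtain ⟨z0, hz0, e0⟩ := h.add_all _ _ _ _ _ h1 k hr
    refine ⟨_, r, z0 * z * z', a * a', hr, mul_mem (mul_mem hz0 h2) h5, mul_mem h3 h6, ?_⟩
    calc t * z * a * (t' * z' * a') = t * (z * (a * t' * a⁻¹)) * (a * z') * a' := by group
      _ = r * (z0 * z * z') * (a * a') := by
        rw [(h.ZT h2 k).eq, ← (h.ZA h5 h3).eq, ← mul_assoc t, e0]; group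
  inv_mem' := by
    rintro _ ⟨v, t, z, a, h1, h2, h3, rfl⟩
    obtain ⟨r, hr⟩ := h.T_ex (neg_mem (h.T_mem h1))
    obtain ⟨z0, hz0, e0⟩ := h.add_all _ _ _ _ 1 h1 hr (Or.inl ⟨add_neg_cancel _, rfl⟩)
    have hz := mul_mem (inv_mem hz0) (inv_mem h2)
    refine ⟨_, _, z0⁻¹ * z⁻¹, a⁻¹, h.T_conj (inv_mem h3) hr, hz, inv_mem h3, ?_⟩
    have e1 : t⁻¹ = r * z0⁻¹ := by rw [← one_mul z0, ← e0]; group
    calc (t * z * a)⁻¹ = a⁻¹ * (z⁻¹ * t⁻¹) := by group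
      _ = a⁻¹ * r * (z0⁻¹ * z⁻¹ * a) * a⁻¹ := by
        rw [(h.ZT h2 h1).inv_inv.eq, e1]; group
      _ = _ := by rw [(h.ZA hz h3).eq]; group

theorem AW : A ≤ h.W := fun a ha => ⟨0, 1, 1, a, Or.inl ⟨rfl, rfl⟩, one_mem _, ha, by group⟩
theorem ZW : S ⊓ M ≤ h.W := fun z hz => ⟨0, 1, z, 1, Or.inl ⟨rfl, rfl⟩, hz, one_mem _, by group⟩

theorem W_le : h.W ≤ A ⊔ M := by
  rintro _ ⟨v, t, z, a, h1, h2, h3, rfl⟩
  refine mul_mem (mul_mem ?_ (Subgroup.mem_sup_right h2.2)) (Subgroup.mem_sup_left h3)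
  rcases h1 with ⟨-, rfl⟩ | ⟨b, hb, -, rfl⟩
  · exact one_mem _
  · exact mul_mem (mul_mem (Subgroup.mem_sup_left hb) (Subgroup.mem_sup_right h.uM))
      (inv_mem (Subgroup.mem_sup_left hb))

theorem fxAll : A ⊔ S ⊔ M ≤ FxS π (insert m J) :=
  sup_le (sup_le (fun a ha => (h.rA.sat a ha).mono (Set.subset_insert _ _))
    fun s hs => (h.rS.sat s hs).mono (by simp))
    fun x hx => (h.rM.sat x hx).1.mono (by simp [Set.insert_subset_iff, h.pJ])

theorem W_all : h.W ≤ A ⊔ S ⊔ M := h.W_le.trans (sup_le_sup_right le_sup_left _)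

theorem We {x : K} (hx : x ∈ h.W) : π x e = e :=
  (h.W_le.trans (sup_le (fun _ ha => h.ae ha) fun x hx => (h.rM.sat x hx).2.2 : _ ≤ FvS π e)) hx

theorem W_inj : Inj π h.W := by
  rintro _ ⟨v, t, z, a, h1, h2, h3, rfl⟩ c
  have v0 : v = 0 := by_contra fun v0 => by
    obtain ⟨y, hy, d⟩ := exists_ne (h.T_mem h1) v0
    have hy' := (h.rA.sat _ (inv_mem h3)).map (h.iso _) hy
    have := LinearEquiv.congr_fun c (π a⁻¹ y)
    rw [act_mul, act_mul, ← act_mul a, mul_inv_cancel, map_one, LinearEquiv.coe_one, id,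
      h.rS.sat z h2.1 y (HJ_mono h.dj.subset_compl_right hy), h.T_ev h1, h.oe hy] at this
    have := congrArg (fun w => om w f) this
    simp only [map_add, map_smul, LinearMap.add_apply, LinearMap.smul_apply, h.of hy, h.of hy',
      id, om_comm e f, om_fe] at this
    exact d (by simpa using this)
  obtain rfl := h.T_uniq h1 (Or.inl ⟨v0, rfl⟩)
  rw [one_mul] at c ⊢
  have a1 : a = 1 := h.iA a h3 (ext_bb fun i => by
    by_cases d : ix i ∈ J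
    · have := LinearEquiv.congr_fun c (bb i)
      rw [act_mul] at this
      exact (act_inv this).symm.trans (h.rS.sat _ (inv_mem h2.1) _
        (HJ_mono h.dj.subset_compl_right (bb_mem d)))
    · exact h.rA.sat a h3 _ (bb_mem d))
  rw [a1, mul_one] at c ⊢
  exact h.iS z (Subgroup.mem_sup_left h2.2) c

theorem W_dec {J0 J1 : Set (Fin n)} (h0 : J0 ⊆ J) (h1 : J1 ⊆ insert m J) (hm : m ∈ J1)
    (hJ : ∀ k ∈ J1, k ≠ m → k ∈ J0) {g : VV n F ≃ₗ[F] VV n F} (hi : Iso g) (hg : Fx J1 g)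
    (he : g e = e) : ∃ v ∈ HJ F J0, ∃ t z a, T v t ∧ z ∈ S ⊓ M ∧ a ∈ A ∧ π (t * z * a) = g := by
  obtain ⟨v, hv, c, hc⟩ := dec hm hJ (fun c => h.mJ (h0 c)) hi hg he
  obtain ⟨t, ht⟩ := h.T_ex (HJ_mono h0 hv)
  obtain ⟨z, hz, ez⟩ := h.Z_ex c
  have k := (h.T_ev ht).mul ez (h.oe (h.T_mem ht)) (by simp)
  simp only [add_zero, zero_add, map_zero, LinearMap.zero_apply, ← map_mul] at k
  have w : t * z ∈ h.W := ⟨v, t, z, 1, ht, hz, one_mem _, by group⟩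
  obtain ⟨a, ha, ea⟩ := h.rA.sur _ ((h.iso (t * z)).inv.mul hi)
    (((h.fxAll (h.W_all w) : Fx _ _).inv.mul (hg.mono h1)).erase (m := m)
      (fun k hk c => hk.resolve_left c)
      (by rw [LinearEquiv.mul_apply, he, inv_fix (h.We w)])
      (by rw [LinearEquiv.mul_apply, inv_app (hc _ k)]))
  exact ⟨v, hv, t, z, a, ht, hz, ha, by rw [map_mul, ea]; group⟩

theorem W_sur {g : VV n F ≃ₗ[F] VV n F} (hi : Iso g) (hg : Fx (insert m J) g) (he : g e = e) :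
    ∃ x ∈ h.W, π x = g := by
  obtain ⟨v, -, t, z, a, h1, h2, h3, h4⟩ := h.W_dec subset_rfl subset_rfl (Set.mem_insert _ _)
    (fun k hk c => hk.resolve_left c) hi hg he
  exact ⟨_, ⟨v, t, z, a, h1, h2, h3, rfl⟩, h4⟩

theorem MW : M ≤ h.W := fun x hx => by
  have k := h.rM.sat x hx
  obtain ⟨v, hv, t, z, a, h1, h2, h3, h4⟩ := h.W_dec (J0 := {p}) (J1 := {p, m})
    (by simpa using h.pJ) (by simp [Set.insert_subset_iff, h.pJ]) (by simp)
    (fun k hk c => hk.resolve_right c) (h.iso x) k.1 k.2.2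
  have m1 : t * z ∈ M ⊔ S' := mul_mem (h.T_plane hv h1) (Subgroup.mem_sup_left h2.2)
  have l : M ⊔ S' ≤ FxS π {p, m} :=
    sup_le (fun x hx => (h.rM.sat x hx).1) fun s hs => (h.rS'.sat s hs).mono (by simp)
  have ea : π a = π ((t * z)⁻¹ * x) := by rw [map_mul, ← h4, ← map_mul]; group
  obtain ⟨s, hs, es⟩ := h.rS'.sur (π a) (h.iso a) (Fx.erase (J' := {p, m}) (m := m)
    (fun k hk c => hk.resolve_right c)
    (ea ▸ l (mul_mem (inv_mem m1) (Subgroup.mem_sup_left hx))) (h.ae h3) (h.af h3))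
  obtain rfl := h.iA.eq (h.le hs) h3 es
  rw [← h.iS'.eq (mul_mem m1 (Subgroup.mem_sup_right hs)) (Subgroup.mem_sup_left hx) h4]
  exact ⟨v, t, z, s, h1, h2, h3, rfl⟩

end Stp

end Lead.SpA
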