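import Cfsg.Agent.Lead.SpA2

/-! Amalgam for `Sp(2n, F)`, part 3: the big cell. -/

set_option autoImplicit false
set_option linter.unusedSectionVars false
set_option maxHeartbeats 400000

namespace Lead.SpA
open Sum

variable {n : ℕ} {F : Type*} [Field F] {K : Type*} [Group K]
  {π : K →* (VV n F ≃ₗ[F] VV n F)}

namespace Stp
variable {J : Set (Fin n)} {p m : Fin n} {A S S' M : Subgroup K} {u : K}
  (h : Stp π J p m A S S' M u)
include h

local notation "e" => (bb (inl m) : VV n F)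
local notation "f" => (bb (inr m) : VV n F)
local notation "e'" => (bb (inl p) : VV n F)

/-- the big cell -/
def K0 (x : K) : Prop := ∃ a ∈ h.W, ∃ s ∈ S, ∃ b ∈ h.W, om (π s e) e ≠ 0 ∧ x = a * s * b

theorem om_bi {a b : K} (ha : a ∈ h.W) (hb : b ∈ h.W) (x : K) :
    om (π (a * x * b) e) e = om (π x e) e := by
  rw [act_mul, act_mul, h.We hb]
  nth_rewrite 2 [← h.We ha]
  rw [h.iso]

theorem K0_om {x : K} (hx : h.K0 x) : om (π x e) e ≠ 0 := by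
  obtain ⟨a, ha, s, -, b, hb, c, rfl⟩ := hx
  rwa [h.om_bi ha hb]

theorem K0_all {x : K} (hx : h.K0 x) : x ∈ A ⊔ S ⊔ M := by
  obtain ⟨a, ha, s, hs, b, hb, -, rfl⟩ := hx
  exact mul_mem (mul_mem (h.W_all ha) (Subgroup.mem_sup_left (Subgroup.mem_sup_right hs)))
    (h.W_all hb)

theorem K0_bi {a b x : K} (ha : a ∈ h.W) (hb : b ∈ h.W) (hx : h.K0 x) : h.K0 (a * x * b) := by
  obtain ⟨a', ha', s, hs, b', hb', c, rfl⟩ := hx
  exact ⟨_, mul_mem ha ha', s, hs, _, mul_mem hb' hb, c, by group⟩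

theorem K0_S {s : K} (hs : s ∈ S) (c : om (π s e) e ≠ 0) : h.K0 s :=
  ⟨1, one_mem _, s, hs, 1, one_mem _, c, by group⟩

theorem K0_inv {x : K} (hx : h.K0 x) : h.K0 x⁻¹ := by
  obtain ⟨a, ha, s, hs, b, hb, c, rfl⟩ := hx
  refine ⟨_, inv_mem hb, _, inv_mem hs, _, inv_mem ha, ?_, by group⟩
  rw [map_inv, (h.iso s).om_inv]
  exact om_ne c

theorem om_sf (c : F) : om (c • f) e = c := by simp [om_fe]

theorem S_ex {y : VV n F} (hy : y ∈ HJ F {m}) (y0 : y ≠ 0) : ∃ s ∈ S, π s e = y := by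
  obtain ⟨g, h1, h2, h3⟩ := witt1 (J := {m}) (bb_mem (i := inl m) rfl) hy (bb_ne _) y0
  obtain ⟨s, hs, rfl⟩ := h.rS.sur g h1 h2
  exact ⟨s, hs, h3⟩

theorem S_exf {c : F} (hc : c ≠ 0) : ∃ s ∈ S, π s e = c • f :=
  h.S_ex (Submodule.smul_mem _ _ (bb_mem rfl)) (smul_ne_zero hc (bb_ne _))

theorem K0_sur {g : VV n F ≃ₗ[F] VV n F} (hi : Iso g) (hg : Fx (insert m J) g)
    (c : om (g e) e ≠ 0) : ∃ x, h.K0 x ∧ π x = g := by
  obtain ⟨s, hs, es⟩ := h.S_exf c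
  have me : e ∈ HJ F (insert m J) := bb_mem (Set.mem_insert _ _)
  obtain ⟨q, q1, q2, q3, -, q4⟩ := witt3 (a' := e) me (Submodule.smul_mem _ (om (g e) e)
    (bb_mem (i := inr m) (Set.mem_insert _ _))) (hg.map hi me) (om_self _) (h.om_sf _)
    (by rwa [h.om_sf]) (h.om_sf _)
  obtain ⟨a, ha, rfl⟩ := h.W_sur q1 q2 q3
  have f1 : Fx (insert m J) (π (a * s)) :=
    h.fxAll (mul_mem (h.W_all ha) (Subgroup.mem_sup_left (Subgroup.mem_sup_right hs)))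
  obtain ⟨b, hb, eb⟩ := h.W_sur ((h.iso (a * s)).inv.mul hi) (f1.inv.mul hg)
    (by rw [LinearEquiv.mul_apply]; exact inv_app (by rw [act_mul, es, q4]))
  exact ⟨_, ⟨a, ha, s, hs, b, hb, by rwa [es, h.om_sf], rfl⟩, by rw [map_mul, eb]; group⟩

theorem K0_nf {x : K} (hx : h.K0 x) :
    ∃ a ∈ h.W, ∃ s ∈ S, ∃ b ∈ h.W, ∃ c : F, c ≠ 0 ∧ π s e = c • f ∧ x = a * s * b := by
  obtain ⟨a, ha, s, hs, b, hb, c, rfl⟩ := hx
  have me : e ∈ HJ F {m} := bb_mem rfl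
  obtain ⟨q, q1, q2, q3, -, q4⟩ := witt3 (a' := e) me (Submodule.smul_mem _ (om (π s e) e)
    (bb_mem (i := inr m) rfl)) ((h.rS.sat s hs).map (h.iso s) me) (om_self _) (h.om_sf _)
    (by rwa [h.om_sf]) (h.om_sf _)
  obtain ⟨z, hz, rfl⟩ := h.rS.sur q q1 q2
  exact ⟨_, mul_mem ha (h.ZW (h.S_fix hz q3)), _, mul_mem (inv_mem hz) hs, b, hb, _, c,
    by rw [act_mul]; exact act_inv q4, by group⟩

theorem K0_inj {x y : K} (hx : h.K0 x) (hy : h.K0 y) (c : π x = π y) : x = y := by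
  obtain ⟨a, ha, s, hs, b, hb, l, l0, es, rfl⟩ := h.K0_nf hx
  obtain ⟨a', ha', s', hs', b', hb', l', -, es', rfl⟩ := h.K0_nf hy
  have e1 : l = l' := by
    rw [← h.om_sf l, ← h.om_sf l', ← es, ← es', ← h.om_bi ha hb s, ← h.om_bi ha' hb' s', c]
  subst e1
  have e2 := LinearEquiv.congr_fun c e
  rw [act_mul, act_mul, act_mul, act_mul, h.We hb, h.We hb', es, es', map_smul, map_smul] at e2
  have e3 := smul_right_injective _ l0 e2
  have w := mul_mem (inv_mem ha') ha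
  obtain ⟨a0, h0, e0⟩ := h.rA.sur _ (h.iso (a'⁻¹ * a)) ((h.fxAll (h.W_all w) : Fx _ _).erase
    (m := m) (fun k hk c => hk.resolve_left c) (h.We w)
    (by rw [act_mul]; exact act_inv e3.symm))
  have e4 := h.W_inj.eq (h.AW h0) w e0
  have z := h.ZW (h.S_fix (mul_mem (inv_mem hs') hs) (by rw [act_mul, es]; exact act_inv es'))
  have e5 : (a' * s' * b')⁻¹ * (a * s * b) = b'⁻¹ * (s'⁻¹ * s) * a0 * b := by
    calc _ = b'⁻¹ * s'⁻¹ * (a'⁻¹ * a * s) * b := by group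
      _ = _ := by rw [← e4, (h.c1 a0 h0 s hs).eq]; group
  have := h.W_inj _ (mul_mem (mul_mem (mul_mem (inv_mem hb') z) (h.AW h0)) hb)
    (by rw [← e5, map_mul, map_inv, c, inv_mul_cancel])
  exact (inv_mul_eq_one.1 (e5.trans this)).symm

theorem K0_B {b : K} (hb : b ∈ M ⊔ S) (c : om (π b e) e ≠ 0) : h.K0 b := by
  have l : M ⊔ S ≤ FxS π {p, m} ⊓ FvS π e' :=
    sup_le (fun x hx => ⟨(h.rM.sat x hx).1, (h.rM.sat x hx).2.1⟩) fun s hs =>
      ⟨(h.rS.sat s hs).mono (by simp), h.rS.sat s hs _ (bb_mem (i := inl p) h.pm)⟩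
  obtain ⟨s, hs, es⟩ := h.S_exf c
  have me : e ∈ HJ F {p, m} := bb_mem (by simp)
  have o1 : om e' e = 0 := h.oe (bb_mem h.pJ)
  obtain ⟨q, q1, q2, q3, q4, q5⟩ := witt3 (a' := e') me (Submodule.smul_mem _ (om (π b e) e)
    (bb_mem (i := inr m) (by simp))) (Fx.map (l hb).1 (h.iso b) me) o1 (h.om_sf _)
    (by rwa [h.om_sf]) (by
      nth_rewrite 2 [← (show π b e' = e' from (l hb).2)]
      rw [h.iso, om_zero o1, map_smul, LinearMap.smul_apply, om_zero (h.of (bb_mem (i := inl p) h.pJ)),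
        smul_zero])
  obtain ⟨a, ha, rfl⟩ := h.rM.sur q q1 ⟨q2, q4, q3⟩
  have r : (a * s)⁻¹ * b ∈ M ⊔ S :=
    mul_mem (inv_mem (mul_mem (Subgroup.mem_sup_left ha) (Subgroup.mem_sup_right hs))) hb
  obtain ⟨r', hr', er⟩ := h.rM.sur _ (h.iso _) ⟨(l r).1, (l r).2, by
    rw [act_mul]; exact act_inv (by rw [act_mul, es, q5])⟩
  refine ⟨a, h.MW ha, s, hs, r', h.MW hr', by rwa [es, h.om_sf], ?_⟩
  rw [h.iS.eq (Subgroup.mem_sup_left hr') r er]; group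

theorem K0_mul {x y : K} (hx : h.K0 x) (hy : h.K0 y) (c : om (π (x * y) e) e ≠ 0) :
    h.K0 (x * y) := by
  obtain ⟨a, ha, s, hs, b, hb, -, rfl⟩ := hx
  obtain ⟨a', ha', s', hs', b', hb', -, rfl⟩ := hy
  obtain ⟨v, t, z, a0, h1, h2, h3, e0⟩ := mul_mem hb ha'
  obtain ⟨a1, h4, u', hu', rfl⟩ : ∃ a1 ∈ A, ∃ u' ∈ M, t = a1 * u' * a1⁻¹ := by
    rcases h1 with ⟨-, rfl⟩ | ⟨a1, h4, -, rfl⟩
    exacts [⟨1, one_mem _, 1, one_mem _, by group⟩, ⟨a1, h4, u, h.uM, rfl⟩]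
  have k : a * s * b * (a' * s' * b') = a * a1 * (s * u' * z * s') * (a1⁻¹ * a0 * b') := by
    calc _ = a * s * (b * a') * s' * b' := by group
      _ = a * (s * a1) * u' * (a1⁻¹ * z) * (a0 * s') * b' := by rw [e0]; group
      _ = a * a1 * (s * u' * z) * (a1⁻¹ * s') * a0 * b' := by
        rw [← (h.c1 a1 h4 s hs).eq, ← (h.ZA h2 (inv_mem h4)).eq, (h.c1 a0 h3 s' hs').eq]; group
      _ = _ := by rw [(h.c1 _ (inv_mem h4) s' hs').eq]; group
  have w1 := mul_mem ha (h.AW h4)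
  have w2 := mul_mem (h.AW (mul_mem (inv_mem h4) h3)) hb'
  rw [k] at c ⊢
  rw [h.om_bi w1 w2] at c
  exact h.K0_bi w1 w2 (h.K0_B (mul_mem (mul_mem (mul_mem (Subgroup.mem_sup_right hs)
    (Subgroup.mem_sup_left hu')) (Subgroup.mem_sup_left h2.2)) (Subgroup.mem_sup_right hs')) c)

theorem K0_to {y : VV n F} (hy : y ∈ HJ F (insert m J)) (c : om y e ≠ 0) :
    ∃ x, h.K0 x ∧ π x e = y := by
  obtain ⟨g, h1, h2, h3⟩ := witt1 (bb_mem (i := inl m) (Set.mem_insert _ _)) hy (bb_ne _)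
    fun c' => c (by simp [c'])
  obtain ⟨x, hx, rfl⟩ := h.K0_sur h1 h2 (h3 ▸ c)
  exact ⟨x, hx, h3⟩

theorem all_mem {x : K} (hx : x ∈ A ⊔ S ⊔ M) : π x e ∈ HJ F (insert m J) :=
  Fx.map (h.fxAll hx) (h.iso x) (bb_mem (Set.mem_insert _ _))

theorem om_inv (x y : K) : om (π (x⁻¹ * y) e) e = om (π y e) (π x e) := by
  rw [act_mul, map_inv, (h.iso x).om_inv]

theorem triple {a b c : K} (ha : h.K0 a) (hb : h.K0 b) (hc : h.K0 c) :
    ∃ x y, h.K0 x ∧ h.K0 y ∧ a * b * c = x * y := by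
  by_cases d : om (π (a * b) e) e = 0
  swap
  · exact ⟨_, _, h.K0_mul ha hb d, hc, rfl⟩
  have m2 := mul_mem (h.K0_all ha) (h.K0_all hb)
  obtain ⟨y, hy, d0, d1, d2, d3⟩ := four h.hF (bb_mem (i := inl m) (Set.mem_insert _ _))
    (h.all_mem m2) (h.all_mem (mul_mem m2 (h.K0_all hc))) (act_ne _ (bb_ne _))
    (act_ne _ (bb_ne _)) (om_ne (h.K0_om ha)) (om_zero d)
  obtain ⟨x, hx, rfl⟩ := h.K0_to hy d0
  have k1 := h.K0_mul (h.K0_inv hx) ha (by rw [h.om_inv]; exact om_ne d1)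
  have k2 := h.K0_mul k1 hb (by rw [mul_assoc, h.om_inv]; exact om_ne d2)
  have k3 := h.K0_mul k2 hc (by rw [mul_assoc, mul_assoc, ← mul_assoc a, h.om_inv]; exact om_ne d3)
  exact ⟨x, _, hx, k3, by group⟩

/-- products of two elements of the big cell -/
def K2 : Subgroup K where
  carrier := {x | ∃ a b, h.K0 a ∧ h.K0 b ∧ x = a * b}
  one_mem' := by
    obtain ⟨x, hx, -⟩ := h.K0_to (bb_mem (i := inr m) (Set.mem_insert _ _)) (by simp [om_fe])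
    exact ⟨x, _, hx, h.K0_inv hx, by group⟩
  inv_mem' := by
    rintro _ ⟨a, b, ha, hb, rfl⟩
    exact ⟨_, _, h.K0_inv hb, h.K0_inv ha, by group⟩
  mul_mem' := by
    rintro _ _ ⟨a, b, ha, hb, rfl⟩ ⟨c, d, hc, hd, rfl⟩
    obtain ⟨x, y, hx, hy, e1⟩ := h.triple ha hb hc
    obtain ⟨x', y', hx', hy', e2⟩ := h.triple hx hy hd
    exact ⟨x', y', hx', hy', by rw [← e2, ← e1]; group⟩

theorem W_K2 : h.W ≤ h.K2 := fun x hx => by
  obtain ⟨a, b, ha, hb, e1⟩ := h.K2.one_mem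
  exact ⟨_, b, h.K0_bi hx (one_mem _) ha, hb, by rw [mul_one, mul_assoc, ← e1, mul_one]⟩

theorem S_K2 : S ≤ h.K2 := fun s hs => by
  have me : e ∈ HJ F {m} := bb_mem rfl
  obtain ⟨y, hy, d1, d2, -⟩ := three h.hF me ((h.rS.sat s hs).map (h.iso s) me) me (bb_ne _)
    (act_ne _ (bb_ne _)) (bb_ne _)
  obtain ⟨w, hw, rfl⟩ := h.S_ex hy fun c => d1 (by simp [c])
  exact ⟨w, _, h.K0_S hw d1, h.K0_S (mul_mem (inv_mem hw) hs)
    (by rw [h.om_inv]; exact om_ne d2), by group⟩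

theorem all_inj : Inj π (A ⊔ S ⊔ M) := fun x hx c => by
  obtain ⟨a, b, ha, hb, rfl⟩ := sup_le (sup_le (h.AW.trans h.W_K2) h.S_K2) (h.MW.trans h.W_K2) hx
  rw [h.K0_inj hb (h.K0_inv ha) (by rw [map_mul] at c; rw [map_inv, eq_inv_of_mul_eq_one_right c]),
    mul_inv_cancel]

theorem all_rep : Rep π (A ⊔ S ⊔ M) (Fx (insert m J)) := ⟨fun _ hx => h.fxAll hx, fun g hi hg => by
  have me : e ∈ HJ F (insert m J) := bb_mem (Set.mem_insert _ _)
  obtain ⟨y, hy, d1, d2, -⟩ := three h.hF me (hg.map hi me) me (bb_ne _)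
    (by simpa using bb_ne _) (bb_ne _)
  obtain ⟨x, hx, rfl⟩ := h.K0_to hy d1
  obtain ⟨x', hx', e1⟩ := h.K0_sur ((h.iso x).inv.mul hi)
    ((h.fxAll (h.K0_all hx) : Fx _ _).inv.mul hg)
    (by rw [LinearEquiv.mul_apply, (h.iso x).om_inv]; exact om_ne d2)
  exact ⟨_, mul_mem (h.K0_all hx) (h.K0_all hx'), by rw [map_mul, e1]; group⟩⟩

theorem all_fix {x : K} (hx : x ∈ A ⊔ S ⊔ M) (c : π x e = e) : x ∈ A ⊔ M := by
  obtain ⟨y, hy, e1⟩ := h.W_sur (h.iso x) (h.fxAll hx) c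
  exact h.all_inj.eq (h.W_all hy) hx e1 ▸ h.W_le hy

end Stp

/-- the subgroup generated by the first members of the amalgam -/
def Gam (S M : Fin n → Subgroup K) (m : ℕ) : Subgroup K :=
  (⨆ (j : Fin n) (_ : (j : ℕ) < m), S j) ⊔ ⨆ (i : Fin n) (_ : (i : ℕ) + 1 < m), M i

theorem Gam_le {S M : Fin n → Subgroup K} {m : ℕ} {X : Subgroup K}
    (h1 : ∀ j : Fin n, (j : ℕ) < m → S j ≤ X) (h2 : ∀ i : Fin n, (i : ℕ) + 1 < m → M i ≤ X) :
    Gam S M m ≤ X := sup_le (iSup₂_le h1) (iSup₂_le h2)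

theorem S_le {S M : Fin n → Subgroup K} {m : ℕ} {j : Fin n} (h : (j : ℕ) < m) :
    S j ≤ Gam S M m := le_sup_of_le_left (le_iSup₂_of_le j h le_rfl)

theorem M_le {S M : Fin n → Subgroup K} {m : ℕ} {i : Fin n} (h : (i : ℕ) + 1 < m) :
    M i ≤ Gam S M m := le_sup_of_le_right (le_iSup₂_of_le i h le_rfl)

theorem Gam_succ (S M : Fin n → Subgroup K) {p m : Fin n} (h : (p : ℕ) + 1 = m) :
    Gam S M (m + 1) = Gam S M m ⊔ S m ⊔ M p := by
  refine le_antisymm (Gam_le (fun j hj => ?_) fun i hi => ?_) (sup_le (sup_le (Gam_le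
    (fun j hj => S_le (by omega)) fun i hi => M_le (by omega)) (S_le (by omega))) (M_le (by omega)))
  · by_cases c : j = m
    · exact c ▸ le_sup_of_le_left le_sup_right
    · exact le_sup_of_le_left (le_sup_of_le_left (S_le (by have := Fin.val_ne_of_ne c; omega)))
  · by_cases c : i = p
    · exact c ▸ le_sup_right
    · exact le_sup_of_le_left (le_sup_of_le_left (M_le (by have := Fin.val_ne_of_ne c; omega)))

theorem main (hF : ∃ a : F, a ≠ 0 ∧ a ≠ 1) (iso : ∀ k, Iso (π k)) (S M : Fin n → Subgroup K)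
    (rS : ∀ j, Rep π (S j) (Fx {j}))
    (rM : ∀ p m : Fin n, (p : ℕ) + 1 = m → Rep π (M p) (MP p m))
    (iSS : ∀ j l, j ≠ l → Inj π (S j ⊔ S l))
    (iMM : ∀ i i' : Fin n, i ≠ i' → (i : ℕ) + 1 < n → (i' : ℕ) + 1 < n → Inj π (M i ⊔ M i'))
    (iMS : ∀ i j : Fin n, (i : ℕ) + 1 < n → Inj π (M i ⊔ S j)) (hn : 2 ≤ n) (k : ℕ) (hk : k < n) :
    Inj π (Gam S M (k + 1)) ∧ Rep π (Gam S M (k + 1)) (Fx {j | (j : ℕ) < k + 1}) ∧
      ∀ p : Fin n, (p : ℕ) = k → k + 1 < n → ∀ a ∈ Gam S M (k + 1),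
        π a (bb (inl p)) = bb (inl p) → ∀ x ∈ M p, Commute a x := by
  have cMM : ∀ i i' : Fin n, (i : ℕ) + 1 < n → (i' : ℕ) + 1 < n → ∀ a ∈ M i, ∀ x ∈ M i',
      Commute a x := fun i i' hi hi' a ha x hx => by
    have c := ((rM i ⟨_, hi⟩ rfl).sat a ha).fe.comm ((rM i' ⟨_, hi'⟩ rfl).sat x hx).fe (iso _) (iso _)
    by_cases d : i = i'
    · subst d
      exact (iMS i i hi).comm (Subgroup.mem_sup_left ha) (Subgroup.mem_sup_left hx) c
    · exact (iMM i i' d hi hi').comm (Subgroup.mem_sup_left ha) (Subgroup.mem_sup_right hx) c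
  have cMS : ∀ i j : Fin n, (hi : (i : ℕ) + 1 < n) → (j : ℕ) ≠ i → (j : ℕ) ≠ i + 1 → ∀ a ∈ M i,
      ∀ s ∈ S j, Commute a s := fun i j hi h1 h2 a ha s hs =>
    (iMS i j hi).comm (Subgroup.mem_sup_left ha) (Subgroup.mem_sup_right hs)
      (((rM i ⟨_, hi⟩ rfl).sat a ha).1.comm (by simp [Fin.ext_iff, h1, h2]) ((rS j).sat s hs)
        (iso _) (iso _))
  have cSS : ∀ j l, j ≠ l → ∀ a ∈ S j, ∀ s ∈ S l, Commute a s := fun j l d a ha s hs =>
    (iSS j l d).comm (Subgroup.mem_sup_left ha) (Subgroup.mem_sup_right hs)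
      (((rS j).sat a ha).comm (by simpa using d) ((rS l).sat s hs) (iso _) (iso _))
  have cen : ∀ {X Y : Subgroup K}, X ≤ Subgroup.centralizer (Y : Set K) ↔
      ∀ a ∈ X, ∀ s ∈ Y, Commute a s :=
    ⟨fun h a ha s hs => (h ha s hs).symm, fun h a ha s hs => (h a ha s hs).symm⟩
  induction k with
  | zero =>
    have e1 : Gam S M (0 + 1) = S ⟨0, hk⟩ := le_antisymm (Gam_le (fun j hj => by
      obtain rfl : j = ⟨0, hk⟩ := Fin.ext (by simpa using hj)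
      exact le_rfl) fun i hi => by omega) (S_le (by simp))
    have e2 : {j : Fin n | (j : ℕ) < 0 + 1} = {⟨0, hk⟩} := by ext j; simp [Fin.ext_iff]
    rw [e1, e2]
    have i0 := iMS ⟨0, hk⟩ ⟨0, hk⟩ (show 0 + 1 < n by omega)
    refine ⟨fun x hx => i0 x (Subgroup.mem_sup_right hx), rS _, fun p hp h1 a ha c x hx => ?_⟩
    obtain rfl : p = ⟨0, hk⟩ := Fin.ext hp
    obtain ⟨y, hy, e3⟩ := (rM ⟨0, hk⟩ ⟨1, h1⟩ rfl).sur _ (iso a)
      ⟨((rS _).sat a ha).mono (by simp), c, (rS _).sat a ha _ (bb_mem (by simp))⟩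
    exact i0.eq (Subgroup.mem_sup_left hy) (Subgroup.mem_sup_right ha) e3 ▸ cMM _ _ h1 h1 y hy x hx
  | succ k ih =>
    obtain ⟨i1, i2, i3⟩ := ih (by omega)
    let p : Fin n := ⟨k, by omega⟩
    let m : Fin n := ⟨k + 1, hk⟩
    have pm : p ≠ m := by simp [p, m]
    have o : om (bb (inl p) : VV n F) (bb (inl m)) = 0 := by rw [om_inl]; simp [bb]
    obtain ⟨g, g1, g2⟩ := exists_Ev o 0
    obtain ⟨u, hu, rfl⟩ := (rM p m rfl).sur g g1 ⟨g2.fx (bb_mem (by simp)) (bb_mem (by simp)),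
      g2.fix (om_self _) o, g2.fix (om_zero o) (om_self _)⟩
    have h : Stp π {j | (j : ℕ) < k + 1} p m (Gam S M (k + 1)) (S m) (S p) (M p) u :=
      ⟨hF, iso, by simp [p], by simp [m], i2, i1, rS m, rS p, S_le (by simp [p]), rM p m rfl,
        iMS p m hk, iMS p p hk, cen.1 (Gam_le
          (fun j hj => cen.2 (cSS j m (fun c => by simp [c, m] at hj)))
          fun i hi => cen.2 (cMS i m (by omega) (by simp [m]; omega) (by simp [m]; omega))),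
        i3 p rfl hk, hu, g2⟩
    have e1 : Gam S M (k + 1 + 1) = Gam S M (k + 1) ⊔ S m ⊔ M p := Gam_succ S M (p := p) (m := m) rfl
    have e2 : {j : Fin n | (j : ℕ) < k + 1 + 1} = insert m {j : Fin n | (j : ℕ) < k + 1} := by
      ext j; simp [Fin.ext_iff, m]; omega
    rw [e1, e2]
    refine ⟨h.all_inj, h.all_rep, fun q hq h1 a ha c => ?_⟩
    obtain rfl : q = m := Fin.ext hq
    refine cen.1 (sup_le (Gam_le (fun j hj => cen.2 fun a ha s hs => ?_)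
      fun i hi => cen.2 (cMM i _ (by omega) h1)) (cen.2 (cMM p _ hk h1))) a (h.all_fix ha c)
    exact (cMS m j h1 (by simp [m]; omega) (by simp [m]; omega) s hs a ha).symm

end Lead.SpA
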