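import Cfsg.Agent.Lead.SpA3

/-! Amalgam for `Sp(2n, F)`, part 4: graphs. -/

set_option autoImplicit false
set_option linter.unusedSectionVars false
set_option maxHeartbeats 400000

namespace Lead.SpA
open Sum

variable {n : ℕ} {F : Type*} [Field F] {H : Type*} [Group H]

local notation "G" => Matrix.symplecticGroup (Fin n) F

variable (n F) in
/-- the natural representation -/
noncomputable def p0 : G →* (VV n F ≃ₗ[F] VV n F) := H23.matE (Cfsg.spToMat n F)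

variable (n F H) in
/-- the representation of the product -/
noncomputable def p1 : G × H →* (VV n F ≃ₗ[F] VV n F) := (p0 n F).comp (MonoidHom.fst _ _)

/-- graph of a partial homomorphism -/
def gr {X : Subgroup G} (φ : X →* H) : Subgroup (G × H) := (X.subtype.prod φ).range

theorem mem_gr {X : Subgroup G} {φ : X →* H} {x : G × H} :
    x ∈ gr φ ↔ ∃ h : x.1 ∈ X, φ ⟨x.1, h⟩ = x.2 :=
  ⟨by rintro ⟨g, rfl⟩; exact ⟨g.2, rfl⟩, fun ⟨h, e⟩ => ⟨⟨x.1, h⟩, Prod.ext rfl e⟩⟩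

theorem p0_inj : Function.Injective (p0 n F) := H23.matE_sp_injective n

theorem p1_iso (k : G × H) : Iso (p1 n F H k) := (H23.matE_sp_mem k.1).1

theorem gr_inj {X Y : Subgroup G} {φ : X →* H} {ψ : Y →* H} (h : ∃ Ψ : ↥(X ⊔ Y) →* H,
    (∀ (g : G) (hg : g ∈ X), Ψ ⟨g, Subgroup.mem_sup_left hg⟩ = φ ⟨g, hg⟩) ∧
      ∀ (g : G) (hg : g ∈ Y), Ψ ⟨g, Subgroup.mem_sup_right hg⟩ = ψ ⟨g, hg⟩) :
    Inj (p1 n F H) (gr φ ⊔ gr ψ) := fun x hx c => by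
  obtain ⟨Ψ, h1, h2⟩ := h
  have l : gr φ ⊔ gr ψ ≤ gr Ψ := sup_le (fun x hx => by
    obtain ⟨m, e⟩ := mem_gr.1 hx
    exact mem_gr.2 ⟨_, (h1 _ m).trans e⟩) fun x hx => by
    obtain ⟨m, e⟩ := mem_gr.1 hx
    exact mem_gr.2 ⟨_, (h2 _ m).trans e⟩
  obtain ⟨g, rfl⟩ := l hx
  have : (g : G) = 1 := p0_inj (c.trans (map_one _).symm)
  rw [show g = 1 from Subtype.ext this, map_one]

theorem gr_rep {X : Subgroup G} (φ : X →* H) {P : (VV n F ≃ₗ[F] VV n F) → Prop}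
    (h : ∀ g, g ∈ X ↔ P (p0 n F g)) : Rep (p1 n F H) (gr φ) P :=
  ⟨fun x hx => (h _).1 (mem_gr.1 hx).1, fun g hi hg => by
    obtain ⟨A, rfl⟩ := H23.exists_matE_sp_eq (g := g) ⟨hi, fun _ => rfl⟩
    exact ⟨(A, φ ⟨A, (h A).2 hg⟩), mem_gr.2 ⟨_, rfl⟩, rfl⟩⟩

theorem final {S M : Fin n → Subgroup G} (σ : ∀ j, S j →* H) (μ : ∀ i, M i →* H)
    (h1 : Inj (p1 n F H) (Gam (fun j => gr (σ j)) (fun i => gr (μ i)) n))
    (h2 : Rep (p1 n F H) (Gam (fun j => gr (σ j)) (fun i => gr (μ i)) n) (Fx {j | (j : ℕ) < n})) :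
    ∃! Φ : G →* H, (∀ (j : Fin n) (g : G) (hg : g ∈ S j), Φ g = σ j ⟨g, hg⟩) ∧
      ∀ i : Fin n, (i : ℕ) + 1 < n → ∀ (g : G) (hg : g ∈ M i), Φ g = μ i ⟨g, hg⟩ := by
  set Γ := Gam (fun j => gr (σ j)) (fun i => gr (μ i)) n
  have sur : ∀ g : G, ∃ x ∈ Γ, x.1 = g := fun g => by
    obtain ⟨x, hx, e⟩ := h2.sur (p0 n F g) (H23.matE_sp_mem g).1 (Fx_iff.2 fun i hi =>
      (hi (ix i).2).elim)
    exact ⟨x, hx, p0_inj e⟩
  let ε : Γ ≃* G := MulEquiv.ofBijective ((MonoidHom.fst _ _).comp Γ.subtype)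
    ⟨fun a b e => Subtype.ext (h1.eq a.2 b.2 (congrArg (p0 n F) e)),
      fun g => by obtain ⟨x, hx, e⟩ := sur g; exact ⟨⟨x, hx⟩, e⟩⟩
  let Φ : G →* H := ((MonoidHom.snd _ _).comp Γ.subtype).comp ε.symm.toMonoidHom
  have k : ∀ x ∈ Γ, Φ x.1 = x.2 := fun x hx =>
    congrArg (fun y : Γ => y.1.2) (ε.symm_apply_apply ⟨x, hx⟩)
  refine ⟨Φ, ⟨fun j g hg => k (g, σ j ⟨g, hg⟩) (S_le j.2 (mem_gr.2 ⟨hg, rfl⟩)),
    fun i hi g hg => k (g, μ i ⟨g, hg⟩) (M_le hi (mem_gr.2 ⟨hg, rfl⟩))⟩, fun Ψ hΨ => ?_⟩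
  have l : Γ ≤ MonoidHom.eqLocus (Ψ.comp (MonoidHom.fst _ _)) (MonoidHom.snd _ _) :=
    Gam_le (fun j _ x hx => by
      obtain ⟨m, e⟩ := mem_gr.1 hx
      exact (hΨ.1 j _ m).trans e) fun i hi x hx => by
      obtain ⟨m, e⟩ := mem_gr.1 hx
      exact (hΨ.2 i hi _ m).trans e
  ext g
  obtain ⟨x, hx, rfl⟩ := sur g
  exact (l hx).trans (k x hx).symm

theorem mem_closure_iff {s : Set G} {Y : Subgroup G} (h : ∀ g, g ∈ s ↔ g ∈ Y) (g : G) :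
    g ∈ Subgroup.closure s ↔ g ∈ Y := by
  rw [show s = Y from Set.ext h, Subgroup.closure_eq]

end Lead.SpA
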