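import Cfsg.Agent.H24.TwPack
import Cfsg.Agent.H24.Facts

/-! Normal subgroups of a Borel subgroup inside `U`; weakly closed unipotent subgroups. -/

set_option autoImplicit false
set_option linter.unusedSectionVars false

namespace Lead.WC
open Subgroup H24 Cfsg.Lie

section
variable {ι Φ : Type} [Fintype ι] [DecidableEq ι] [Fintype Φ] [DecidableEq Φ] {R : CD ι Φ} {F : Type*} [Field F]
  [Fintype F] {G : Type*} [Group G] (S : St R F G)

theorem full {Y : Subgroup G} (hY : S.H ≤ normalizer (Y : Set G)) {r : Φ} {s : F} (hs : s ≠ 0) (h : S.x r s ∈ Y)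
    (t : F) : S.x r t ∈ Y := by
  have k : ∀ u : F, S.x r (u ^ 2 * s) ∈ Y := fun u => by
    by_cases hu : u = 0
    · simp [hu]
    · have := (mem_normalizer_iff.1 (hY (S.h_mem (r := r) hu)) _).1 h
      rwa [S.h_conj _ _ hu, R.A_self, zpow_ofNat] at this
  by_cases h2 : (2 : F) = 0
  · obtain ⟨u, hu⟩ := FiniteField.isSquare_of_char_two (CharP.ringChar_of_prime_eq_zero Nat.prime_two
      (by exact_mod_cast h2)) (t / s)
    convert k u using 2; rw [sq, ← hu, div_mul_cancel₀ _ hs]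
  · have := Y.mul_mem (k ((t / s + 1) / 2)) (Y.inv_mem (k ((t / s - 1) / 2)))
    rw [← S.x_neg, ← S.x_add] at this
    convert this using 2; field_simp; ring

variable (R) in
def Hi (γ : Φ) : Set Φ := {δ | R.Pos δ ∧ R.ht γ ≤ R.ht δ ∧ δ ≠ γ}
def E (X : Subgroup G) (γ : Φ) : Prop := ∀ t, S.x γ t ∈ X
def L (X : Subgroup G) (γ : Φ) : Prop := ∃ t, t ≠ 0 ∧ S.x γ t ∈ S.XS (Hi R γ) ⊔ X
variable (R F) in
def Sep (γ δ : Φ) : Prop := ∃ r, R.A r γ = 0 ∧ R.A r δ ≠ 0 ∧ |R.A r δ| < Fintype.card F - 1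

theorem ht_comb {r s u : Φ} {i j : ℕ} (e : R.rt u = (i : ℤ) • R.rt r + (j : ℤ) • R.rt s) :
    R.ht u = i * R.ht r + j * R.ht s := RS.f_comb (f := RS.htv) e

theorem norm_up {T : Set Φ} (hT : ∀ δ ∈ T, R.Pos δ ∧ ∀ u, R.ht δ < R.ht u → u ∈ T) :
    S.U ≤ normalizer (S.XS T : Set G) := S.XS_le_normalizer fun r hr s hs => by
  have h1 := R.ht_pos hr
  have h2 := R.ht_pos (hT s hs).1
  exact ⟨RS.ne_neg_of_pos (f := RS.htv) h1 h2, fun u i j hi hj e => (hT s hs).2 u (by rw [ht_comb e]; nlinarith)⟩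

theorem up_Hi (γ : Φ) : ∀ δ ∈ Hi R γ, R.Pos δ ∧ ∀ u, R.ht δ < R.ht u → u ∈ Hi R γ := fun δ h =>
  ⟨h.1, fun u hu => ⟨(R.pos_iff_ht u).2 ((R.ht_pos h.1).trans hu), h.2.1.trans hu.le,
    fun e => absurd h.2.1 (e ▸ hu.not_ge)⟩⟩

variable {S} {X : Subgroup G} (hX : X ≤ S.U) (hB : S.B ≤ normalizer (X : Set G))
include hX hB

theorem ext_aux {γ : Φ} {t : F} (n : ℕ) : ∀ T : Set Φ, T.ncard = n → (∀ δ ∈ T, R.Pos δ ∧ ∀ u, R.ht δ < R.ht u → u ∈ T) →
    (∀ δ ∈ T, Sep R F γ δ ∨ E S X δ) → S.x γ t ∈ S.XS T ⊔ X → S.x γ t ∈ X := by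
  induction n with
  | zero => intro T h _ _ H; rwa [(Set.ncard_eq_zero).1 h, S.XS_empty, bot_sup_eq] at H
  | succ n ih =>
    intro T h hT hs H
    obtain ⟨δ, hδ, hm⟩ := Set.exists_min_image T R.ht T.toFinite (Set.nonempty_of_ncard_ne_zero (by omega))
    have hT' : ∀ a ∈ T \ {δ}, R.Pos a ∧ ∀ u, R.ht a < R.ht u → u ∈ T \ {δ} := fun a ha =>
      ⟨(hT a ha.1).1, fun u hu => ⟨(hT a ha.1).2 u hu, fun e => absurd (hm a ha.1) (e ▸ hu.not_ge)⟩⟩
    refine ih (T \ {δ}) (by rw [Set.ncard_diff_singleton_of_mem hδ]; omega) hT' (fun a ha => hs a ha.1) ?_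
    have hN := norm_up S hT'
    have e : S.XS T = S.XS (T \ {δ}) ⊔ S.XS {δ} := by
      rw [← S.XS_union, Set.diff_union_of_subset (Set.singleton_subset_iff.2 hδ)]
    have hδU : ∀ s, S.x δ s ∈ S.U := S.x_mem_U (hT δ hδ).1
    obtain ⟨z, hz, b, hb, e1⟩ := (mem_sup_of_le_normalizer (hX.trans (norm_up S hT))).1 H
    obtain ⟨m, hm, _, hy, rfl⟩ := (mem_sup_of_le_normalizer
      ((S.XS_le (T := {δ}).2 (by rintro _ rfl; exact hδU)).trans hN)).1 (e ▸ hz)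
    obtain ⟨s, rfl⟩ := S.mem_XS_singleton.1 hy
    suffices S.x δ s ∈ S.XS (T \ {δ}) ⊔ X from
      e1 ▸ mul_mem (mul_mem (mem_sup_left hm) this) (mem_sup_right hb)
    by_cases hs0 : s = 0
    · simp [hs0]
    rcases hs δ hδ with ⟨r, h1, h2, h3⟩ | hE
    swap
    · exact mem_sup_right (hE s)
    obtain ⟨ζ, hζ⟩ := IsCyclic.exists_ofOrder_eq_natCard (α := Fˣ)
    have hc : (ζ : F) ^ R.A r δ ≠ 1 := fun e => by
      rw [← Units.val_zpow_eq_zpow_val, Units.val_eq_one, ← orderOf_dvd_iff_zpow_eq_one, hζ, Nat.card_units,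
        Nat.card_eq_fintype_card, Nat.cast_sub Fintype.card_pos] at e
      exact absurd (Int.le_of_dvd (abs_pos.2 h2) ((dvd_abs _ _).2 e)) h3.not_ge
    have hh := S.h_mem (r := r) ζ.ne_zero
    have k1 := S.h_conj r γ ζ.ne_zero t
    have k2 := S.h_conj r δ ζ.ne_zero s
    rw [h1, zpow_zero, one_mul] at k1
    have k3 := (mem_normalizer_iff.1 (S.H_le_normalizer _ hh) m).1 hm
    have k4 := (mem_normalizer_iff.1 (hB (S.H_le_B hh)) b).1 hb
    refine full S (fun g hg => normalizer_inf_normalizer_le_normalizer_sup _ _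
      ⟨S.H_le_normalizer _ hg, hB (S.H_le_B hg)⟩) (mul_ne_zero (sub_ne_zero.2 hc) hs0) ?_ s
    rw [sub_mul, one_mul, sub_eq_add_neg, S.x_add, S.x_neg, ← k2]
    generalize S.h r ζ = g at *
    have k5 := (mem_normalizer_iff.1 (hN (hδU s)) _).1
      ((mem_normalizer_iff''.1 (hN (hδU s)) _).1 (mul_mem (inv_mem k3) hm))
    have k6 := (mem_normalizer_iff.1 (hB (S.U_le_B (hδU s))) _).1 (mul_mem hb (inv_mem k4))
    convert mul_mem (mem_sup_left k5) (mem_sup_right k6) using 1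
    rw [e1] at k1
    rw [show g * b * g⁻¹ = (g * (m * S.x δ s) * g⁻¹)⁻¹ * (g * (m * S.x δ s * b) * g⁻¹) by group, k1]; group

theorem D2 {γ : Φ} (h : L S X γ) (hs : ∀ δ ∈ Hi R γ, Sep R F γ δ ∨ E S X δ) : E S X γ := by
  obtain ⟨t, ht, h⟩ := h
  exact full S (S.H_le_B.trans hB) ht (ext_aux hX hB _ _ rfl (up_Hi γ) hs h)

theorem D1 {i : ι} (h : ¬ X ≤ S.XS (Hi R (R.sim i))) : L S X (R.sim i) := by
  obtain ⟨x, hx, h⟩ := SetLike.not_le_iff_exists.1 h
  obtain ⟨a, ha, b, hb, rfl⟩ := S.exists_mul_of_part (f := RS.htv) RS.closed_pos (fun r hr => R.ht_pos hr)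
    (· ≠ R.sim i) (hX hx)
  have ha' : a ∈ S.XS (Hi R (R.sim i)) := S.XS_mono (fun r hr => by
    exact ⟨hr.1, R.ht_sim i ▸ R.ht_pos hr.1, hr.2⟩) ha
  obtain ⟨t, rfl⟩ := S.mem_XS_singleton.1 (S.XS_mono (fun r hr => not_not.1 hr.2) hb)
  refine ⟨t, fun e => h (by simpa [e] using ha'), ?_⟩
  simpa using mul_mem (mem_sup_left (inv_mem ha')) (mem_sup_right hx)

omit hX hB in
theorem isolate {Y : Subgroup G} {a b γ : Φ} (ha : R.Pos a) (hb : R.Pos b) (hab : b ≠ a) {l1 l2 : List (Φ × ℤ × ℕ × ℕ)}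
    {c : ℤ} {j k : ℕ} (e : R.terms a b = l1 ++ (γ, c, j, k) :: l2) {t u : F}
    (h : ∀ y ∈ l1 ++ l2, (∀ s, S.x y.1 s ∈ Y) ∨ (y.2.1 : F) = 0)
    (H : (S.x b u)⁻¹ * (S.x a t)⁻¹ * S.x b u * S.x a t ∈ Y) : S.x γ (c * (-t) ^ j * u ^ k) ∈ Y := by
  rw [mul_assoc, S.comm a b t u hab (RS.ne_neg_of_pos (f := RS.htv) (R.ht_pos ha) (R.ht_pos hb)), mul_assoc,
    mul_assoc, inv_mul_cancel_left, inv_mul_cancel_left, e, List.map_append, List.map_cons, List.prod_append,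
    List.prod_cons] at H
  have k : ∀ l : List (Φ × ℤ × ℕ × ℕ), (∀ y ∈ l, y ∈ l1 ++ l2) →
      (l.map fun c => S.x c.1 ((c.2.1 : F) * (-t) ^ c.2.2.1 * u ^ c.2.2.2)).prod ∈ Y := fun l hl =>
    Subgroup.list_prod_mem _ fun g hg => by
      obtain ⟨y, hy, rfl⟩ := List.mem_map.1 hg
      exact (h y (hl y hy)).elim (fun h => h _) fun h => by simp [h]
  exact (mul_mem_cancel_right (k l2 fun y => List.mem_append_right _)).1
    ((mul_mem_cancel_left (k l1 fun y => List.mem_append_left _)).1 H)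

theorem D3 {a b γ : Φ} (ha : R.Pos a) (hb : R.Pos b) (hab : b ≠ a) {l1 l2 : List (Φ × ℤ × ℕ × ℕ)}
    {c : ℤ} {j k : ℕ} (e : R.terms a b = l1 ++ (γ, c, j, k) :: l2) (hc : (c : F) ≠ 0) (hE : E S X a ∨ E S X b)
    (h : ∀ y ∈ l1 ++ l2, E S X y.1 ∨ y.1 ∈ Hi R γ ∨ (y.2.1 : F) = 0) : L S X γ := by
  refine ⟨_, ?_, isolate (t := -1) (u := 1) ha hb hab e (fun y hy => ?_) (mem_sup_right ?_)⟩
  · simpa using hc
  · rcases h y hy with h | h | h
    exacts [Or.inl fun s => mem_sup_right (h s), Or.inl fun s => mem_sup_left (S.x_mem h s), Or.inr h]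
  · rcases hE with h | h
    · exact mul_mem ((mem_normalizer_iff''.1 (hB (S.x_mem_B hb _)) _).1 (inv_mem (h _))) (h _)
    · rw [mul_assoc, mul_assoc, ← mul_assoc _ (S.x b 1)]
      exact mul_mem (inv_mem (h _)) ((mem_normalizer_iff''.1 (hB (S.x_mem_B ha _)) _).1 (h _))

theorem D4 {a b γ : Φ} (ha : R.Pos a) (hb : R.Pos b) (hab : b ≠ a) {l : List (Φ × ℤ × ℕ × ℕ)}
    {c : ℤ} (e : R.terms a b = (γ, c, 1, 1) :: l) (hc : (c : F) ≠ 0) (hL : L S X a)
    (h : ∀ y ∈ l, y.1 ∈ Hi R γ) : L S X γ := by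
  obtain ⟨t, ht, H⟩ := hL
  obtain ⟨z, hz, x, hx, e1⟩ := (mem_sup_of_le_normalizer (hX.trans (norm_up S (up_Hi a)))).1 H
  refine ⟨_, ?_, isolate (t := t) (u := 1) (l1 := []) ha hb hab e
    (fun y hy => Or.inl fun s => mem_sup_left (S.x_mem (h y hy) s)) ?_⟩
  · simpa [ht] using hc
  have hγ : R.rt γ = R.rt a + R.rt b := by
    simpa using (R.terms_rt a b (γ, c, 1, 1) (by rw [e]; exact List.mem_cons_self)).1
  have h4 : R.ht γ = R.ht a + R.ht b := by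
    simpa using ht_comb (R := R) (u := γ) (r := a) (s := b) (i := 1) (j := 1) (by simpa using hγ)
  have k : ∀ r ∈ Hi R a, ∀ v (i j : ℕ), 0 < i → 0 < j → R.rt v = (i : ℤ) • R.rt r + (j : ℤ) • R.rt b →
      v ∈ Hi R γ := fun r hr v i j hi hj e => by
    have h0 := R.ht_pos ha
    have h2 := R.ht_pos hb
    have h3 := ht_comb e
    have h5 := hr.2.1
    obtain ⟨i, rfl⟩ := Nat.exists_eq_add_one_of_ne_zero hi.ne'
    obtain ⟨j, rfl⟩ := Nat.exists_eq_add_one_of_ne_zero hj.ne'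
    push_cast at h3
    have h6 : 0 ≤ (i : ℤ) * R.ht r := by positivity [h0.trans_le h5]
    have h7 : 0 ≤ (j : ℤ) * R.ht b := by positivity
    refine ⟨(R.pos_iff_ht v).2 (by linarith), by linarith, ?_⟩
    rintro rfl
    obtain rfl : i = 0 := by
      have : (i : ℤ) * R.ht r = 0 := by linarith
      simpa [(h0.trans_le h5).ne'] using this
    obtain rfl : j = 0 := by
      have : (j : ℤ) * R.ht b = 0 := by linarith
      simpa [h2.ne'] using this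
    exact hr.2.2 (R.rt_inj (by simpa [hγ] using e.symm))
  have h1 : (S.x b 1)⁻¹ * z⁻¹ * S.x b 1 * z ∈ S.XS (Hi R γ) :=
    comm_mem_of_closure (M := S.XS (Hi R γ)) (A := {g | ∃ r ∈ Hi R a, ∃ t, g = S.x r t})
    (B := {g | ∃ r ∈ ({b} : Set Φ), ∃ t, g = S.x r t})
    ((S.XS_mono fun _ h => h.1).trans (norm_up S (up_Hi γ)))
    ((S.XS_mono (by rintro _ rfl; exact hb)).trans (norm_up S (up_Hi γ))) (by
      rintro _ ⟨r, hr, t, rfl⟩ _ ⟨_, rfl, u, rfl⟩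
      exact S.comm_x_mem (RS.ne_neg_of_pos (f := RS.htv) (R.ht_pos hr.1) (R.ht_pos hb)) (k r hr) _ _)
      z hz _ (subset_closure ⟨b, rfl, 1, rfl⟩)
  have h2 := (mem_normalizer_iff''.1 (hB (S.x_mem_B hb 1)) _).1 (inv_mem hx)
  convert mul_mem (mul_mem (mem_sup_right h2) (mem_sup_left h1)) (mem_sup_right hx) using 1
  rw [e1]; group

variable (R) in
/-- every positive nonsimple root is an isolated term of a commutator of positive roots -/
def Gen : Prop := ∀ γ, R.Pos γ → (∃ i, γ = R.sim i) ∨ ∃ a b, R.Pos a ∧ R.Pos b ∧ b ≠ a ∧ ∃ c ∈ R.terms a b, c.1 = γ ∧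
  (c.2.1 = 1 ∨ c.2.1 = -1) ∧ ((R.terms a b).map fun y => R.ht y.1).Nodup

theorem asc (hg : Gen R) (hs : ∀ γ, R.Pos γ → ∀ δ ∈ Hi R γ, Sep R F γ δ ∨ E S X δ) {i : ι} (h : L S X (R.sim i)) (n : ℕ) :
    ∀ γ, R.ht γ < n → R.Pos γ → 0 < R.rt γ i → E S X γ := by
  induction n with
  | zero => exact fun γ h1 h2 => absurd (R.ht_pos h2) (by omega)
  | succ n ih =>
    intro γ h1 h2 h3
    refine D2 hX hB ?_ (hs γ h2)
    rcases hg γ h2 with ⟨k, rfl⟩ | ⟨a, b, ha, hb, hab, ⟨γ', c, j, k⟩, hc, hγ, hc', hn⟩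
    · obtain rfl : i = k := by
        by_contra e; simp [R.rt_sim, Pi.single_eq_of_ne e] at h3
      exact h
    obtain rfl : γ = γ' := hγ.symm
    have k0 : ∀ y ∈ R.terms a b, R.ht a < R.ht y.1 ∧ R.ht b < R.ht y.1 ∧
        (0 < R.rt y.1 i ↔ 0 < R.rt a i ∨ 0 < R.rt b i) := fun y hy => by
      obtain ⟨e, e1, e2⟩ := R.terms_rt a b y hy
      have := ht_comb e
      have := R.ht_pos ha
      have := R.ht_pos hb
      refine ⟨by nlinarith, by nlinarith, ?_⟩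
      have := ha i
      have := hb i
      rw [e]
      refine ⟨fun h => by_contra fun h' => ?_, fun h => ?_⟩
      · rw [not_or] at h'
        simp [le_antisymm (not_lt.1 h'.1) (ha i), le_antisymm (not_lt.1 h'.2) (hb i)] at h
      · change 0 < (y.2.2.1 : ℤ) * R.rt a i + y.2.2.2 * R.rt b i
        rcases h with h | h <;> positivity
    obtain ⟨l1, l2, e⟩ := List.append_of_mem hc
    have k1 := k0 _ hc
    dsimp only at k1
    refine D3 hX hB ha hb hab e (by rcases hc' with h | h <;> simp only at h <;> simp [h])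
      ((k1.2.2.1 h3).imp (ih a (by omega) ha) (ih b (by omega) hb)) fun y hy => ?_
    have hy' : y ∈ R.terms a b := by
      rw [e]; simp only [List.mem_append, List.mem_cons] at hy ⊢; tauto
    have k2 := k0 y hy'
    have hp : R.Pos y.1 := (R.pos_iff_ht _).2 ((R.ht_pos ha).trans k2.1)
    rw [e, List.map_append, List.map_cons, List.nodup_middle, List.nodup_cons, ← List.map_append] at hn
    rcases lt_trichotomy (R.ht y.1) (R.ht γ) with h | h | h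
    · exact Or.inl (ih _ (by omega) hp (k2.2.2.2 (k1.2.2.1 h3)))
    · exact absurd (List.mem_map.2 ⟨y, hy, h⟩) hn.1
    · exact Or.inr (Or.inl ⟨hp, h.le, fun e => h.ne' (congrArg _ e)⟩)

omit hB in
theorem main (hw : ∀ g ∈ S.Gr, X.map (MulAut.conj g).toMonoidHom ≤ S.U → X.map (MulAut.conj g).toMonoidHom = X)
    (hg : Gen R) (hs : S.B ≤ normalizer (X : Set G) → ∀ i, L S X (R.sim i) →
      ∀ γ, R.Pos γ → ∀ δ ∈ Hi R γ, Sep R F γ δ ∨ E S X δ) :
    ∃ J, X = S.UJ J := by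
  have k : ∀ g ∈ S.Gr, (∀ x ∈ X, g * x * g⁻¹ ∈ S.U) → g ∈ normalizer (X : Set G) := fun g hg h =>
    mem_normalizer_iff_map_conj_eq.2 (hw g hg (by rintro _ ⟨x, hx, rfl⟩; exact h x hx))
  have hB : S.B ≤ normalizer (X : Set G) := fun g hg => k g (S.B_le_Gr hg) fun x hx =>
    (mem_normalizer_iff.1 (S.B_le_normalizer_U hg) x).1 (hX hx)
  set J := {i | X ≤ S.XS (Hi R (R.sim i))}
  refine ⟨J, le_antisymm (fun x hx => ?_) (S.XS_le.2 fun γ hγ => ?_)⟩
  · obtain ⟨n, hn, hr⟩ := S.exists_N_rep (RS.wL_W J)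
    have h1 : n ∈ normalizer (X : Set G) := (sup_le (S.H_le_B.trans hB) ((closure_le _).2 (by
      rintro _ ⟨j, hj, rfl⟩
      exact k _ (S.N_le_Gr (S.n_mem one_ne_zero)) fun x hx => (S.n_rep_s j one_ne_zero).conj_mem
        (T' := {r | R.Pos r}) (fun r hr => R.pos_s hr.1 hr.2.2) x (hj hx))) : _ ≤ _)
      (S.mem_of_rep_WJ (RS.wL_mem J) hn hr)
    obtain ⟨a, ha, b, hb, rfl⟩ := S.exists_mul_of_part (f := RS.htv) RS.closed_pos (fun r hr => R.ht_pos hr)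
      (¬ R.InJ J ·) (hX hx)
    have h2 : n * a * n⁻¹ ∈ S.U := hr.conj_mem (T' := {r | R.Pos r})
      (fun r h => (RS.pos_iff_of_mem_WJ (RS.wL_mem J) h.2).2 h.1) a ha
    have h3 : n * b * n⁻¹ ∈ S.V := hr.conj_mem (T' := {r | ¬ R.Pos r})
      (fun r h => RS.wL_neg (not_not.1 h.2) h.1) b hb
    have h4 := S.eq_one_of_mem_U_V (by
      convert mul_mem (inv_mem h2) (hX ((mem_normalizer_iff.1 h1 _).1 hx)) using 1; group) h3
    rwa [conj_eq_one_iff.1 h4, mul_one]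
  · obtain ⟨i, hi, h⟩ := RS.exists_rt_pos hγ.1 hγ.2
    have := D1 hX hB hi
    exact asc hX hB hg (hs hB i this) this ((R.ht γ).toNat + 1) γ (by omega) hγ.1 h

end

noncomputable def tht (T : Tab) (r : ℕ) : ℤ := sumLt T.l (T.rtv r)
noncomputable def okG (T : Tab) (g a b : ℕ) : Bool := band (Nat.blt a T.n) <| band (bnot (Nat.beq b a)) <|
  band ((gTerms T.chain a b).any fun c => decide (c.1 = g ∧ (c.2.1 = 1 ∨ c.2.1 = -1))) <|
  band (ile 1 (tht T a)) <| decide (((gTerms T.chain a b).map fun y => tht T y.1).Nodup)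
noncomputable def chkG (T : Tab) : Bool := allLt T.n fun g => bor (ile (tht T g) 0) <|
  bor (anyLt T.l fun i => Nat.beq g (T.simple i)) <|
  bor (anyLt T.l fun i => forceB (T.refl i g) fun a => okG T g a (T.simple i)) <|
  anyLt T.l fun i => anyLt T.n fun a => okG T g a (T.simple i)
noncomputable def okS (T : Tab) (d : ℤ) (g s : ℕ) : Bool := anyLt T.n fun r =>
  band (ibeq (T.A r g) 0) <| band (bnot (ibeq (T.A r s) 0)) <| band (ile (T.A r s) d) (ile (-d) (T.A r s))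
noncomputable def chkS (T : Tab) (d : ℤ) : Bool := allL T.reps fun p =>
  bor (Nat.beq p.2 p.1) <| bor (Nat.beq p.2 (T.neg p.1)) (okS T d p.1 p.2)

section
variable {D : ChevalleyDatum} {T : Tab} (h : T.Chk D)

theorem ht_eq (r : Fin D.nroots) : h.cd.ht r = tht T r := (h.sumLt_eq' (T.rtv r)).symm

theorem gen (H : chkG T = true) : Gen h.cd := fun γ hγ => by
  have key : ∀ a (i : ℕ), i < T.l → okG T γ a (T.simple i) = true → ∃ a b, h.cd.Pos a ∧ h.cd.Pos b ∧ b ≠ a ∧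
      ∃ c ∈ h.cd.terms a b, c.1 = γ ∧ (c.2.1 = 1 ∨ c.2.1 = -1) ∧
        ((h.cd.terms a b).map fun y => h.cd.ht y.1).Nodup := fun a i hi H => by
    simp only [okG, band_iff, bnot_iff, Nat.blt_eq, Nat.beq_eq, List.any_eq_true, decide_eq_true_eq, ile_iff] at H
    obtain ⟨h1, h2, ⟨c, hc, h3, h4⟩, h5, h6⟩ := H
    have hb := h.simple_lt hi
    refine ⟨h.fin a, h.fin (T.simple i), (RS.pos_iff_ht _ _).2 (by rw [ht_eq, h.val_fin h1]; exact h5),
      h.cd.pos_sim ⟨i, h.hl ▸ hi⟩, h.fin_ne h1 hb h2, (h.fin c.1, c.2), ?_, by rw [h3, h.fin_val], h4, ?_⟩ <;>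
      rw [h.terms_eq h1 hb]
    · exact List.mem_map_of_mem hc
    · rw [List.map_map]
      convert h6 using 1
      refine List.map_congr_left fun y hy => ?_
      have := (h.gTerms_spec (h.fin a) (h.fin (T.simple i)) y (by rwa [h.val_fin h1, h.val_fin hb])).1
      rw [Function.comp, ht_eq, h.val_fin this]
  have := allLt_iff.1 H γ (h.lt_n γ)
  simp only [bor_iff, anyLt_iff, ile_iff, Nat.beq_eq, forceB_eq] at this
  rcases this with h1 | ⟨i, hi, h1⟩ | ⟨i, hi, h1⟩ | ⟨i, hi, a, -, h1⟩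
  · exact absurd (ht_eq h γ ▸ h.cd.ht_pos hγ) h1.not_gt
  · exact Or.inl ⟨⟨i, h.hl ▸ hi⟩, Fin.ext (h1.trans (h.val_sim ⟨i, _⟩).symm)⟩
  · exact Or.inr (key _ i hi h1)
  · exact Or.inr (key _ i hi h1)

variable {F : Type*} [Field F] [Fintype F]

theorem sep1 {d : ℤ} (hd : d < Fintype.card F - 1) {γ δ : Fin D.nroots} (H : okS T d γ δ = true) :
    Sep h.cd F γ δ := by
  simp only [okS, anyLt_iff, band_iff, bnot_iff, ibeq_iff, ile_iff] at H
  obtain ⟨r, hr, h1, h2, h3, h4⟩ := H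
  have e : ∀ s : Fin D.nroots, h.cd.A (h.fin r) s = T.A r s := fun s => by
    have := h.A_eq (h.fin r) s
    rwa [h.val_fin hr] at this
  exact ⟨h.fin r, (e _).trans h1, e _ ▸ h2, e _ ▸ (abs_le.2 ⟨h4, h3⟩).trans_lt hd⟩

theorem sep {d : ℤ} (hd : d < Fintype.card F - 1) (H : chkS T d = true) (γ : Fin D.nroots) (hγ : h.cd.Pos γ) :
    ∀ δ ∈ Hi h.cd γ, Sep h.cd F γ δ := fun δ hδ => by
  refine h.pair_induction (fun γ δ => δ ≠ γ → δ ≠ h.cd.neg γ → Sep h.cd F γ δ) (fun i r s H h1 h2 => ?_)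
    (fun r s hp h1 h2 => ?_) γ δ hδ.2.2
    (RS.ne_neg_of_pos (f := RS.htv) (h.cd.ht_pos hγ) (h.cd.ht_pos hδ.1))
  · have ha := h.rsys.s_mem_Aut i
    obtain ⟨u, hu⟩ := H (fun e => h1 ((h.rsys.s i).injective e))
      (fun e => h2 ((h.rsys.s i).injective (e.trans (RS.Aut.neg ha r).symm)))
    refine ⟨h.rsys.s i u, ?_⟩
    have e : ∀ v, h.cd.A (h.rsys.s i u) v = h.cd.A u (h.rsys.s i v) := fun v => by
      have := RS.Aut.A ha u (h.rsys.s i v)
      rwa [RS.s_s] at this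
    rwa [e, e]
  · have := allL_iff.1 H _ hp
    simp only [bor_iff, Nat.beq_eq] at this
    rcases this with e | e | e
    exacts [absurd (Fin.ext e) h1, absurd (Fin.ext (e.trans (h.val_neg r).symm)) h2, sep1 h hd e]

end

end Lead.WC
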