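import Cfsg.Agent.Lead.WC

/-! Weakly closed unipotent subgroups: the case `G₂(4)` and the assembly. -/

set_option autoImplicit false
set_option maxHeartbeats 400000

namespace Lead.WC
open Subgroup H24 Cfsg.Lie

variable {F : Type*} [Field F] [Fintype F]

theorem g2_core {ι Φ : Type} [Fintype ι] [DecidableEq ι] [Fintype Φ] [DecidableEq Φ] {R : CD ι Φ}
    {G : Type*} [Group G] {S : St R F G} {X : Subgroup G} (hX : X ≤ S.U) (hB : S.B ≤ normalizer (X : Set G))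
    (hq : Fintype.card F = 4) (r : ℕ → Φ) (p : ∀ k ∈ [6, 7, 8, 9, 10, 11], R.Pos (r k))
    (q : ∀ k ∈ [9, 10, 11], r k ∈ Hi R (r 8)) (n1 : r 6 ≠ r 7) (n2 : r 9 ≠ r 8) (n3 : r 7 ≠ r 8)
    (t1 : R.terms (r 7) (r 6) = [(r 8, -1, 1, 1), (r 9, 1, 2, 1), (r 10, 1, 3, 1), (r 11, 1, 3, 2)])
    (t2 : R.terms (r 6) (r 7) = [(r 8, 1, 1, 1), (r 9, 1, 1, 2), (r 10, -1, 1, 3), (r 11, -2, 2, 3)])
    (t3 : R.terms (r 8) (r 9) = [(r 11, 3, 1, 1)])
    (t4 : R.terms (r 8) (r 7) = [(r 9, 2, 1, 1), (r 11, 3, 2, 1), (r 10, -3, 1, 2)])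
    (P : ∀ γ, R.Pos γ → ∀ δ ∈ Hi R γ, Sep R F γ δ ∨ (γ ≠ r 8 ∧ (δ = r 11 ∨ (δ = r 10 ∧ γ ≠ r 11))))
    (hi : L S X (r 7) ∨ L S X (r 6)) : ∀ γ, R.Pos γ → ∀ δ ∈ Hi R γ, Sep R F γ δ ∨ E S X δ := by
  have h2 : ((2 : ℤ) : F) = 0 := by
    have := FiniteField.cast_card_eq_zero F
    rw [hq] at this
    have e : ((2 : ℤ) : F) ^ 2 = 0 := by push_cast at this ⊢; linear_combination this
    exact pow_eq_zero_iff two_ne_zero |>.1 e
  have h3 : ((3 : ℤ) : F) = 1 := by push_cast at h2 ⊢; linear_combination h2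
  simp only [List.forall_mem_cons] at p q
  obtain ⟨p6, p7, p8, p9, p10, p11, -⟩ := p
  obtain ⟨q9, q10, q11, -⟩ := q
  have L8 : L S X (r 8) := hi.elim (fun hi => D4 hX hB p7 p6 n1 t1 (by simp) hi (by simp [q9, q10, q11]))
    fun hi => D4 hX hB p6 p7 n1.symm t2 (by simp) hi (by simp [q9, q10, q11])
  have E8 := D2 hX hB L8 fun δ hδ => (P _ p8 δ hδ).imp_right fun H => absurd rfl H.1
  have E11 : E S X (r 11) := D2 hX hB (D3 hX hB p8 p9 n2 (l1 := []) (l2 := []) t3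
    (h3 ▸ one_ne_zero) (Or.inl E8) (by simp)) fun δ hδ => (P _ p11 δ hδ).imp_right fun H =>
      H.2.elim (fun e => absurd e hδ.2.2) fun e => absurd rfl e.2
  have E10 : E S X (r 10) := D2 hX hB (D3 hX hB p8 p7 n3 (l1 := [(r 9, 2, 1, 1), (r 11, 3, 2, 1)]) (l2 := []) t4
    (by rw [Int.cast_neg, h3]; simp) (Or.inl E8) (by
      simp only [List.append_nil, List.mem_cons, List.not_mem_nil, or_false]
      rintro _ (rfl | rfl)
      exacts [Or.inr (Or.inr h2), Or.inl E11])) fun δ hδ => (P _ p10 δ hδ).imp_right fun H =>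
      H.2.elim (fun e => e ▸ E11) fun e => absurd e.1 hδ.2.2
  exact fun γ hγ δ hδ => (P γ hγ δ hδ).imp_right fun H => H.2.elim (fun e => e ▸ E11) fun e => e.1 ▸ E10

noncomputable def chk4 (T : Tab) : Bool := band (Nat.beq T.n 12) <|
  band (allLt T.l fun i => bor (Nat.beq (T.simple i) 7) (Nat.beq (T.simple i) 6)) <|
  band (allL [6, 7, 8, 9, 10, 11] fun k => ile 1 (tht T k)) <|
  band (allL [9, 10, 11] fun k => ile (tht T 8) (tht T k)) <|
  band (decide (gTerms T.chain 7 6 = [(8, -1, 1, 1), (9, 1, 2, 1), (10, 1, 3, 1), (11, 1, 3, 2)])) <|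
  band (decide (gTerms T.chain 6 7 = [(8, 1, 1, 1), (9, 1, 1, 2), (10, -1, 1, 3), (11, -2, 2, 3)])) <|
  band (decide (gTerms T.chain 8 9 = [(11, 3, 1, 1)])) <|
  band (decide (gTerms T.chain 8 7 = [(9, 2, 1, 1), (11, 3, 2, 1), (10, -3, 1, 2)])) <|
  allLt 12 fun g => allLt 12 fun s => bor (ile (tht T s + 1) (tht T g)) <| bor (Nat.beq s g) <|
    bor (ile (tht T g) 0) <| bor (okS T 2 g s) (decide (g ≠ 8 ∧ (s = 11 ∨ (s = 10 ∧ g ≠ 11))))

theorem g2_four {D : ChevalleyDatum} {T : Tab} (h : T.Chk D) (H : chk4 T = true) (hq : Fintype.card F = 4)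
    {G : Type*} [Group G] {S : St h.cd F G} {X : Subgroup G}
    (hX : X ≤ S.U) (hB : S.B ≤ normalizer (X : Set G)) (i : Fin D.rank) (hi : L S X (h.cd.sim i)) :
    ∀ γ, h.cd.Pos γ → ∀ δ ∈ Hi h.cd γ, Sep h.cd F γ δ ∨ E S X δ := by
  simp only [chk4, band_iff, Nat.beq_eq, allLt_iff, allL_iff, bor_iff, ile_iff, decide_eq_true_eq] at H
  obtain ⟨hn, hs, hp, hq', t1, t2, t3, t4, P⟩ := H
  have v : ∀ k < 12, (h.fin k : ℕ) = k := fun k hk => h.val_fin (hn ▸ hk)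
  have p : ∀ k ∈ [6, 7, 8, 9, 10, 11], h.cd.Pos (h.fin k) := fun k hk =>
    (RS.pos_iff_ht _ _).2 (by rw [ht_eq, v k (by simp at hk; omega)]; exact hp k hk)
  have ne : ∀ a < 12, ∀ b < 12, b ≠ a → h.fin b ≠ h.fin a := fun a ha b hb => h.fin_ne (hn ▸ ha) (hn ▸ hb)
  have tm : ∀ a < 12, ∀ b < 12, h.cd.terms (h.fin a) (h.fin b) = (gTerms T.chain a b).map fun c => (h.fin c.1, c.2) :=
    fun a ha b hb => h.terms_eq (hn ▸ ha) (hn ▸ hb)
  refine g2_core hX hB hq h.fin p (fun k hk => ⟨p k (by simp at hk ⊢; omega), ?_, ne 8 (by omega) k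
      (by simp at hk; omega) (by simp at hk; omega)⟩) (ne _ (by omega) _ (by omega) (by omega))
    (ne _ (by omega) _ (by omega) (by omega)) (ne _ (by omega) _ (by omega) (by omega))
    (by rw [tm 7 (by omega) 6 (by omega), t1]; rfl) (by rw [tm 6 (by omega) 7 (by omega), t2]; rfl)
    (by rw [tm 8 (by omega) 9 (by omega), t3]; rfl) (by rw [tm 8 (by omega) 7 (by omega), t4]; rfl)
    (fun γ hγ δ hδ => ?_) ?_
  · rw [ht_eq, ht_eq, v 8 (by omega), v k (by simp at hk; omega)]; exact hq' k hk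
  · have h1 := hδ.2.1
    have h2 := h.cd.ht_pos hγ
    rw [ht_eq, ht_eq] at h1
    rw [ht_eq] at h2
    rcases P γ (hn ▸ h.lt_n γ) δ (hn ▸ h.lt_n δ) with e | e | e | e | ⟨e1, e⟩
    · omega
    · exact absurd (Fin.ext e) hδ.2.2
    · omega
    · exact Or.inl (sep1 h (by rw [hq]; norm_num) e)
    · refine Or.inr ⟨fun e => e1 (by rw [e, v 8 (by omega)]), e.imp (fun e => ?_) fun e => ⟨?_, fun e' => e.2 ?_⟩⟩
      · rw [← e, h.fin_val]
      · rw [← e.1, h.fin_val]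
      · rw [e', v 11 (by omega)]
  · have e : h.cd.sim i = h.fin (T.simple i) := rfl
    rw [e] at hi
    rcases hs i (h.lt_l i) with e' | e' <;> rw [e'] at hi
    exacts [Or.inl hi, Or.inr hi]

theorem fin' {D : ChevalleyDatum} {T : Tab} (h : T.Chk D) (hg : chkG T = true) {X : Subgroup (GL D.Idx F)}
    (hXU : X ≤ D.posUnipotent F)
    (hwc : ∀ g ∈ D.group F, X.map (MulAut.conj g).toMonoidHom ≤ D.posUnipotent F →
      X.map (MulAut.conj g).toMonoidHom = X)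
    (hs : X ≤ (h.st F).U → (h.st F).B ≤ normalizer (X : Set (GL D.Idx F)) → ∀ i, L (h.st F) X (h.cd.sim i) →
      ∀ γ, h.cd.Pos γ → ∀ δ ∈ Hi h.cd γ, Sep h.cd F γ δ ∨ E (h.st F) X δ) :
    ∃ J : Set ℕ, (∀ j ∈ J, j < D.rank) ∧ X = D.unipotentRadical F J := by
  rw [h.posUnipotent_eq] at hXU hwc
  rw [h.group_eq] at hwc
  obtain ⟨J, hJ⟩ := main hXU hwc (gen h hg) (hs hXU)
  refine ⟨Fin.val '' J, by rintro _ ⟨j, -, rfl⟩; exact j.2, ?_⟩
  rw [h.unipotentRadical_eq, hJ]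
  congr 1
  ext i
  exact (Fin.val_injective.mem_set_image).symm

end Lead.WC
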